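import Cfsg.Agent.Lib.S4758.Rec60
import Cfsg.Agent.Lib.Fusion.Meta.Frat

/-! Automorphism groups of 2-groups with at most two generators are solvable. -/

set_option autoImplicit false

namespace Cfsg.Agent.Lib.S4758

universe w

/-- `Aut W` is solvable if `|W| ≤ 4`. -/
theorem isSolvable_mulAut_of_card_le_four {W : Type w} [Group W] [Finite W] (hW : Nat.card W ≤ 4) :
    Group.IsSolvable (MulAut W) := by
  classical
  haveI hfinA : Finite (MulAut W) :=
    Finite.of_injective (fun f : MulAut W => (f : W → W)) DFunLike.coe_injective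
  let X := {x : W // x ≠ 1}
  haveI : Finite X := inferInstance
  let f : MulAut W →* Equiv.Perm X :=
    { toFun := fun e => e.toEquiv.subtypeEquiv (fun a => by
          have h : e.toEquiv a = e a := rfl
          simp only [ne_eq, h, EmbeddingLike.map_eq_one_iff])
      map_one' := by ext x; rfl
      map_mul' := by intro a b; ext x; rfl }
  have hf : Function.Injective f := by
    intro a b hab
    ext x
    by_cases hx : x = 1
    · rw [hx, map_one, map_one]
    · have := congrArg (fun e : Equiv.Perm X => ((e ⟨x, hx⟩ : X) : W)) hab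
      exact this
  have hX : Nat.card X + 1 = Nat.card W := by
    haveI := Fintype.ofFinite W
    rw [Nat.card_eq_fintype_card, Nat.card_eq_fintype_card]
    have : Fintype.card X = Fintype.card W - 1 := by
      simp [X, Fintype.card_subtype_compl]
    have h1 : 0 < Fintype.card W := Fintype.card_pos
    omega
  have hX3 : Nat.card X ≤ 3 := by omega
  have hcard : Nat.card (Equiv.Perm X) ∣ 6 := by
    haveI := Fintype.ofFinite X
    rw [Nat.card_eq_fintype_card, Fintype.card_perm, ← Nat.card_eq_fintype_card]
    interval_cases (Nat.card X) <;> decide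
  have hdvd : Nat.card (MulAut W) ∣ 6 := by
    refine (Subgroup.card_dvd_of_injective f hf).trans hcard
  refine Rec60Aux.solvable_of_dvd_sixty (hdvd.trans (by norm_num)) ?_
  intro h
  rw [h] at hdvd
  omega

/-- The action on the Frattini quotient. -/
noncomputable def fratHom (T : Type w) [Group T] : MulAut T →* MulAut (T ⧸ frattini T) where
  toFun β := QuotientGroup.congr (frattini T) (frattini T) β
    (Subgroup.characteristic_iff_map_eq.mp inferInstance β)
  map_one' := by
    ext x
    induction x using QuotientGroup.induction_on with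
    | H x => rfl
  map_mul' := by
    intro a b
    ext x
    induction x using QuotientGroup.induction_on with
    | H x => rfl

theorem isSolvable_mulAut_of_frat_le_four {T : Type w} [Group T] [Finite T] (hT : IsPGroup 2 T)
    (hW : Nat.card (T ⧸ frattini T) ≤ 4) : Group.IsSolvable (MulAut T) := by
  haveI hfinA : Finite (MulAut T) :=
    Finite.of_injective (fun f : MulAut T => (f : T → T)) DFunLike.coe_injective
  haveI : Group.IsSolvable (MulAut (T ⧸ frattini T)) := isSolvable_mulAut_of_card_le_four hW
  have hker : IsPGroup 2 (fratHom T).ker := by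
    haveI : Fact (Nat.Prime 2) := ⟨Nat.prime_two⟩
    rw [IsPGroup.iff_orderOf]
    rintro ⟨β, hβ⟩
    rw [Subgroup.orderOf_mk]
    have hne : orderOf β ≠ 0 := (orderOf_pos β).ne'
    obtain ⟨e, m, hm, he⟩ := Nat.exists_eq_pow_mul_and_not_dvd hne 2 (by norm_num)
    have hord : orderOf (β ^ (2 ^ e)) = m := by
      rw [orderOf_pow_of_dvd (pow_ne_zero _ two_ne_zero) (by rw [he]; exact dvd_mul_right _ _), he]
      exact Nat.mul_div_cancel_left _ (by positivity)
    have hγ : β ^ (2 ^ e) ∈ (fratHom T).ker := Subgroup.pow_mem _ hβ _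
    have hc : (orderOf (β ^ (2 ^ e))).Coprime 2 := by
      rw [hord]
      exact (Nat.Prime.coprime_iff_not_dvd Nat.prime_two).mpr hm |>.symm
    have hγ1 : β ^ (2 ^ e) = 1 := by
      refine Cfsg.Agent.Lib.Fusion.Meta.Frat.aut_eq_one_of_frattini hT _ hc ?_
      intro x
      have h1 : fratHom T (β ^ (2 ^ e)) (x : T ⧸ frattini T) = (x : T ⧸ frattini T) := by
        rw [MonoidHom.mem_ker.mp hγ]; rfl
      exact QuotientGroup.eq.mp h1.symm
    have hm1 : m = 1 := by rw [← hord, hγ1, orderOf_one]
    exact ⟨e, by rw [he, hm1, mul_one]⟩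
  haveI : Group.IsNilpotent (fratHom T).ker := hker.isNilpotent
  exact solvable_of_ker_le_range (fratHom T).ker.subtype (fratHom T) (by simp)

end Cfsg.Agent.Lib.S4758
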