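import Cfsg.Agent.Lib.S4758.Defs
import Cfsg.Agent.Lib.Char.Basic
import Cfsg.Agent.Lib.Char.Values
import Cfsg.Agent.Lib.Char.CompleteCor
import Cfsg.Agent.Lib.Char.AbelianQuot
import Cfsg.Agent.Lib.Char.LinearChars

/-! Basic consequences of the hypothesis of S4758: quotients, perfectness, normal generation by `u`,
and the possible values of an irreducible character at `u`. -/

set_option autoImplicit false

namespace Cfsg.Agent.Lib.S4758

open Cfsg Subgroup

universe w

variable {G : Type w} [Group G] {u : G}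

theorem Hyp.quot (hyp : Hyp G u) (N : Subgroup G) [N.Normal] : Hyp (G ⧸ N) (u : G ⧸ N) := by
  intro χ hχ
  have hirr := Cfsg.Agent.Lib.Char.Basic.isIrrCharacter_comp_surjective χ.2 (QuotientGroup.mk' N)
    (QuotientGroup.mk'_surjective N)
  have h := hyp ⟨_, hirr⟩ (by
    intro h
    apply hχ
    funext x
    obtain ⟨g, rfl⟩ := QuotientGroup.mk_surjective x
    exact congrFun h g)
  simpa using h

/-- A nonidentity element of a finite group is detected by an irreducible character. -/
theorem basic_exists_irr_apply_ne {Q : Type w} [Group Q] [Finite Q] {x : Q} (hx : x ≠ 1) :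
    ∃ χ : IrrCharacter Q, (χ : Q → ℂ) x ≠ (χ : Q → ℂ) 1 := by
  classical
  haveI := Fintype.ofFinite Q
  by_contra hcon
  push Not at hcon
  have h := Cfsg.Agent.Lib.Char.CompleteCor.isConj_of_forall_irr (g := x) (h := (1 : Q)) hcon
  exact hx (by simpa using h)

theorem basic_no_linear [Finite G] (hyp : Hyp G u) (χ : IrrCharacter G) (hχ : (χ : G → ℂ) ≠ triv G)
    (h1 : (χ : G → ℂ) 1 = 1) : False := by
  have hc : IsCharacter G (χ : G → ℂ) := Cfsg.Agent.Lib.Char.Basic.isCharacter_of_isIrrCharacter χ.2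
  obtain ⟨φ, hφ⟩ := Cfsg.Agent.Lib.Char.LinearChars.exists_hom_of_isCharacter_one hc h1
  have hne : (χ : G → ℂ) u ≠ 0 := by
    rw [hφ]
    exact Units.ne_zero _
  have hn := Cfsg.Agent.Lib.Char.Values.IsCharacter.norm_le hc u
  rw [h1, norm_one] at hn
  rcases hyp χ hχ with h | h
  · have h3 : (χ : G → ℂ) u = -3 := by
      rw [h1] at h
      linear_combination -h
    rw [h3] at hn
    norm_num at hn
  · exact hne h

theorem perfect [Finite G] (hyp : Hyp G u) : commutator G = ⊤ := by
  by_contra hcon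
  obtain ⟨g, hg⟩ : ∃ g : G, g ∉ commutator G := by
    by_contra h
    push Not at h
    exact hcon (eq_top_iff.2 fun x _ => h x)
  have hx : ((g : G ⧸ commutator G)) ≠ 1 := by
    rwa [Ne, QuotientGroup.eq_one_iff]
  obtain ⟨χ, hχ⟩ := basic_exists_irr_apply_ne hx
  have hcomm : ∀ a b : G ⧸ commutator G, a * b = b * a := by
    intro a b
    exact mul_comm (G := Abelianization G) a b
  obtain ⟨n, ρ, hρ, hchar⟩ := χ.2
  have hn : n = 1 := by
    have := Cfsg.Agent.Lib.Char.AbelianQuot.finrank_eq_one_of_commuting ρ (fun x y => by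
      rw [← Module.End.mul_eq_comp, ← map_mul, hcomm x y, map_mul, Module.End.mul_eq_comp])
    simpa using this
  subst hn
  have hirr := Cfsg.Agent.Lib.Char.Basic.isIrrCharacter_comp_surjective χ.2
    (QuotientGroup.mk' (commutator G)) (QuotientGroup.mk'_surjective _)
  refine basic_no_linear hyp ⟨_, hirr⟩ ?_ ?_
  · intro h
    apply hχ
    have h' := congrFun h g
    have h1 : χ.1 1 = 1 := by
      rw [← hchar]; simp
    have h2 : χ.1 (g : G ⧸ commutator G) = 1 := h'
    rw [h1, h2]
  · have h1 : χ.1 1 = 1 := by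
      rw [← hchar]; simp
    simpa using h1

theorem normalClosure_eq_top [Finite G] (hyp : Hyp G u) : normalClosure ({u} : Set G) = ⊤ := by
  by_contra hcon
  set N := normalClosure ({u} : Set G) with hN
  obtain ⟨g, hg⟩ : ∃ g : G, g ∉ N := by
    by_contra h
    push Not at h
    exact hcon (eq_top_iff.2 fun x _ => h x)
  have hx : ((g : G ⧸ N)) ≠ 1 := by
    rwa [Ne, QuotientGroup.eq_one_iff]
  obtain ⟨χ, hχ⟩ := basic_exists_irr_apply_ne hx
  have hirr := Cfsg.Agent.Lib.Char.Basic.isIrrCharacter_comp_surjective χ.2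
    (QuotientGroup.mk' N) (QuotientGroup.mk'_surjective _)
  have huN : u ∈ N := Subgroup.subset_normalClosure rfl
  have hu1 : ((u : G ⧸ N)) = 1 := (QuotientGroup.eq_one_iff _).2 huN
  have hval : χ.1 (u : G ⧸ N) = χ.1 1 := by rw [hu1]
  have hne0 : χ.1 1 ≠ 0 := by
    obtain ⟨n, ρ, hρ, hchar⟩ := χ.2
    haveI := Cfsg.Agent.Lib.Char.Integrality.nontrivial_of_isIrreducible ρ
    rw [← hchar]
    simp only [Representation.character, map_one, LinearMap.trace_one]
    simp only [Module.finrank_fin_fun, ne_eq, Nat.cast_eq_zero]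
    intro h0
    subst h0
    exact not_subsingleton (Fin 0 → ℂ) inferInstance
  rcases hyp ⟨_, hirr⟩ (by
    intro h
    apply hχ
    have h1 : χ.1 (g : G ⧸ N) = 1 := congrFun h g
    have h2 : χ.1 ((1 : G) : G ⧸ N) = 1 := congrFun h 1
    rw [h1]
    simpa using h2.symm) with h | h
  · have h1 : χ.1 ((1 : G) : G ⧸ N) - χ.1 (u : G ⧸ N) = 4 := h
    rw [hval] at h1
    simp only [QuotientGroup.mk_one, sub_self] at h1
    norm_num at h1
  · have h1 : χ.1 (u : G ⧸ N) = 0 := h
    rw [hval] at h1
    exact hne0 h1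

/-- A scalar `-1` element normally generating `G` forces all of `ρ` to commute. -/
theorem basic_commuting_of_neg_one [Finite G] {V : Type*} [AddCommGroup V] [Module ℂ V]
    (hnc : normalClosure ({u} : Set G) = ⊤) (ρ : Representation ℂ G V)
    (hu : ρ u = -1) (x y : G) : ρ x * ρ y = ρ y * ρ x := by
  let Z : Subgroup G :=
    { carrier := {g | ρ g = 1 ∨ ρ g = -1}
      mul_mem' := by
        rintro a b (ha | ha) (hb | hb) <;> simp [map_mul, ha, hb]
      one_mem' := by simp
      inv_mem' := by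
        rintro a (ha | ha)
        · left
          have h : ρ a⁻¹ * ρ a = 1 := by rw [← map_mul]; simp
          rwa [ha, mul_one] at h
        · right
          have h : ρ a⁻¹ * ρ a = 1 := by rw [← map_mul]; simp
          rw [ha] at h
          have h' : ρ a⁻¹ = - 1 := by
            have : -(ρ a⁻¹) = 1 := by simpa using h
            rw [← this]; simp
          exact h' }
  have hZn : Z.Normal := ⟨by
    rintro a (ha | ha) g
    · left
      show ρ (g * a * g⁻¹) = 1
      rw [map_mul, map_mul, ha, mul_one, ← map_mul]; simp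
    · right
      show ρ (g * a * g⁻¹) = -1
      rw [map_mul, map_mul, ha]
      have : ρ g * ρ g⁻¹ = 1 := by rw [← map_mul]; simp
      simp [this]⟩
  have hle : normalClosure ({u} : Set G) ≤ Z :=
    Subgroup.normalClosure_le_normal (by
      rintro _ rfl
      exact Or.inr hu)
  have hall : ∀ g : G, g ∈ Z := fun g => hle (by rw [hnc]; trivial)
  rcases hall x with hx | hx <;> rcases hall y with hy | hy <;> simp [hx, hy]

/-- deg 1, 2 impossible for nontrivial `χ` with `χ u ≠ 0`. -/
theorem value_cases [Finite G] (hyp : Hyp G u) (χ : IrrCharacter G) (hχ : (χ : G → ℂ) ≠ triv G) :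
    (χ : G → ℂ) u = 0 ∨ IsX u χ ∨ ∃ d : ℕ, 5 ≤ d ∧ (χ : G → ℂ) 1 = d ∧ (χ : G → ℂ) u = d - 4 := by
  by_cases h0 : (χ : G → ℂ) u = 0
  · exact Or.inl h0
  have hv : (χ : G → ℂ) 1 - (χ : G → ℂ) u = 4 := (hyp χ hχ).resolve_right h0
  obtain ⟨n, ρ, hρ, hchar⟩ := χ.2
  have hd : (χ : G → ℂ) 1 = n := by
    rw [← hchar]; simp
  have hval : (χ : G → ℂ) u = n - 4 := by
    rw [hd] at hv
    linear_combination -hv
  haveI hnt := Cfsg.Agent.Lib.Char.Integrality.nontrivial_of_isIrreducible ρ
  have hn0 : n ≠ 0 := by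
    intro h
    subst h
    exact not_subsingleton (Fin 0 → ℂ) inferInstance
  by_cases h5 : 5 ≤ n
  · exact Or.inr (Or.inr ⟨n, h5, hd, hval⟩)
  have hcases : n = 1 ∨ n = 2 ∨ n = 3 ∨ n = 4 := by omega
  rcases hcases with rfl | rfl | rfl | rfl
  · exact (basic_no_linear hyp χ hχ (by simpa using hd)).elim
  · exfalso
    have hnorm : ‖ρ.character u‖ = (Module.finrank ℂ (Fin 2 → ℂ) : ℝ) := by
      rw [hchar, hval]
      norm_num
    obtain ⟨ω, hω⟩ := (Cfsg.Agent.Lib.Char.Values.norm_character_eq_iff ρ u).1 hnorm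
    have hω1 : ω = -1 := by
      have h1 : ρ.character u = ω * 2 := by
        simp [Representation.character, hω, ← Module.End.one_eq_id, LinearMap.trace_one]
      rw [hchar, hval] at h1
      push_cast at h1
      linear_combination -(1 / 2 : ℂ) * h1
    have hu' : ρ u = -1 := by
      rw [hω, hω1]
      refine LinearMap.ext fun v => ?_
      simp
    have hcomm := basic_commuting_of_neg_one (normalClosure_eq_top hyp) ρ hu'
    have := Cfsg.Agent.Lib.Char.AbelianQuot.finrank_eq_one_of_commuting ρ (fun x y => hcomm x y)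
    simp at this
  · refine Or.inr (Or.inl ⟨by simpa using hd, ?_⟩)
    rw [hval]
    norm_num
  · exfalso
    apply h0
    rw [hval]
    norm_num

end Cfsg.Agent.Lib.S4758
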