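import Mathlib
import Cfsg.Prelude.Def_Characters
import Cfsg.Prelude.Def_CaseTheorems
import Cfsg.Prelude.Def_Classical

/-! Shared definitions for the proof of S4758. -/

set_option autoImplicit false
open scoped ComplexConjugate

namespace Cfsg.Agent.Lib.S4758

open Cfsg Subgroup

universe w

variable {G : Type w} [Group G]

/-- The hypothesis of S4758. -/
def Hyp (G : Type w) [Group G] (u : G) : Prop :=
  ∀ χ : IrrCharacter G, (χ : G → ℂ) ≠ (fun _ => (1 : ℂ)) →
    ((χ : G → ℂ) 1 - (χ : G → ℂ) u = 4 ∨ (χ : G → ℂ) u = 0)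

/-- The trivial character as a function. -/
abbrev triv (G : Type w) : G → ℂ := fun _ => 1

/-- degree 3, value -1 at `u`. -/
def IsX (u : G) (χ : IrrCharacter G) : Prop := (χ : G → ℂ) 1 = 3 ∧ (χ : G → ℂ) u = -1

/-- degree 5, value 1 at `u`. -/
def IsP (u : G) (χ : IrrCharacter G) : Prop := (χ : G → ℂ) 1 = 5 ∧ (χ : G → ℂ) u = 1

/-- degree 6, value 2 at `u`. -/
def IsR (u : G) (χ : IrrCharacter G) : Prop := (χ : G → ℂ) 1 = 6 ∧ (χ : G → ℂ) u = 2

/-- degree `d`, value 0 at `u`. -/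
def IsB (u : G) (d : ℕ) (χ : IrrCharacter G) : Prop := (χ : G → ℂ) 1 = d ∧ (χ : G → ℂ) u = 0

/-- real valued. -/
def IsReal (χ : G → ℂ) : Prop := ∀ g, conj (χ g) = χ g

/-- The number of irreducible characters of degree `d` not vanishing at `u`. -/
noncomputable def nA (u : G) (d : ℕ) : ℕ :=
  Nat.card {χ : IrrCharacter G // (χ : G → ℂ) 1 = d ∧ (χ : G → ℂ) u ≠ 0}

/-- The group-theoretic setup reached by the character theory. -/
structure Setup (u : G) (K : Subgroup G) [K.Normal] : Prop where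
  perf : commutator G = ⊤
  nc : normalClosure ({u} : Set G) = ⊤
  card : Nat.card (G ⧸ K) = 60
  hu : u ∉ K
  hu2 : u ^ 2 ∈ K
  cent : Nat.card (centralizer ({u} : Set G)) = 4
  cent' : Nat.card (centralizer ({(u : G ⧸ K)} : Set (G ⧸ K))) = 4

end Cfsg.Agent.Lib.S4758
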