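import Mathlib
import Cfsg.Agent.Lib.S4758.Defs
import Cfsg.Agent.Lib.Char.Ortho
import Cfsg.Agent.Lib.Char.LinearChars
import Cfsg.Agent.S0145

/-! Piece A3 of S4758, with `value_cases` and `table` as hypotheses. -/

set_option autoImplicit false
set_option linter.unusedSectionVars false
set_option linter.unusedVariables false

open scoped ComplexConjugate

namespace Cfsg.Agent.Lib.S4758

open Cfsg Subgroup Cfsg.Agent.Lib.Char.Ortho Cfsg.Agent.Lib.Char.Basic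

universe w

namespace DegreesCore

variable {G : Type w} [Group G] [Fintype G] {u : G}

/-- The statement of `value_cases`. -/
def VC (u : G) : Prop :=
  ∀ χ : IrrCharacter G, (χ : G → ℂ) ≠ triv G →
    (χ : G → ℂ) u = 0 ∨ IsX u χ ∨ ∃ d : ℕ, 5 ≤ d ∧ (χ : G → ℂ) 1 = d ∧ (χ : G → ℂ) u = d - 4

/-- The statement of `table`. -/
def TB (u : G) : Prop :=
  ∀ χ₁ χ₂ : IrrCharacter G, IsX u χ₁ → IsX u χ₂ →
    ((∃ ζ τ : IrrCharacter G, IsX u ζ ∧ IsR u τ ∧ (χ₁ : G → ℂ) * (χ₂ : G → ℂ) = (ζ : G → ℂ) + (τ : G → ℂ)) ∨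
    (∃ θ σ : IrrCharacter G, IsP u θ ∧ IsB u 4 σ ∧ (χ₁ : G → ℂ) * (χ₂ : G → ℂ) = (θ : G → ℂ) + (σ : G → ℂ)) ∨
    (∃ ζ θ : IrrCharacter G, IsX u ζ ∧ IsP u θ ∧ (χ₁ : G → ℂ) * (χ₂ : G → ℂ) = triv G + (ζ : G → ℂ) + (θ : G → ℂ)) ∨
    (∃ σ₁ σ₂ : IrrCharacter G, IsB u 4 σ₁ ∧ IsB u 4 σ₂ ∧ (χ₁ : G → ℂ) * (χ₂ : G → ℂ) = triv G + (σ₁ : G → ℂ) + (σ₂ : G → ℂ)) ∨
    (∃ σ : IrrCharacter G, IsB u 8 σ ∧ (χ₁ : G → ℂ) * (χ₂ : G → ℂ) = triv G + (σ : G → ℂ)))

theorem isIrr_triv : IsIrrCharacter G (triv G) := by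
  have h := Cfsg.Agent.Lib.Char.LinearChars.isIrr_of_hom (G := G) (1 : G →* ℂˣ)
  have e : (fun g : G => (((1 : G →* ℂˣ) g : ℂˣ) : ℂ)) = triv G := by
    funext g
    simp
  rwa [e] at h

/-- The trivial character. -/
def trivIrr : IrrCharacter G := ⟨triv G, isIrr_triv⟩

/-- nonnegative value at `u`, outside `IsX`. -/
theorem re_nonneg_of_not_X (hvc : VC u) (τ : IrrCharacter G) (hX : ¬ IsX u τ) :
    0 ≤ ((τ : G → ℂ) u).re := by
  by_cases ht : (τ : G → ℂ) = triv G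
  · rw [ht]
    simp
  · rcases hvc τ ht with h | h | ⟨d, hd, h1, h2⟩
    · rw [h]
      simp
    · exact absurd h hX
    · rw [h2]
      have : ((d : ℂ) - 4).re = (d : ℝ) - 4 := by simp
      rw [this]
      have : (5 : ℝ) ≤ d := by exact_mod_cast hd
      linarith

theorem exists_X_core (hvc : VC u) (hu : u ≠ 1) : ∃ χ : IrrCharacter G, IsX u χ := by
  classical
  by_contra hno
  push Not at hno
  have h0 : ∑ χ : IrrCharacter G, (χ : G → ℂ) u * conj ((χ : G → ℂ) 1) = 0 := by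
    have := (Cfsg.Agent.S0145.result u (1 : G)).2 (by rw [isConj_comm, isConj_one_right]; exact hu)
    rwa [finsum_irr_eq_sum] at this
  have hre : ∀ χ : IrrCharacter G, 0 ≤ ((χ : G → ℂ) u * conj ((χ : G → ℂ) 1)).re := by
    intro χ
    obtain ⟨n, -, hn⟩ := irr_degree_pos χ.2
    rw [hn]
    simp only [map_natCast, Complex.mul_re, Complex.natCast_re, Complex.natCast_im, mul_zero, sub_zero]
    exact mul_nonneg (re_nonneg_of_not_X hvc χ (hno χ)) (Nat.cast_nonneg n)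
  have h1 := congrArg Complex.re h0
  rw [Complex.re_sum, Complex.zero_re] at h1
  have h2 : ((trivIrr : IrrCharacter G) : G → ℂ) u * conj (((trivIrr : IrrCharacter G) : G → ℂ) 1) = 1 := by
    simp [trivIrr]
  have h3 := Finset.single_le_sum (f := fun χ : IrrCharacter G => ((χ : G → ℂ) u * conj ((χ : G → ℂ) 1)).re)
    (fun χ _ => hre χ) (Finset.mem_univ (trivIrr : IrrCharacter G))
  simp only [h2, h1] at h3
  simp at h3
  linarith

/-- The conjugate of an irreducible character. -/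
theorem isIrr_conj (χ : IrrCharacter G) : IsIrrCharacter G (fun g => conj ((χ : G → ℂ) g)) := by
  rw [isIrrCharacter_iff (isCharacter_conj (isCharacter_of_isIrrCharacter χ.2))]
  have h := classInner_irr_self χ.2
  have h2 : classInner (fun g => conj ((χ : G → ℂ) g)) (fun g => conj ((χ : G → ℂ) g)) =
      classInner (χ : G → ℂ) (χ : G → ℂ) := by
    unfold classInner
    congr 1
    refine Finset.sum_congr rfl fun g _ => ?_
    simp [mul_comm]
  rw [h2, h]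

theorem inner_conj_swap (χ ψ τ : G → ℂ) :
    classInner ((fun g => conj (χ g)) * τ) ψ = conj (classInner (χ * ψ) τ) := by
  unfold classInner
  rw [map_mul, map_sum, map_inv₀, map_natCast]
  congr 1
  refine Finset.sum_congr rfl fun g _ => ?_
  simp only [Pi.mul_apply, map_mul, Complex.conj_conj]
  ring

theorem exists_factor_core (hvc : VC u) (hu : u ≠ 1) (ψ : IrrCharacter G) {d : ℕ} (hd : 5 ≤ d)
    (h1 : (ψ : G → ℂ) 1 = d) (h2 : (ψ : G → ℂ) u = d - 4) :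
    ∃ χ₁ χ₂ : IrrCharacter G, IsX u χ₁ ∧ IsX u χ₂ ∧ classInner ((χ₁ : G → ℂ) * (χ₂ : G → ℂ)) (ψ : G → ℂ) ≠ 0 := by
  classical
  obtain ⟨χ, hχ⟩ := exists_X_core hvc hu
  have hfc : IsCharacter G ((χ : G → ℂ) * (ψ : G → ℂ)) :=
    isCharacter_mul (isCharacter_of_isIrrCharacter χ.2) (isCharacter_of_isIrrCharacter ψ.2)
  -- a constituent of type `X`
  have hex : ∃ τ : IrrCharacter G, IsX u τ ∧ classInner ((χ : G → ℂ) * (ψ : G → ℂ)) (τ : G → ℂ) ≠ 0 := by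
    by_contra hno
    push Not at hno
    have hdec := decomp_eq_sum_classInner hfc
    have hval := congrFun hdec u
    simp only [Pi.mul_apply, Finset.sum_apply, Pi.smul_apply, smul_eq_mul] at hval
    have hre : 0 ≤ (∑ τ : IrrCharacter G, classInner ((χ : G → ℂ) * (ψ : G → ℂ)) (τ : G → ℂ) * (τ : G → ℂ) u).re := by
      rw [Complex.re_sum]
      refine Finset.sum_nonneg fun τ _ => ?_
      by_cases hX : IsX u τ
      · rw [hno τ hX]
        simp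
      · obtain ⟨n, hn⟩ := exists_nat_classInner hfc τ
        rw [hn]
        simp only [Complex.mul_re, Complex.natCast_re, Complex.natCast_im, zero_mul, sub_zero]
        exact mul_nonneg (Nat.cast_nonneg n) (re_nonneg_of_not_X hvc τ hX)
    rw [← hval, hχ.2, h2] at hre
    have : (-1 * ((d : ℂ) - 4)).re = -((d : ℝ) - 4) := by simp
    rw [this] at hre
    have : (5 : ℝ) ≤ d := by exact_mod_cast hd
    linarith
  obtain ⟨τ, hτ, hne⟩ := hex
  refine ⟨⟨fun g => conj ((χ : G → ℂ) g), isIrr_conj χ⟩, τ, ⟨?_, ?_⟩, hτ, ?_⟩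
  · show conj ((χ : G → ℂ) 1) = 3
    rw [hχ.1]
    have h3 : (3 : ℂ) = ((3 : ℝ) : ℂ) := by norm_num
    rw [h3, Complex.conj_ofReal]
  · show conj ((χ : G → ℂ) u) = -1
    rw [hχ.2]
    simp
  · show classInner ((fun g => conj ((χ : G → ℂ) g)) * (τ : G → ℂ)) (ψ : G → ℂ) ≠ 0
    rw [inner_conj_swap]
    intro h
    apply hne
    have := congrArg (starRingEnd ℂ) h
    simpa using this

theorem eq_of_inner_ne {a : G → ℂ} (ha : IsIrrCharacter G a) (ψ : IrrCharacter G)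
    (h : classInner a (ψ : G → ℂ) ≠ 0) : (ψ : G → ℂ) = a := by
  by_contra hne
  exact h (classInner_irr_of_ne ha ψ.2 (Ne.symm hne))

theorem degrees_core (hvc : VC u) (htb : TB u) (hu : u ≠ 1) (ψ : IrrCharacter G)
    (hψ : (ψ : G → ℂ) ≠ triv G) (h0 : (ψ : G → ℂ) u ≠ 0) : IsX u ψ ∨ IsP u ψ ∨ IsR u ψ := by
  classical
  rcases hvc ψ hψ with h | h | ⟨d, hd, h1, h2⟩
  · exact absurd h h0
  · exact Or.inl h
  obtain ⟨χ₁, χ₂, h₁, h₂, hne⟩ := exists_factor_core hvc hu ψ hd h1 h2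
  have hT : ∀ {a : G → ℂ}, IsIrrCharacter G a → classInner a (ψ : G → ℂ) ≠ 0 → (ψ : G → ℂ) = a :=
    fun ha h => eq_of_inner_ne ha ψ h
  have hTr : classInner (triv G) (ψ : G → ℂ) = 0 :=
    classInner_irr_of_ne isIrr_triv ψ.2 (Ne.symm hψ)
  -- `ψ` equal to a listed constituent
  have hX : ∀ ζ : IrrCharacter G, IsX u ζ → (ψ : G → ℂ) = (ζ : G → ℂ) → IsX u ψ := by
    intro ζ hζ e
    exact ⟨by rw [e]; exact hζ.1, by rw [e]; exact hζ.2⟩
  have hR : ∀ ζ : IrrCharacter G, IsR u ζ → (ψ : G → ℂ) = (ζ : G → ℂ) → IsR u ψ := by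
    intro ζ hζ e
    exact ⟨by rw [e]; exact hζ.1, by rw [e]; exact hζ.2⟩
  have hP : ∀ ζ : IrrCharacter G, IsP u ζ → (ψ : G → ℂ) = (ζ : G → ℂ) → IsP u ψ := by
    intro ζ hζ e
    exact ⟨by rw [e]; exact hζ.1, by rw [e]; exact hζ.2⟩
  have hB : ∀ (k : ℕ) (ζ : IrrCharacter G), IsB u k ζ → (ψ : G → ℂ) ≠ (ζ : G → ℂ) := by
    intro k ζ hζ e
    apply h0
    rw [e]
    exact hζ.2
  rcases htb χ₁ χ₂ h₁ h₂ with ⟨ζ, τ, hζ, hτ, e⟩ | ⟨θ, σ, hθ, hσ, e⟩ | ⟨ζ, θ, hζ, hθ, e⟩ | ⟨σ₁, σ₂, hσ₁, hσ₂, e⟩ | ⟨σ, hσ, e⟩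
  · rw [e, classInner_add_left] at hne
    by_cases h3 : classInner (ζ : G → ℂ) (ψ : G → ℂ) = 0
    · rw [h3, zero_add] at hne
      exact Or.inr (Or.inr (hR τ hτ (hT τ.2 hne)))
    · exact Or.inl (hX ζ hζ (hT ζ.2 h3))
  · rw [e, classInner_add_left] at hne
    by_cases h3 : classInner (θ : G → ℂ) (ψ : G → ℂ) = 0
    · rw [h3, zero_add] at hne
      exact absurd (hT σ.2 hne) (hB 4 σ hσ)
    · exact Or.inr (Or.inl (hP θ hθ (hT θ.2 h3)))
  · rw [e, classInner_add_left, classInner_add_left, hTr, zero_add] at hne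
    by_cases h3 : classInner (ζ : G → ℂ) (ψ : G → ℂ) = 0
    · rw [h3, zero_add] at hne
      exact Or.inr (Or.inl (hP θ hθ (hT θ.2 hne)))
    · exact Or.inl (hX ζ hζ (hT ζ.2 h3))
  · rw [e, classInner_add_left, classInner_add_left, hTr, zero_add] at hne
    by_cases h3 : classInner (σ₁ : G → ℂ) (ψ : G → ℂ) = 0
    · rw [h3, zero_add] at hne
      exact absurd (hT σ₂.2 hne) (hB 4 σ₂ hσ₂)
    · exact absurd (hT σ₁.2 h3) (hB 4 σ₁ hσ₁)
  · rw [e, classInner_add_left, hTr, zero_add] at hne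
    exact absurd (hT σ.2 hne) (hB 8 σ hσ)

end DegreesCore

end Cfsg.Agent.Lib.S4758
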