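import Mathlib
import Cfsg.Agent.Lib.S4758.Defs
import Cfsg.Agent.Lib.Char.Values

/-! S4758 piece A1: Newton's identity for a character of degree three of a perfect group. -/

set_option autoImplicit false
open scoped ComplexConjugate

namespace Cfsg.Agent.Lib.S4758

open Cfsg Subgroup

universe w

variable {G : Type w} [Group G]

namespace CubeAux

theorem det_eq_one (hperf : commutator G = ⊤) {d : ℕ} (ρ : Representation ℂ G (Fin d → ℂ)) (t : G) :
    LinearMap.det (ρ t) = 1 := by
  let φ : G →* ℂ := (LinearMap.det : ((Fin d → ℂ) →ₗ[ℂ] (Fin d → ℂ)) →* ℂ).comp ρ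
  let ψ : G →* ℂˣ := MonoidHom.toHomUnits φ
  have hle : commutator G ≤ ψ.ker := by
    rw [commutator_def, commutator_le]
    intro a _ b _
    rw [MonoidHom.mem_ker, map_commutatorElement, commutatorElement_eq_one_iff_mul_comm.2 (mul_comm _ _)]
  have h1 : ψ t = 1 := hle (by rw [hperf]; exact mem_top t)
  have h2 : ((ψ t : ℂˣ) : ℂ) = φ t := MonoidHom.coe_toHomUnits φ t
  rw [h1] at h2
  simpa [φ] using h2.symm

theorem trace_sq_fin_three (A : Matrix (Fin 3) (Fin 3) ℂ) :
    (A * A).trace = A.trace ^ 2 - 2 * A.adjugate.trace := by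
  simp only [Matrix.trace_fin_three, Matrix.adjugate_fin_three, Matrix.mul_apply, Fin.sum_univ_three,
    Matrix.of_apply, Matrix.cons_val', Matrix.cons_val_zero, Matrix.cons_val_one, Matrix.cons_val_two]
  simp
  ring

end CubeAux

open CubeAux in
/-- Newton + `det = 1` (perfect). -/
theorem sq_value [Finite G] (hperf : commutator G = ⊤) {χ : G → ℂ} (hχ : IsCharacter G χ)
    (h3 : χ 1 = 3) (g : G) : χ (g ^ 2) = χ g ^ 2 - 2 * conj (χ g) := by
  have hinv := Cfsg.Agent.Lib.Char.Values.IsCharacter.inv hχ g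
  obtain ⟨n, ρ, rfl⟩ := hχ
  have hn : n = 3 := by
    have : ρ.character 1 = (n : ℂ) := by simp
    rw [this] at h3
    exact_mod_cast h3
  subst hn
  have htr : ∀ h : G, ρ.character h = (LinearMap.toMatrix' (ρ h)).trace := by
    intro h
    show LinearMap.trace ℂ _ (ρ h) = _
    rw [LinearMap.trace_eq_matrix_trace ℂ (Pi.basisFun ℂ (Fin 3))]
    rfl
  set A := LinearMap.toMatrix' (ρ g) with hA
  set B := LinearMap.toMatrix' (ρ g⁻¹) with hB
  have hAB : A * B = 1 := by
    rw [hA, hB, ← LinearMap.toMatrix'_comp]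
    have : (ρ g).comp (ρ g⁻¹) = 1 := by
      rw [← Module.End.mul_eq_comp, ← map_mul, mul_inv_cancel, map_one]
    rw [this]
    exact LinearMap.toMatrix'_one
  have hdet : A.det = 1 := by
    rw [hA, LinearMap.det_toMatrix']
    exact det_eq_one hperf ρ g
  have hadj : A.adjugate = B := by
    have h1 : A.adjugate * A = A.det • (1 : Matrix (Fin 3) (Fin 3) ℂ) := Matrix.adjugate_mul A
    calc A.adjugate = A.adjugate * (A * B) := by rw [hAB, mul_one]
      _ = (A.adjugate * A) * B := by rw [mul_assoc]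
      _ = B := by rw [h1, hdet, one_smul, one_mul]
  have hsq : LinearMap.toMatrix' (ρ (g ^ 2)) = A * A := by
    rw [hA, ← LinearMap.toMatrix'_comp, pow_two, map_mul, Module.End.mul_eq_comp]
  rw [htr (g ^ 2), hsq, trace_sq_fin_three, hadj, ← htr g, show B.trace = ρ.character g⁻¹ from (htr _).symm, hinv]

end Cfsg.Agent.Lib.S4758
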