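import Mathlib
import Cfsg.Agent.Lib.S4758.Defs
import Cfsg.Agent.Lib.S4758.Cube
import Cfsg.Agent.Lib.Char.Ortho
import Cfsg.Agent.Lib.Char.Values

/-! S4758 piece A1c, the parts independent of the symmetric square: values of degree three
characters at squares, constituents of a character trivial at `x`, and the parity of the
multiplicity of `-1`. -/

set_option autoImplicit false
open scoped ComplexConjugate

namespace Cfsg.Agent.Lib.S4758

open Cfsg Subgroup

universe w

variable {G : Type w} [Group G] {u : G}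

/-- `χ(u) = -1`, degree 3 ⇒ `χ(u²) = 3`. -/
theorem sq_of_isX [Finite G] (hperf : commutator G = ⊤) {χ : IrrCharacter G} (hχ : IsX u χ) :
    (χ : G → ℂ) (u ^ 2) = 3 := by
  have h := sq_value hperf (Cfsg.Agent.Lib.Char.Values.IsIrrCharacter.isCharacter χ.2) hχ.1 u
  rw [h, hχ.2]
  simp
  norm_num

/-- A constituent of a character `f` with `f (x) = f 1` has the same property. -/
theorem constituent_value [Fintype G] {f : G → ℂ} (hf : IsCharacter G f) (x : G) (hx : f x = f 1)
    (τ : IrrCharacter G) (hτ : classInner f (τ : G → ℂ) ≠ 0) : (τ : G → ℂ) x = (τ : G → ℂ) 1 := by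
  classical
  open Cfsg.Agent.Lib.Char.Ortho Cfsg.Agent.Lib.Char.Values in
  have hdec := decomp_eq_sum_classInner hf
  open Cfsg.Agent.Lib.Char.Ortho Cfsg.Agent.Lib.Char.Values in
  choose m hm using fun θ : IrrCharacter G => exists_nat_classInner hf θ
  have hval : ∀ y : G, f y = ∑ θ : IrrCharacter G, (m θ : ℂ) * (θ : G → ℂ) y := by
    intro y
    conv_lhs => rw [hdec]
    rw [Finset.sum_apply]
    refine Finset.sum_congr rfl fun θ _ => ?_
    simp [hm θ]
  open Cfsg.Agent.Lib.Char.Ortho Cfsg.Agent.Lib.Char.Values in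
  have hdeg : ∀ θ : IrrCharacter G, ∃ n : ℕ, (θ : G → ℂ) 1 = n := fun θ =>
    IsCharacter.exists_one_eq (IsIrrCharacter.isCharacter θ.2)
  choose d hd using hdeg
  open Cfsg.Agent.Lib.Char.Ortho Cfsg.Agent.Lib.Char.Values in
  have hle : ∀ θ : IrrCharacter G, ‖(θ : G → ℂ) x‖ ≤ (d θ : ℝ) := by
    intro θ
    have := IsCharacter.norm_le (IsIrrCharacter.isCharacter θ.2) x
    rw [hd θ] at this
    simpa using this
  have hre : ∀ θ : IrrCharacter G, ((θ : G → ℂ) x).re ≤ (d θ : ℝ) := fun θ =>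
    (Complex.re_le_norm _).trans (hle θ)
  have hsum : ∑ θ : IrrCharacter G, (m θ : ℝ) * ((d θ : ℝ) - ((θ : G → ℂ) x).re) = 0 := by
    have h1 := congrArg Complex.re hx
    rw [hval x, hval 1] at h1
    simp only [Complex.re_sum, hd, Complex.mul_re, Complex.natCast_re, Complex.natCast_im, zero_mul,
      sub_zero] at h1
    simp only [mul_sub, Finset.sum_sub_distrib]
    linarith
  have hz := (Finset.sum_eq_zero_iff_of_nonneg (fun θ _ =>
    mul_nonneg (Nat.cast_nonneg _) (sub_nonneg.mpr (hre θ)))).1 hsum τ (Finset.mem_univ _)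
  have hmτ : (m τ : ℝ) ≠ 0 := by
    intro h0
    apply hτ
    rw [hm τ]
    have : m τ = 0 := by exact_mod_cast h0
    simp [this]
  have hre' : ((τ : G → ℂ) x).re = (d τ : ℝ) := by
    have := (mul_eq_zero.1 hz).resolve_left hmτ
    linarith
  have him : ((τ : G → ℂ) x).im = 0 := by
    have h1 := hle τ
    have h2 := Complex.sq_norm_sub_sq_re ((τ : G → ℂ) x)
    rw [hre'] at h2
    have h3 : ‖(τ : G → ℂ) x‖ ^ 2 ≤ (d τ : ℝ) ^ 2 :=
      pow_le_pow_left₀ (norm_nonneg _) h1 2
    have h4 : ((τ : G → ℂ) x).im ^ 2 = 0 := by nlinarith [sq_nonneg ((τ : G → ℂ) x).im]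
    exact pow_eq_zero_iff (two_ne_zero) |>.1 h4
  rw [hd τ]
  apply Complex.ext
  · simpa using hre'
  · simpa using him

/-- perfect + `u²` acts trivially ⇒ `χ(1) - χ(u) ∈ 4ℤ` (u has even -1 multiplicity). -/
theorem four_dvd [Finite G] (hperf : commutator G = ⊤) (τ : IrrCharacter G)
    (h : (τ : G → ℂ) (u ^ 2) = (τ : G → ℂ) 1) :
    ∃ k : ℕ, (τ : G → ℂ) 1 - (τ : G → ℂ) u = 4 * k := by
  classical
  obtain ⟨τ, n, ρ, hρ, rfl⟩ := τ
  show ∃ k : ℕ, ρ.character 1 - ρ.character u = 4 * k
  have h' : ρ.character (u ^ 2) = ρ.character 1 := h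
  have hfr : ρ.character 1 = (Module.finrank ℂ (Fin n → ℂ) : ℂ) := by simp
  have hid := (Cfsg.Agent.Lib.Char.Values.character_eq_finrank_iff ρ (u ^ 2)).1 (by rw [h', hfr])
  have hsq : (ρ u) ^ 2 = 1 := by
    rw [← map_pow, hid]
    rfl
  obtain ⟨b, μ, h1, h2, -, h4⟩ := Cfsg.Agent.Lib.Char.Values.exists_eigenvalues (ρ u) (by norm_num) hsq
  have hcases : ∀ i, μ i = 1 ∨ μ i = -1 := fun i => by
    have h3 : (μ i - 1) * (μ i + 1) = 0 := by
      have := h2 i
      linear_combination this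
    rcases mul_eq_zero.1 h3 with h5 | h5
    · left; linear_combination h5
    · right; linear_combination h5
  have hdet := CubeAux.det_eq_one hperf ρ u
  have hdiag : LinearMap.toMatrix b b (ρ u) = Matrix.diagonal μ := by
    ext i j
    rw [LinearMap.toMatrix_apply, h1 j, map_smul, Finsupp.smul_apply, b.repr_self,
      Finsupp.single_apply, Matrix.diagonal_apply]
    by_cases hij : i = j
    · subst hij; simp
    · have : j ≠ i := fun h => hij h.symm
      simp [hij, this]
  have hprod : LinearMap.det (ρ u) = ∏ i, μ i := by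
    rw [← LinearMap.det_toMatrix b, hdiag, Matrix.det_diagonal]
  set S := Finset.univ.filter (fun i => μ i = -1) with hS
  have hμ : ∀ i, μ i = if μ i = -1 then (-1 : ℂ) else 1 := fun i => by
    rcases hcases i with h5 | h5
    · rw [h5]; norm_num
    · rw [h5]; simp
  have hprod2 : ∏ i, μ i = (-1 : ℂ) ^ S.card := by
    rw [Finset.prod_congr rfl (fun i _ => hμ i), Finset.prod_ite]
    simp [hS]
  have heven : Even S.card := by
    have h5 : (-1 : ℂ) ^ S.card = 1 := by rw [← hprod2, ← hprod, hdet]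
    exact (neg_one_pow_eq_one_iff_even (by norm_num)).1 h5
  obtain ⟨k, hk⟩ := heven
  refine ⟨k, ?_⟩
  have htr : ρ.character u = ∑ i, μ i := h4
  have hsum : ∑ i, (1 - μ i) = 2 * (S.card : ℂ) := by
    have h6 : ∀ i, 1 - μ i = if μ i = -1 then (2 : ℂ) else 0 := fun i => by
      rcases hcases i with h5 | h5
      · rw [h5]; norm_num
      · rw [h5]; norm_num
    rw [Finset.sum_congr rfl (fun i _ => h6 i), Finset.sum_ite]
    simp [hS, mul_comm]
  have hone : ρ.character 1 = ∑ _i : Fin (Module.finrank ℂ (Fin n → ℂ)), (1 : ℂ) := by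
    rw [hfr]; simp
  rw [htr, hone, ← Finset.sum_sub_distrib, hsum, hk]
  push_cast
  ring

end Cfsg.Agent.Lib.S4758
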