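import Cfsg.Agent.Lib.S4758.Basic
import Cfsg.Agent.Lib.S4758.PowerCore
import Cfsg.Agent.Lib.Char.IndNormal
import Cfsg.Agent.Lib.Char.Burnside2

/-! Piece A2 of S4758: the table of products of two degree-3 characters. -/

set_option autoImplicit false
open scoped ComplexConjugate

namespace Cfsg.Agent.Lib.S4758

open Cfsg Subgroup Cfsg.Agent.Lib.Char.Ortho

universe w

variable {G : Type w} [Group G] {u : G}

namespace TableAux

/-- A sum of products of naturals equal to two has few nonzero terms. -/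
theorem two_cases {ι : Type*} [Fintype ι] [DecidableEq ι] (m k : ι → ℕ)
    (h : ∑ i, m i * k i = 2) :
    (∃ i, m i = 1 ∧ k i = 2 ∧ ∀ j, j ≠ i → m j * k j = 0) ∨
    (∃ i, m i = 2 ∧ k i = 1 ∧ ∀ j, j ≠ i → m j * k j = 0) ∨
    (∃ i j, i ≠ j ∧ m i = 1 ∧ k i = 1 ∧ m j = 1 ∧ k j = 1 ∧
      ∀ l, l ≠ i → l ≠ j → m l * k l = 0) := by
  have hex : ∃ i, m i * k i ≠ 0 := by
    by_contra hh
    push Not at hh
    simp [hh] at h
  obtain ⟨i, hi⟩ := hex
  have h1 : m i * k i + ∑ j ∈ Finset.univ.erase i, m j * k j = ∑ j, m j * k j :=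
    Finset.add_sum_erase Finset.univ (fun j => m j * k j) (Finset.mem_univ i)
  rw [h] at h1
  have hcases : m i * k i = 1 ∨ m i * k i = 2 := by omega
  rcases hcases with h11 | h22
  · have hm : m i = 1 := Nat.eq_one_of_mul_eq_one_right h11
    have hk : k i = 1 := Nat.eq_one_of_mul_eq_one_left h11
    have hrest : ∑ j ∈ Finset.univ.erase i, m j * k j = 1 := by omega
    have hex2 : ∃ j ∈ Finset.univ.erase i, m j * k j ≠ 0 := by
      by_contra hh
      push Not at hh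
      rw [Finset.sum_eq_zero hh] at hrest
      omega
    obtain ⟨j, hj, hj0⟩ := hex2
    have h2 : m j * k j + ∑ l ∈ (Finset.univ.erase i).erase j, m l * k l
        = ∑ l ∈ Finset.univ.erase i, m l * k l :=
      Finset.add_sum_erase (Finset.univ.erase i) (fun l => m l * k l) hj
    rw [hrest] at h2
    have h3 : m j * k j = 1 := by omega
    have h4 : ∑ l ∈ (Finset.univ.erase i).erase j, m l * k l = 0 := by omega
    right; right
    refine ⟨i, j, (Finset.ne_of_mem_erase hj).symm, hm, hk, Nat.eq_one_of_mul_eq_one_right h3,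
      Nat.eq_one_of_mul_eq_one_left h3, fun l hli hlj => ?_⟩
    exact (Finset.sum_eq_zero_iff.mp h4) l (by simp [hli, hlj])
  · have hrest : ∑ j ∈ Finset.univ.erase i, m j * k j = 0 := by omega
    have hzero : ∀ j, j ≠ i → m j * k j = 0 := fun j hj =>
      Finset.sum_eq_zero_iff.mp hrest j (by simp [hj])
    have hcase : (m i = 1 ∧ k i = 2) ∨ (m i = 2 ∧ k i = 1) := by
      have hmle : m i ≤ 2 := Nat.le_of_dvd (by norm_num) ⟨k i, h22.symm⟩
      generalize m i = a at *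
      generalize k i = b at *
      interval_cases a <;> omega
    rcases hcase with ⟨ha, hb⟩ | ⟨ha, hb⟩
    · exact Or.inl ⟨i, ha, hb, hzero⟩
    · exact Or.inr (Or.inl ⟨i, ha, hb, hzero⟩)

/-- The three types of a constituent with `τ(1) - τ(u) = 4`. -/
def Ty (u : G) (τ : IrrCharacter G) : Prop :=
  IsB u 4 τ ∨ IsX u τ ∨ ∃ d : ℕ, 5 ≤ d ∧ (τ : G → ℂ) 1 = d ∧ (τ : G → ℂ) u = d - 4

/-- The five-way alternative for a function `F`. -/
def Alt (u : G) (F : G → ℂ) : Prop :=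
    (∃ ζ τ : IrrCharacter G, IsX u ζ ∧ IsR u τ ∧ F = (ζ : G → ℂ) + (τ : G → ℂ)) ∨
    (∃ θ σ : IrrCharacter G, IsP u θ ∧ IsB u 4 σ ∧ F = (θ : G → ℂ) + (σ : G → ℂ)) ∨
    (∃ ζ θ : IrrCharacter G, IsX u ζ ∧ IsP u θ ∧ F = triv G + (ζ : G → ℂ) + (θ : G → ℂ)) ∨
    (∃ σ₁ σ₂ : IrrCharacter G, IsB u 4 σ₁ ∧ IsB u 4 σ₂ ∧ F = triv G + (σ₁ : G → ℂ) + (σ₂ : G → ℂ)) ∨
    (∃ σ : IrrCharacter G, IsB u 8 σ ∧ F = triv G + (σ : G → ℂ))

/-- Case of two distinct constituents (or a double one) of multiplicity one. -/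
theorem alt_of_two {F : G → ℂ} {t : ℕ} (ht : t ≤ 1) (a b : IrrCharacter G)
    (hF : F = (t : ℂ) • triv G + (a : G → ℂ) + (b : G → ℂ)) (h9 : F 1 = 9)
    (ha : Ty u a) (hb : Ty u b) : Alt u F := by
  have hE : (t : ℂ) + (a : G → ℂ) 1 + (b : G → ℂ) 1 = 9 := by
    rw [← h9, hF]; simp
  have hF0 : t = 0 → F = (a : G → ℂ) + (b : G → ℂ) := by
    rintro rfl; rw [hF]; simp
  have hF1 : t = 1 → F = triv G + (a : G → ℂ) + (b : G → ℂ) := by
    rintro rfl; rw [hF]; simp
  have hF0' : t = 0 → F = (b : G → ℂ) + (a : G → ℂ) := fun h => by rw [hF0 h, add_comm]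
  have hF1' : t = 1 → F = triv G + (b : G → ℂ) + (a : G → ℂ) := fun h => by
    rw [hF1 h, add_assoc, add_assoc, add_comm (a : G → ℂ)]
  rcases ha with ha | ha | ⟨d, hd, ha1, hau⟩ <;> rcases hb with hb | hb | ⟨e, he, hb1, hbu⟩
  · -- B4, B4
    rw [ha.1, hb.1] at hE
    have : t + 4 + 4 = 9 := by exact_mod_cast hE
    exact Or.inr (Or.inr (Or.inr (Or.inl ⟨a, b, ha, hb, hF1 (by omega)⟩)))
  · -- B4, X
    rw [ha.1, hb.1] at hE
    have : t + 4 + 3 = 9 := by exact_mod_cast hE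
    omega
  · -- B4, D
    rw [ha.1, hb1] at hE
    have : t + 4 + e = 9 := by exact_mod_cast hE
    have ht0 : t = 0 := by omega
    have he5 : e = 5 := by omega
    subst he5
    refine Or.inr (Or.inl ⟨b, a, ⟨by simpa using hb1, ?_⟩, ha, hF0' ht0⟩)
    rw [hbu]; norm_num
  · -- X, B4
    rw [ha.1, hb.1] at hE
    have : t + 3 + 4 = 9 := by exact_mod_cast hE
    omega
  · -- X, X
    rw [ha.1, hb.1] at hE
    have : t + 3 + 3 = 9 := by exact_mod_cast hE
    omega
  · -- X, D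
    rw [ha.1, hb1] at hE
    have : t + 3 + e = 9 := by exact_mod_cast hE
    rcases (by omega : t = 0 ∨ t = 1) with ht0 | ht1
    · have he6 : e = 6 := by omega
      subst he6
      refine Or.inl ⟨a, b, ha, ⟨by simpa using hb1, ?_⟩, hF0 ht0⟩
      rw [hbu]; norm_num
    · have he5 : e = 5 := by omega
      subst he5
      refine Or.inr (Or.inr (Or.inl ⟨a, b, ha, ⟨by simpa using hb1, ?_⟩, hF1 ht1⟩))
      rw [hbu]; norm_num
  · -- D, B4
    rw [ha1, hb.1] at hE
    have : t + d + 4 = 9 := by exact_mod_cast hE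
    have ht0 : t = 0 := by omega
    have hd5 : d = 5 := by omega
    subst hd5
    refine Or.inr (Or.inl ⟨a, b, ⟨by simpa using ha1, ?_⟩, hb, hF0 ht0⟩)
    rw [hau]; norm_num
  · -- D, X
    rw [ha1, hb.1] at hE
    have : t + d + 3 = 9 := by exact_mod_cast hE
    rcases (by omega : t = 0 ∨ t = 1) with ht0 | ht1
    · have hd6 : d = 6 := by omega
      subst hd6
      refine Or.inl ⟨b, a, hb, ⟨by simpa using ha1, ?_⟩, hF0' ht0⟩
      rw [hau]; norm_num
    · have hd5 : d = 5 := by omega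
      subst hd5
      refine Or.inr (Or.inr (Or.inl ⟨b, a, hb, ⟨by simpa using ha1, ?_⟩, hF1' ht1⟩))
      rw [hau]; norm_num
  · -- D, D
    rw [ha1, hb1] at hE
    have : t + d + e = 9 := by exact_mod_cast hE
    omega

end TableAux

open TableAux in
/-- The table of products of two degree 3 characters. -/
theorem table [Fintype G] (hyp : Hyp G u) (χ₁ χ₂ : IrrCharacter G) (h₁ : IsX u χ₁) (h₂ : IsX u χ₂) :
    (∃ ζ τ : IrrCharacter G, IsX u ζ ∧ IsR u τ ∧ (χ₁ : G → ℂ) * (χ₂ : G → ℂ) = (ζ : G → ℂ) + (τ : G → ℂ)) ∨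
    (∃ θ σ : IrrCharacter G, IsP u θ ∧ IsB u 4 σ ∧ (χ₁ : G → ℂ) * (χ₂ : G → ℂ) = (θ : G → ℂ) + (σ : G → ℂ)) ∨
    (∃ ζ θ : IrrCharacter G, IsX u ζ ∧ IsP u θ ∧ (χ₁ : G → ℂ) * (χ₂ : G → ℂ) = triv G + (ζ : G → ℂ) + (θ : G → ℂ)) ∨
    (∃ σ₁ σ₂ : IrrCharacter G, IsB u 4 σ₁ ∧ IsB u 4 σ₂ ∧ (χ₁ : G → ℂ) * (χ₂ : G → ℂ) = triv G + (σ₁ : G → ℂ) + (σ₂ : G → ℂ)) ∨
    (∃ σ : IrrCharacter G, IsB u 8 σ ∧ (χ₁ : G → ℂ) * (χ₂ : G → ℂ) = triv G + (σ : G → ℂ)) := by
  classical
  change Alt u ((χ₁ : G → ℂ) * (χ₂ : G → ℂ))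
  have hperf := perfect hyp
  generalize hf_def : (χ₁ : G → ℂ) * (χ₂ : G → ℂ) = f
  have hf : IsCharacter G f := by
    rw [← hf_def]
    exact Cfsg.Agent.Lib.Char.Basic.isCharacter_mul
      (Cfsg.Agent.Lib.Char.Basic.isCharacter_of_isIrrCharacter χ₁.2)
      (Cfsg.Agent.Lib.Char.Basic.isCharacter_of_isIrrCharacter χ₂.2)
  have hf1 : f 1 = 9 := by
    rw [← hf_def, Pi.mul_apply, h₁.1, h₂.1]; norm_num
  have hfu : f u = 1 := by
    rw [← hf_def, Pi.mul_apply, h₁.2, h₂.2]; norm_num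
  have hfu2 : f (u ^ 2) = f 1 := by
    rw [hf1, ← hf_def, Pi.mul_apply, sq_of_isX hperf h₁, sq_of_isX hperf h₂]; norm_num
  choose m hm using fun τ : IrrCharacter G => exists_nat_classInner hf τ
  have hk : ∀ τ : IrrCharacter G, ∃ k : ℕ,
      m τ ≠ 0 → (τ : G → ℂ) 1 - (τ : G → ℂ) u = 4 * k := by
    intro τ
    by_cases h : m τ = 0
    · exact ⟨0, fun h' => absurd h h'⟩
    · have hc : classInner f (τ : G → ℂ) ≠ 0 := by
        rw [hm τ]; exact_mod_cast h
      obtain ⟨k, hk⟩ := four_dvd hperf τ (constituent_value hf (u ^ 2) hfu2 τ hc)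
      exact ⟨k, fun _ => hk⟩
  choose k hk using hk
  have hdecomp : f = ∑ τ : IrrCharacter G, (m τ : ℂ) • (τ : G → ℂ) := by
    have h := decomp_eq_sum_classInner hf
    rw [h]
    refine Finset.sum_congr rfl fun τ _ => ?_
    rw [hm τ]
  have heval : ∀ x, f x = ∑ τ : IrrCharacter G, (m τ : ℂ) * (τ : G → ℂ) x := by
    intro x
    conv_lhs => rw [hdecomp]
    rw [Finset.sum_apply]
    simp
  have hsum : ∑ τ : IrrCharacter G, m τ * k τ = 2 := by
    have h8 : (8 : ℂ) = ∑ τ : IrrCharacter G, (m τ : ℂ) * (4 * k τ) := by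
      have h8' : f 1 - f u = 8 := by rw [hf1, hfu]; norm_num
      rw [← h8', heval 1, heval u, ← Finset.sum_sub_distrib]
      refine Finset.sum_congr rfl fun τ _ => ?_
      by_cases h : m τ = 0
      · simp [h]
      · rw [← hk τ h]; ring
    have h2 : ((∑ τ : IrrCharacter G, m τ * k τ : ℕ) : ℂ) * 4 = 8 := by
      push_cast
      rw [h8, Finset.sum_mul]
      exact Finset.sum_congr rfl fun τ _ => by ring
    have h3 : (∑ τ : IrrCharacter G, m τ * k τ) * 4 = 8 := by exact_mod_cast h2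
    omega
  let T : IrrCharacter G := ⟨triv G, Cfsg.Agent.Lib.Char.Burnside2.isIrrCharacter_one⟩
  have hT : ∀ x, (T : G → ℂ) x = 1 := fun _ => rfl
  have hmT : m T ≤ 1 := by
    have hval : classInner f (T : G → ℂ) = classInner (χ₁ : G → ℂ) (fun g => conj ((χ₂ : G → ℂ) g)) := by
      unfold classInner
      refine congrArg _ (Finset.sum_congr rfl fun g _ => ?_)
      rw [hT, ← hf_def, Pi.mul_apply]
      simp
    rw [hm T, classInner_irr χ₁.2 (Cfsg.Agent.Lib.Char.IndNormal.isIrrCharacter_conj χ₂.2)] at hval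
    split_ifs at hval with h
    · have : m T = 1 := by exact_mod_cast hval
      omega
    · have : m T = 0 := by exact_mod_cast hval
      omega
  have hkT : m T * k T = 0 := by
    by_cases h : m T = 0
    · simp [h]
    · have h2 : (1 : ℂ) - 1 = 4 * k T := hk T h
      rw [sub_self] at h2
      have : k T = 0 := by
        have h3 : (k T : ℂ) = 0 := by
          have := h2.symm
          simpa using this
        exact_mod_cast h3
      simp [this]
  -- classification of nontrivial constituents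
  have hclass : ∀ τ : IrrCharacter G, τ ≠ T → m τ ≠ 0 →
      1 ≤ k τ ∧ (((τ : G → ℂ) u = 0 ∧ (τ : G → ℂ) 1 = 4 * k τ) ∨ (Ty u τ ∧ k τ = 1)) := by
    intro τ hτ hmτ
    have h4 := hk τ hmτ
    have hne : (τ : G → ℂ) ≠ triv G := fun h => hτ (Subtype.ext h)
    have hone : (τ : G → ℂ) 1 - (τ : G → ℂ) u = 4 → k τ = 1 := by
      intro h
      rw [h] at h4
      have h5 : (k τ : ℂ) = 1 := by
        have : (4 : ℂ) * k τ = 4 * 1 := by rw [← h4]; ring
        exact mul_left_cancel₀ (by norm_num) this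
      exact_mod_cast h5
    rcases value_cases hyp τ hne with h0 | hX | ⟨d, hd, h1, hu⟩
    · rw [h0, sub_zero] at h4
      have hk1 : 1 ≤ k τ := by
        by_contra hh
        have : k τ = 0 := by omega
        rw [this] at h4
        exact Cfsg.Agent.Lib.Char.Ortho.irr_apply_one_ne_zero τ.2 (by simpa using h4)
      exact ⟨hk1, Or.inl ⟨h0, h4⟩⟩
    · have h1 : k τ = 1 := hone (by rw [hX.1, hX.2]; norm_num)
      exact ⟨h1.ge, Or.inr ⟨Or.inr (Or.inl hX), h1⟩⟩
    · have h1' : k τ = 1 := hone (by rw [h1, hu]; ring)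
      exact ⟨h1'.ge, Or.inr ⟨Or.inr (Or.inr ⟨d, hd, h1, hu⟩), h1'⟩⟩
  have hty : ∀ τ : IrrCharacter G, τ ≠ T → m τ ≠ 0 → k τ = 1 → Ty u τ := by
    intro τ hτ hmτ hk1
    rcases (hclass τ hτ hmτ).2 with ⟨h0, h1⟩ | ⟨h, -⟩
    · refine Or.inl ⟨?_, h0⟩
      rw [h1, hk1]; norm_num
    · exact h
  have hzero : ∀ τ : IrrCharacter G, τ ≠ T → m τ * k τ = 0 → m τ = 0 := by
    intro τ hτ h
    by_contra hm0
    have := (hclass τ hτ hm0).1
    rcases Nat.mul_eq_zero.mp h with h | h <;> omega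
  have hval : (T : G → ℂ) = triv G := rfl
  have hmT' : m T = 0 ∨ m T = 1 := by omega
  rcases two_cases m k hsum with ⟨i, hmi, hki, hrest⟩ | ⟨i, hmi, hki, hrest⟩ |
      ⟨i, j, hij, hmi, hki, hmj, hkj, hrest⟩
  · -- one constituent with `k = 2`
    have hiT : i ≠ T := by
      rintro rfl
      rw [hmi, hki] at hkT
      omega
    have hF : f = (m T : ℂ) • (T : G → ℂ) + (i : G → ℂ) := by
      rw [hdecomp, Finset.sum_eq_add_of_mem T i (Finset.mem_univ _) (Finset.mem_univ _) hiT.symm,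
        hmi]
      · simp
      · rintro c - ⟨hcT, hci⟩
        rw [hzero c hcT (hrest c hci)]
        simp
    rcases (hclass i hiT (by omega)).2 with ⟨h0, h1⟩ | ⟨-, hk1⟩
    · rw [hki] at h1
      have hE : (m T : ℂ) + (i : G → ℂ) 1 = 9 := by
        rw [← hf1, hF]; simp [hT]
      rw [h1] at hE
      have hE' : m T + 4 * 2 = 9 := by exact_mod_cast hE
      have hmT1 : m T = 1 := by omega
      refine Or.inr (Or.inr (Or.inr (Or.inr ⟨i, ⟨?_, h0⟩, ?_⟩)))
      · rw [h1]; norm_num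
      · rw [hF, hmT1]; simp [hval]
    · omega
  · -- one constituent with multiplicity two
    have hiT : i ≠ T := by
      rintro rfl
      rw [hmi, hki] at hkT
      omega
    have hF : f = (m T : ℂ) • (T : G → ℂ) + (i : G → ℂ) + (i : G → ℂ) := by
      rw [hdecomp, Finset.sum_eq_add_of_mem T i (Finset.mem_univ _) (Finset.mem_univ _) hiT.symm,
        hmi]
      · push_cast
        rw [two_smul, add_assoc]
      · rintro c - ⟨hcT, hci⟩
        rw [hzero c hcT (hrest c hci)]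
        simp
    have hi := hty i hiT (by omega) hki
    exact alt_of_two (by omega) i i (by simpa [hval] using hF) hf1 hi hi
  · -- two constituents
    have hiT : i ≠ T := by
      rintro rfl
      rw [hmi, hki] at hkT
      omega
    have hjT : j ≠ T := by
      rintro rfl
      rw [hmj, hkj] at hkT
      omega
    have hF : f = (m T : ℂ) • (T : G → ℂ) + (i : G → ℂ) + (j : G → ℂ) := by
      rw [hdecomp, ← Finset.add_sum_erase Finset.univ _ (Finset.mem_univ T),
        Finset.sum_eq_add_of_mem i j (by simp [hiT]) (by simp [hjT]) hij, hmi, hmj, add_assoc]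
      · simp
      · rintro c hc ⟨hci, hcj⟩
        rw [hzero c (Finset.ne_of_mem_erase hc) (hrest c hci hcj)]
        simp
    exact alt_of_two (by omega) i j (by simpa [hval] using hF) hf1
      (hty i hiT (by omega) hki) (hty j hjT (by omega) hkj)

end Cfsg.Agent.Lib.S4758
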