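import Mathlib
import Cfsg.Agent.Lib.S4758.DegreesCore
import Cfsg.Agent.Lib.S4758.Basic
import Cfsg.Agent.Lib.S4758.Table

/-! Piece A3 of S4758. -/

set_option autoImplicit false

namespace Cfsg.Agent.Lib.S4758

open Cfsg Subgroup

universe w

variable {G : Type w} [Group G] {u : G}

theorem exists_X [Fintype G] (hyp : Hyp G u) (hu : u ≠ 1) : ∃ χ : IrrCharacter G, IsX u χ :=
  DegreesCore.exists_X_core (fun χ hχ => value_cases hyp χ hχ) hu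

/-- every degree ≥ 5 char not vanishing at `u` lies in a product of two `IsX`. -/
theorem exists_factor [Fintype G] (hyp : Hyp G u) (hu : u ≠ 1) (ψ : IrrCharacter G) {d : ℕ} (hd : 5 ≤ d)
    (h1 : (ψ : G → ℂ) 1 = d) (h2 : (ψ : G → ℂ) u = d - 4) :
    ∃ χ₁ χ₂ : IrrCharacter G, IsX u χ₁ ∧ IsX u χ₂ ∧ classInner ((χ₁ : G → ℂ) * (χ₂ : G → ℂ)) (ψ : G → ℂ) ≠ 0 :=
  DegreesCore.exists_factor_core (fun χ hχ => value_cases hyp χ hχ) hu ψ hd h1 h2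

theorem degrees [Fintype G] (hyp : Hyp G u) (hu : u ≠ 1) (ψ : IrrCharacter G) (hψ : (ψ : G → ℂ) ≠ triv G)
    (h0 : (ψ : G → ℂ) u ≠ 0) : IsX u ψ ∨ IsP u ψ ∨ IsR u ψ :=
  DegreesCore.degrees_core (fun χ hχ => value_cases hyp χ hχ) (fun χ₁ χ₂ h₁ h₂ => table hyp χ₁ χ₂ h₁ h₂) hu ψ hψ h0

end Cfsg.Agent.Lib.S4758
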