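import Mathlib
import Cfsg.Agent.Lib.S4758.Defs
import Cfsg.Agent.Lib.Char.Ortho
import Cfsg.Agent.Lib.Char.Burnside2
import Cfsg.Agent.S0145

/-! Piece A4 of S4758, core: the numerical consequences of column orthogonality at `u`. -/

set_option autoImplicit false
set_option linter.unusedSectionVars false
set_option linter.unusedVariables false
set_option linter.style.haveILetI false
open scoped ComplexConjugate

namespace Cfsg.Agent.Lib.S4758

open Cfsg Subgroup

universe w

variable {G : Type w} [Group G] {u : G}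


namespace NumericsAux

theorem sum_split [Fintype G] (hyp : Hyp G u) (hu : u ≠ 1)
    (hdeg : ∀ ψ : IrrCharacter G, (ψ : G → ℂ) ≠ triv G → (ψ : G → ℂ) u ≠ 0 → IsX u ψ ∨ IsP u ψ ∨ IsR u ψ)
    (F : ℂ → ℂ → ℂ) (hF : ∀ d, F d 0 = 0) :
    ∑ χ : IrrCharacter G, F ((χ : G → ℂ) 1) ((χ : G → ℂ) u)
      = F 1 1 + nA u 3 * F 3 (-1) + nA u 5 * F 5 1 + nA u 6 * F 6 2 := by
  classical
  let one : IrrCharacter G := ⟨triv G, Cfsg.Agent.Lib.Char.Burnside2.isIrrCharacter_one⟩
  have hval3 : (3 : ℂ) ≠ 1 := by norm_num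
  have hval5 : (5 : ℂ) ≠ 1 := by norm_num
  have hval6 : (6 : ℂ) ≠ 1 := by norm_num
  have h35 : (3 : ℂ) ≠ 5 := by norm_num
  have h36 : (3 : ℂ) ≠ 6 := by norm_num
  have h56 : (5 : ℂ) ≠ 6 := by norm_num
  -- the three classes, as in `nA`
  have hntriv : ∀ (χ : IrrCharacter G) (d : ℂ), d ≠ 1 → (χ : G → ℂ) 1 = d → (χ : G → ℂ) ≠ triv G := by
    intro χ d hd h1 h2
    rw [h2] at h1
    exact hd h1.symm
  have hn3 : ∀ χ : IrrCharacter G, ((χ : G → ℂ) 1 = (3 : ℕ) ∧ (χ : G → ℂ) u ≠ 0) ↔ IsX u χ := by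
    intro χ
    constructor
    · rintro ⟨h1, h0⟩
      have h1' : (χ : G → ℂ) 1 = 3 := by exact_mod_cast h1
      rcases hdeg χ (hntriv χ 3 hval3 h1') h0 with h | h | h
      · exact h
      · exact absurd (h1'.symm.trans h.1) h35
      · exact absurd (h1'.symm.trans h.1) h36
    · rintro ⟨h1, h2⟩
      refine ⟨by rw [h1]; norm_num, by rw [h2]; norm_num⟩
  have hn5 : ∀ χ : IrrCharacter G, ((χ : G → ℂ) 1 = (5 : ℕ) ∧ (χ : G → ℂ) u ≠ 0) ↔ IsP u χ := by
    intro χ
    constructor
    · rintro ⟨h1, h0⟩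
      have h1' : (χ : G → ℂ) 1 = 5 := by exact_mod_cast h1
      rcases hdeg χ (hntriv χ 5 hval5 h1') h0 with h | h | h
      · exact absurd (h.1.symm.trans h1') h35
      · exact h
      · exact absurd (h1'.symm.trans h.1) h56
    · rintro ⟨h1, h2⟩
      refine ⟨by rw [h1]; norm_num, by rw [h2]; norm_num⟩
  have hn6 : ∀ χ : IrrCharacter G, ((χ : G → ℂ) 1 = (6 : ℕ) ∧ (χ : G → ℂ) u ≠ 0) ↔ IsR u χ := by
    intro χ
    constructor
    · rintro ⟨h1, h0⟩
      have h1' : (χ : G → ℂ) 1 = 6 := by exact_mod_cast h1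
      rcases hdeg χ (hntriv χ 6 hval6 h1') h0 with h | h | h
      · exact absurd (h.1.symm.trans h1') h36
      · exact absurd (h.1.symm.trans h1') h56
      · exact h
    · rintro ⟨h1, h2⟩
      refine ⟨by rw [h1]; norm_num, by rw [h2]; norm_num⟩
  have hcard : ∀ (d : ℕ) (Q : IrrCharacter G → Prop),
      (∀ χ : IrrCharacter G, ((χ : G → ℂ) 1 = d ∧ (χ : G → ℂ) u ≠ 0) ↔ Q χ) →
      ∑ χ : IrrCharacter G, (if Q χ then (1 : ℂ) else 0) = nA u d := by
    intro d Q hQ
    rw [Finset.sum_boole, nA, Nat.card_eq_fintype_card, Fintype.card_subtype]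
    congr 2
    ext χ
    simp only [Finset.mem_filter, Finset.mem_univ, true_and]
    exact (hQ χ).symm
  have hone : ∑ χ : IrrCharacter G, (if χ = one then (1 : ℂ) else 0) = 1 := by
    rw [Finset.sum_ite_eq']
    simp
  have hpt : ∀ χ : IrrCharacter G, F ((χ : G → ℂ) 1) ((χ : G → ℂ) u)
      = F 1 1 * (if χ = one then (1 : ℂ) else 0)
        + F 3 (-1) * (if IsX u χ then (1 : ℂ) else 0)
        + F 5 1 * (if IsP u χ then (1 : ℂ) else 0)
        + F 6 2 * (if IsR u χ then (1 : ℂ) else 0) := by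
    intro χ
    by_cases h1 : χ = one
    · subst h1
      have hnX : ¬ IsX u one := fun h => hval3 (h.1.symm.trans rfl)
      have hnP : ¬ IsP u one := fun h => hval5 (h.1.symm.trans rfl)
      have hnR : ¬ IsR u one := fun h => hval6 (h.1.symm.trans rfl)
      simp only [if_true, if_neg hnX, if_neg hnP, if_neg hnR, mul_zero, add_zero, mul_one]
      rfl
    · rw [if_neg h1, mul_zero, zero_add]
      have htriv : (χ : G → ℂ) ≠ triv G := fun h => h1 (Subtype.ext h)
      by_cases h0 : (χ : G → ℂ) u = 0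
      · have hnX : ¬ IsX u χ := fun h => by
          have := h.2; rw [h0] at this; norm_num at this
        have hnP : ¬ IsP u χ := fun h => by
          have := h.2; rw [h0] at this; norm_num at this
        have hnR : ¬ IsR u χ := fun h => by
          have := h.2; rw [h0] at this; norm_num at this
        rw [h0, hF, if_neg hnX, if_neg hnP, if_neg hnR]
        simp
      · rcases hdeg χ htriv h0 with h | h | h
        · have hnP : ¬ IsP u χ := fun h' => h35 (h.1.symm.trans h'.1)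
          have hnR : ¬ IsR u χ := fun h' => h36 (h.1.symm.trans h'.1)
          rw [if_pos h, if_neg hnP, if_neg hnR, h.1, h.2]
          simp
        · have hnX : ¬ IsX u χ := fun h' => h35 (h'.1.symm.trans h.1)
          have hnR : ¬ IsR u χ := fun h' => h56 (h.1.symm.trans h'.1)
          rw [if_pos h, if_neg hnX, if_neg hnR, h.1, h.2]
          simp
        · have hnX : ¬ IsX u χ := fun h' => h36 (h'.1.symm.trans h.1)
          have hnP : ¬ IsP u χ := fun h' => h56 (h'.1.symm.trans h.1)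
          rw [if_pos h, if_neg hnX, if_neg hnP, h.1, h.2]
          simp
  simp_rw [hpt]
  rw [Finset.sum_add_distrib, Finset.sum_add_distrib, Finset.sum_add_distrib]
  simp_rw [← Finset.mul_sum]
  rw [hone, hcard 3 _ hn3, hcard 5 _ hn5, hcard 6 _ hn6]
  ring

end NumericsAux

theorem numerics_core [Fintype G] (hyp : Hyp G u) (hu : u ≠ 1)
    (hdeg : ∀ ψ : IrrCharacter G, (ψ : G → ℂ) ≠ triv G → (ψ : G → ℂ) u ≠ 0 → IsX u ψ ∨ IsP u ψ ∨ IsR u ψ) :
    3 * nA u 3 = 1 + 5 * nA u 5 + 12 * nA u 6 ∧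
      Nat.card (centralizer ({u} : Set G)) = 1 + nA u 3 + nA u 5 + 4 * nA u 6 := by
  constructor
  · have h1 := (Cfsg.Agent.S0145.result u (1 : G)).2 (fun h => hu (isConj_one_right.1 h.symm))
    rw [Cfsg.Agent.Lib.Char.Ortho.finsum_irr_eq_sum] at h1
    have h2 := NumericsAux.sum_split hyp hu hdeg (fun d v => v * conj d) (by intro d; simp)
    rw [h1] at h2
    have h3 : (3 * nA u 3 : ℂ) = 1 + 5 * nA u 5 + 12 * nA u 6 := by
      have e1 : conj (1 : ℂ) = 1 := by simp
      have e3 : conj (3 : ℂ) = 3 := Complex.conj_ofNat 3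
      have e5 : conj (5 : ℂ) = 5 := Complex.conj_ofNat 5
      have e6 : conj (6 : ℂ) = 6 := Complex.conj_ofNat 6
      rw [e1, e3, e5, e6] at h2
      linear_combination h2
    exact_mod_cast h3
  · have h1 := (Cfsg.Agent.S0145.result u u).1 (IsConj.refl u)
    rw [Cfsg.Agent.Lib.Char.Ortho.finsum_irr_eq_sum] at h1
    have h2 := NumericsAux.sum_split hyp hu hdeg (fun _ v => v * conj v) (by intro d; simp)
    rw [h1] at h2
    have h3 : (Nat.card (centralizer ({u} : Set G)) : ℂ) = 1 + nA u 3 + nA u 5 + 4 * nA u 6 := by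
      have e1 : conj (1 : ℂ) = 1 := by simp
      have e2 : conj (2 : ℂ) = 2 := Complex.conj_ofNat 2
      have e3 : conj (-1 : ℂ) = -1 := by simp
      rw [e1, e2, e3] at h2
      rw [h2]
      ring
    exact_mod_cast h3

end Cfsg.Agent.Lib.S4758
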