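import Mathlib
import Cfsg.Agent.Lib.S4758.NumericsCore
import Cfsg.Agent.Lib.S4758.Degrees

/-! Piece A4 of S4758: the numerical consequences of column orthogonality at `u`. -/

set_option autoImplicit false

namespace Cfsg.Agent.Lib.S4758

open Cfsg Subgroup

universe w

variable {G : Type w} [Group G] {u : G}

theorem numerics [Fintype G] (hyp : Hyp G u) (hu : u ≠ 1) :
    3 * nA u 3 = 1 + 5 * nA u 5 + 12 * nA u 6 ∧
      Nat.card (centralizer ({u} : Set G)) = 1 + nA u 3 + nA u 5 + 4 * nA u 6 :=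
  numerics_core hyp hu (fun ψ h1 h2 => degrees hyp hu ψ h1 h2)

theorem card_centralizer_mod [Fintype G] (hyp : Hyp G u) (hu : u ≠ 1) :
    Nat.card (centralizer ({u} : Set G)) % 8 = 4 := by
  obtain ⟨h1, h2⟩ := numerics hyp hu
  omega

end Cfsg.Agent.Lib.S4758
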