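import Mathlib
import Cfsg.Agent.Lib.S4758.Defs
import Cfsg.Agent.Lib.Char.Basic
import Cfsg.Agent.Lib.CharFS.Indicator

/-! Symmetric and alternating squares of a character are characters. -/

set_option autoImplicit false
open scoped Kronecker ComplexConjugate

namespace Cfsg.Agent.Lib.S4758

open Cfsg Subgroup

universe w

namespace SymAltAux

/-- The trace of `T ∘ P`, for `P` the projection on `W` along `W'` and `T` preserving `W`, is the
trace of `T` on `W`. -/
theorem trace_comp_proj {V : Type*} [AddCommGroup V] [Module ℂ V] [FiniteDimensional ℂ V]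
    (W W' : Submodule ℂ V) (hc : IsCompl W W') (T P : V →ₗ[ℂ] V)
    (hT : ∀ x ∈ W, T x ∈ W) (hP : ∀ x ∈ W, P x = x) (hP' : ∀ x ∈ W', P x = 0) :
    LinearMap.trace ℂ V (T ∘ₗ P) = LinearMap.trace ℂ W (T.restrict hT) := by
  classical
  let e := Submodule.prodEquivOfIsCompl W W' hc
  have key : e.symm.conj (T ∘ₗ P) = (T.restrict hT).prodMap (0 : W' →ₗ[ℂ] W') := by
    apply LinearMap.ext
    rintro ⟨a, b⟩
    have h1 : e.symm.conj (T ∘ₗ P) (a, b) = e.symm (T (P (e (a, b)))) := by
      simp [LinearEquiv.conj_apply]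
    rw [h1]
    have h2 : e (a, b) = (a : V) + (b : V) := by
      simp [e, Submodule.coe_prodEquivOfIsCompl']
    rw [h2, map_add, hP _ a.2, hP' _ b.2, add_zero]
    apply e.injective
    rw [LinearEquiv.apply_symm_apply]
    simp [e, Submodule.coe_prodEquivOfIsCompl', LinearMap.restrict_apply]
  have h3 := LinearMap.trace_conj' (T ∘ₗ P) e.symm
  rw [← h3, key, LinearMap.trace_prodMap']
  simp

variable {G : Type w} [Group G]

/-- The general statement, for a sign `ε`. -/
theorem isCharacter_sq {χ : G → ℂ} (hχ : IsCharacter G χ) (ε : ℂ) (hε : ε * ε = 1) :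
    IsCharacter G (fun g => (χ g ^ 2 + ε * χ (g ^ 2)) / 2) := by
  classical
  obtain ⟨n, ρ, rfl⟩ := hχ
  let M : G → Matrix (Fin n) (Fin n) ℂ := fun x => LinearMap.toMatrix' (ρ x)
  have hMmul : ∀ x y, M (x * y) = M x * M y := by
    intro x y
    simp only [M, map_mul, Module.End.mul_eq_comp, LinearMap.toMatrix'_comp]
  have hMone : M 1 = 1 := by
    simp only [M, map_one, Module.End.one_eq_id, LinearMap.toMatrix'_id]
  have hchar : ∀ x, ρ.character x = (M x).trace := by
    intro x
    rw [← Matrix.trace_toLin'_eq (M x)]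
    simp only [M, Matrix.toLin'_toMatrix']
    rfl
  let K : G → Matrix (Fin n × Fin n) (Fin n × Fin n) ℂ := fun x => M x ⊗ₖ M x
  have hKmul : ∀ x y, K (x * y) = K x * K y := by
    intro x y
    simp only [K, hMmul, Matrix.mul_kronecker_mul]
  have hKone : K 1 = 1 := by
    simp only [K, hMone, Matrix.one_kronecker_one]
  let Sw : Matrix (Fin n × Fin n) (Fin n × Fin n) ℂ := CharFS.Indicator.swapMat (Fin n)
  have hSw : Sw * Sw = 1 := CharFS.Indicator.swapMat_mul_self
  have hSwK : ∀ x, Sw * K x = K x * Sw := fun x => CharFS.Indicator.swapMat_comm_kronecker (M x)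
  -- the projection
  let Q : Matrix (Fin n × Fin n) (Fin n × Fin n) ℂ := (1 / 2 : ℂ) • (1 + ε • Sw)
  have hQQ : Q * Q = Q := by
    simp only [Q, Matrix.smul_mul, Matrix.mul_smul, Matrix.mul_add, Matrix.add_mul, Matrix.mul_one,
      Matrix.one_mul, hSw, smul_smul]
    ext i j
    simp only [Matrix.smul_apply, Matrix.add_apply, smul_eq_mul, Matrix.one_apply]
    split_ifs <;> first | ring1 | linear_combination (1 / 4 : ℂ) * hε
  have hQK : ∀ x, Q * K x = K x * Q := by
    intro x
    simp only [Q, Matrix.smul_mul, Matrix.mul_smul, Matrix.mul_add, Matrix.add_mul, Matrix.mul_one,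
      Matrix.one_mul, hSwK]
  let P : (Fin n × Fin n → ℂ) →ₗ[ℂ] (Fin n × Fin n → ℂ) := Matrix.toLin' Q
  let T : G → ((Fin n × Fin n → ℂ) →ₗ[ℂ] (Fin n × Fin n → ℂ)) := fun x => Matrix.toLin' (K x)
  have hPP : IsIdempotentElem P := by
    change P * P = P
    rw [Module.End.mul_eq_comp]
    simp only [P]
    rw [← Matrix.toLin'_mul, hQQ]
  have hPT : ∀ x, P ∘ₗ T x = T x ∘ₗ P := by
    intro x
    simp only [P, T]
    rw [← Matrix.toLin'_mul, ← Matrix.toLin'_mul, hQK]
  let W : Submodule ℂ (Fin n × Fin n → ℂ) := LinearMap.range P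
  have hc : IsCompl W (LinearMap.ker P) := LinearMap.IsIdempotentElem.isCompl hPP
  have hPW : ∀ v ∈ W, P v = v := by
    rintro _ ⟨y, rfl⟩
    have := congrArg (fun f => f y) hPP
    simpa [Module.End.mul_apply] using this
  have hTW : ∀ x, ∀ v ∈ W, T x v ∈ W := by
    rintro x _ ⟨y, rfl⟩
    refine ⟨T x y, ?_⟩
    have := congrArg (fun f => f y) (hPT x)
    simpa using this
  have hTmul : ∀ x y, T (x * y) = T x * T y := by
    intro x y
    simp only [T, hKmul]
    rw [Matrix.toLin'_mul]
    rfl
  have hTone : T 1 = 1 := by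
    simp only [T, hKone, Matrix.toLin'_one]
    rfl
  let τ : Representation ℂ G W :=
    { toFun := fun x => (T x).restrict (hTW x)
      map_one' := by
        apply LinearMap.ext
        intro v
        apply Subtype.ext
        simp [LinearMap.restrict_apply, hTone]
      map_mul' := by
        intro x y
        apply LinearMap.ext
        intro v
        apply Subtype.ext
        simp [LinearMap.restrict_apply, hTmul] }
  have hτ : ∀ g, τ.character g = (ρ.character g ^ 2 + ε * ρ.character (g ^ 2)) / 2 := by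
    intro g
    have h1 : τ.character g = LinearMap.trace ℂ W ((T g).restrict (hTW g)) := rfl
    rw [h1, ← trace_comp_proj W (LinearMap.ker P) hc (T g) P (hTW g) hPW
      (fun x hx => LinearMap.mem_ker.mp hx)]
    have h2 : T g ∘ₗ P = Matrix.toLin' (K g * Q) := by
      simp only [T, P]
      rw [Matrix.toLin'_mul]
    rw [h2, Matrix.trace_toLin'_eq]
    have h3 : (K g * Q).trace = (1 / 2 : ℂ) * ((K g).trace + ε * (Sw * K g).trace) := by
      simp only [Q, Matrix.mul_smul, Matrix.mul_add, Matrix.mul_one, Matrix.trace_smul,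
        Matrix.trace_add, smul_eq_mul]
      rw [Matrix.trace_mul_comm (K g) Sw]
    rw [h3]
    have h4 : (K g).trace = ρ.character g ^ 2 := by
      simp only [K]
      rw [Matrix.trace_kronecker, ← hchar, pow_two]
    have h5 : (Sw * K g).trace = ρ.character (g ^ 2) := by
      simp only [K, Sw]
      rw [CharFS.Indicator.trace_swapMat_mul_kronecker, hchar, pow_two, hMmul]
    rw [h4, h5]
    ring
  have := Cfsg.Agent.Lib.Char.Basic.isCharacter_of_rep τ
  have e : τ.character = fun g => (ρ.character g ^ 2 + ε * ρ.character (g ^ 2)) / 2 := funext hτ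
  rwa [e] at this

end SymAltAux

variable {G : Type w} [Group G]

theorem isCharacter_sym2 [Finite G] {χ : G → ℂ} (hχ : IsCharacter G χ) :
    IsCharacter G (fun g => (χ g ^ 2 + χ (g ^ 2)) / 2) := by
  have := SymAltAux.isCharacter_sq hχ 1 (by norm_num)
  simpa using this

theorem isCharacter_alt2 [Finite G] {χ : G → ℂ} (hχ : IsCharacter G χ) :
    IsCharacter G (fun g => (χ g ^ 2 - χ (g ^ 2)) / 2) := by
  have := SymAltAux.isCharacter_sq hχ (-1) (by norm_num)
  simpa [sub_eq_add_neg] using this

end Cfsg.Agent.Lib.S4758
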