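import Mathlib
import Cfsg.Agent.Lib.S4758.PowerCore
import Cfsg.Agent.Lib.S4758.SymAlt

/-! S4758 piece A1c: the square of a degree three character of a perfect group. -/

set_option autoImplicit false
open scoped ComplexConjugate

namespace Cfsg.Agent.Lib.S4758

open Cfsg Subgroup

universe w

variable {G : Type w} [Group G] {u : G}

/-- `χ² = conj χ + Sym²χ` with `Sym²χ` a character. -/
theorem mul_self_eq [Finite G] (hperf : commutator G = ⊤) {χ : G → ℂ} (hχ : IsCharacter G χ)
    (h3 : χ 1 = 3) : ∃ S : G → ℂ, IsCharacter G S ∧ χ * χ = (fun g => conj (χ g)) + S := by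
  refine ⟨_, isCharacter_sym2 hχ, ?_⟩
  funext g
  have h := sq_value hperf hχ h3 g
  simp only [Pi.mul_apply, Pi.add_apply]
  rw [h]
  ring

end Cfsg.Agent.Lib.S4758
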