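import Mathlib

/-!
# An involution with `|C(u)| ≡ 4 mod 8` in a perfect group is not a square
-/

set_option autoImplicit false

namespace Cfsg.Agent.Lib.S4758

open Subgroup

universe w

variable {G : Type w} [Group G] {u : G}

/-- In a perfect finite group, an involution `u` with `|C(u)| ≡ 4 mod 8` is not a square: a square
root `g` has order 4; `⟨g⟩` has normalizer inside `C(u)`, so (Sylow's congruence) `⟨g⟩` is a cyclic
Sylow `2`-subgroup, so `G` has a normal `2`-complement by Burnside, against perfectness. -/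
theorem no_sqrt_of_card [Finite G] (hperf : commutator G = ⊤) (hu : u ≠ 1) (hu2 : u ^ 2 = 1)
    (hc : Nat.card (centralizer ({u} : Set G)) % 8 = 4) : ¬ ∃ g : G, g * g = u := by
  classical
  rintro ⟨g, hg⟩
  have : Fact (Nat.Prime 2) := ⟨Nat.prime_two⟩
  have := Fintype.ofFinite G
  have hgsq : g ^ 2 = u := by rw [pow_two, hg]
  have hg4 : orderOf g = 2 ^ (1 + 1) := by
    apply orderOf_eq_prime_pow
    · simpa [hgsq] using hu
    · have : g ^ 2 ^ (1 + 1) = (g ^ 2) ^ 2 := by rw [← pow_mul]; norm_num
      rw [this, hgsq, hu2]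
  let T : Subgroup G := zpowers g
  have hTcard : Nat.card T = 2 ^ 2 := by
    show Nat.card (zpowers g) = _
    rw [Nat.card_zpowers, hg4]
  -- the normalizer of `T` centralizes `u`
  have hNC : normalizer (T : Set G) ≤ centralizer ({u} : Set G) := by
    intro x hx
    rw [Subgroup.mem_centralizer_singleton_iff]
    have h1 : x * g * x⁻¹ ∈ T := (mem_normalizer_iff.1 hx g).1 (mem_zpowers g)
    obtain ⟨k, hk⟩ := mem_zpowers_iff.1 h1
    have h2 : x * u * x⁻¹ = u ^ k := by
      have : x * u * x⁻¹ = (x * g * x⁻¹) * (x * g * x⁻¹) := by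
        rw [← hg]; group
      rw [this, ← hk, ← hg]
      rw [← zpow_add]
      have : k + k = 2 * k := by ring
      rw [this, zpow_mul, zpow_two, hg]
    have hu1 : ∀ k : ℤ, u ^ k = 1 ∨ u ^ k = u := by
      intro k
      rcases Int.even_or_odd' k with ⟨m, rfl | rfl⟩
      · left
        rw [zpow_mul, zpow_two, ← pow_two, hu2, one_zpow]
      · right
        rw [zpow_add, zpow_mul, zpow_two, ← pow_two, hu2, one_zpow, zpow_one, one_mul]
    rcases hu1 k with h3 | h3
    · exfalso
      rw [h3] at h2
      apply hu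
      have : x * u * x⁻¹ * x = 1 * x := by rw [h2]
      simpa using this
    · rw [h3] at h2
      rw [mul_inv_eq_iff_eq_mul] at h2
      exact h2
  have h8 : ¬ 8 ∣ Nat.card G := by
    intro h
    have h5 := Sylow.card_normalizer_modEq_card (p := 2) (n := 2) (H := T) hTcard
    have h6 : 8 ∣ Nat.card (normalizer (T : Set G)) := by
      have : 2 ^ (2 + 1) = 8 := rfl
      rw [this] at h5
      exact (Nat.modEq_zero_iff_dvd.1 (h5.trans (Nat.modEq_zero_iff_dvd.2 h)))
    have h7 : Nat.card (normalizer (T : Set G)) ∣ Nat.card (centralizer ({u} : Set G)) :=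
      card_dvd_of_le hNC
    have h9 := h6.trans h7
    omega
  have h4 : 4 ∣ Nat.card G := by
    have := card_subgroup_dvd_card T
    rwa [hTcard] at this
  have hTp : IsPGroup 2 T := IsPGroup.of_card hTcard
  obtain ⟨Q, hQ⟩ := hTp.exists_le_sylow
  have hQc : Nat.card (Q : Subgroup G) = 4 := by
    obtain ⟨k, hk⟩ := Q.2.exists_card_eq
    have h10 : 2 ^ 2 ∣ 2 ^ k := by
      have := card_dvd_of_le hQ
      rwa [hTcard, hk] at this
    have h11 := (Nat.pow_dvd_pow_iff_le_right (by norm_num)).1 h10
    have h12 : k < 3 := by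
      by_contra hk3
      apply h8
      have : 2 ^ 3 ∣ 2 ^ k := pow_dvd_pow 2 (by omega)
      exact this.trans (hk ▸ card_subgroup_dvd_card (Q : Subgroup G))
    have : k = 2 := by omega
    rw [hk, this]; rfl
  have hTQ : T = (Q : Subgroup G) := by
    apply Subgroup.eq_of_le_of_card_ge hQ
    rw [hQc, hTcard]; norm_num
  have hcyc : IsCyclic (Q : Subgroup G) := by
    rw [← hTQ]
    exact Subgroup.isCyclic_zpowers g
  have hmin : (Nat.card G).minFac = 2 := Nat.minFac_eq_two_iff _ |>.2 (Dvd.dvd.trans (by norm_num) h4)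
  have hcomp := IsCyclic.isComplement' (G := G) (p := 2) hmin (P := Q) hcyc
  have hNC2 := hcyc.normalizer_le_centralizer hmin
  have hker : (MonoidHom.transferSylow Q hNC2).ker = ⊤ := by
    rw [eq_top_iff, ← hperf, commutator_def, Subgroup.commutator_le]
    intro a _ b _
    rw [MonoidHom.mem_ker, map_commutatorElement, commutatorElement_eq_one_iff_commute]
    let inst := IsCyclic.commGroup (α := (Q : Subgroup G))
    exact inst.mul_comm _ _
  have hdisj := hcomp.disjoint
  rw [hker] at hdisj
  have hg1 : g = 1 := Subgroup.disjoint_def.1 hdisj (mem_top g) (hQ (mem_zpowers g))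
  apply hu
  rw [← hg, hg1, one_mul]

end Cfsg.Agent.Lib.S4758
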