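import Cfsg.Agent.Lib.S4758.Defs
import Cfsg.Agent.Lib.S4758.Cube
import Cfsg.Agent.Lib.S4758.NoSqrt
import Cfsg.Agent.Lib.S4758.Basic
import Cfsg.Agent.Lib.S4758.Power
import Cfsg.Agent.Lib.S4758.Table
import Cfsg.Agent.Lib.S4758.Degrees
import Cfsg.Agent.Lib.S4758.Numerics
import Cfsg.Agent.Lib.Char.Ortho
import Cfsg.Agent.Lib.Char.Values
import Cfsg.Agent.Lib.Char.IndNormal
import Cfsg.Agent.Lib.CharFS.Tri
import Cfsg.Agent.Lib.CharFS.IndicatorReal

/-! A5b: existence of a real character of degree 3 with value -1 at `u`. -/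

set_option autoImplicit false
open scoped ComplexConjugate Matrix

namespace Cfsg.Agent.Lib.S4758

open Cfsg Subgroup
open Cfsg.Agent.Lib.Char.Ortho Cfsg.Agent.Lib.Char.Basic
open Cfsg.Agent.Lib.CharFS.Indicator Cfsg.Agent.Lib.CharFS.IndicatorReal Cfsg.Agent.Lib.CharFS.Tri

universe w

variable {G : Type w} [Group G] {u : G}


namespace RealAux

/-- A real irreducible character of odd degree has indicator different from `-1`. -/
theorem nu_ne_neg_one_of_odd [Fintype G] {n : ℕ} (hn : Odd n) (ρ : Representation ℂ G (Fin n → ℂ))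
    (hρ : ρ.IsIrreducible) (hreal : ∀ g, conj (ρ.character g) = ρ.character g) :
    nu ρ.character ≠ -1 := by
  intro hν
  have hχ : IsIrrCharacter G ρ.character := ⟨n, ρ, hρ, rfl⟩
  obtain ⟨⟨M, hM0, hM⟩, hsym⟩ := form_key ρ hχ hreal
  have hT := hsym M hM
  rw [hν] at hT
  have hdet : M.det = 0 := by
    have h1 := congrArg Matrix.det hT
    rw [Matrix.det_transpose, neg_one_smul, Matrix.det_neg, Fintype.card_fin, hn.neg_one_pow] at h1
    have h2 : (2 : ℂ) * M.det = 0 := by linear_combination h1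
    simpa using h2
  obtain ⟨v, hv0, hv⟩ := Matrix.exists_mulVec_eq_zero_iff.2 hdet
  -- the kernel is invariant
  have hcomm : ∀ g : G, M * X ρ g = (X ρ g⁻¹)ᵀ * M := by
    intro g
    have h1 : (X ρ g⁻¹)ᵀ * ((X ρ g)ᵀ * M * X ρ g) = (X ρ g⁻¹)ᵀ * M := by rw [hM]
    have h2 : (X ρ g⁻¹)ᵀ * (X ρ g)ᵀ = 1 := by
      rw [← Matrix.transpose_mul, ← X_mul, mul_inv_cancel, X_one, Matrix.transpose_one]
    rw [← h1, ← Matrix.mul_assoc, ← Matrix.mul_assoc, h2, Matrix.one_mul]
  have hact : ∀ (g : G) (w : Fin n → ℂ), ρ g w = (X ρ g) *ᵥ w := by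
    intro g w
    exact (LinearMap.toMatrix'_mulVec (ρ g) w).symm
  let S : Subrepresentation ρ :=
    { toSubmodule := LinearMap.ker (Matrix.toLin' M)
      apply_mem_toSubmodule := by
        intro g w hw
        rw [LinearMap.mem_ker, Matrix.toLin'_apply] at hw ⊢
        rw [hact, Matrix.mulVec_mulVec, hcomm, ← Matrix.mulVec_mulVec, hw, Matrix.mulVec_zero] }
  rcases eq_bot_or_eq_top S with h | h
  · have hvS : v ∈ S.toSubmodule := by
      show v ∈ LinearMap.ker (Matrix.toLin' M)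
      rw [LinearMap.mem_ker, Matrix.toLin'_apply, hv]
    rw [h] at hvS
    exact hv0 ((Submodule.mem_bot ℂ).1 hvS)
  · apply hM0
    apply Matrix.mulVec_injective
    funext w
    have hw : w ∈ S.toSubmodule := by rw [h]; trivial
    have hw2 : w ∈ LinearMap.ker (Matrix.toLin' M) := hw
    rw [LinearMap.mem_ker, Matrix.toLin'_apply] at hw2
    rw [hw2, Matrix.zero_mulVec]

theorem nu_ne_neg_one_of_degree [Fintype G] (χ : IrrCharacter G) {d : ℕ} (hd : Odd d)
    (h1 : (χ : G → ℂ) 1 = d) (hreal : IsReal (χ : G → ℂ)) : nu (χ : G → ℂ) ≠ -1 := by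
  obtain ⟨χ, n, ρ, hρ, rfl⟩ := χ
  have hn : n = d := by
    have h2 : ρ.character 1 = (n : ℂ) := by
      rw [Representation.char_one]
      simp
    have h3 : ρ.character 1 = (d : ℂ) := h1
    rw [h2] at h3
    exact_mod_cast h3
  subst hn
  exact nu_ne_neg_one_of_odd hd ρ hρ hreal

theorem isIrr_conj [Fintype G] {χ : G → ℂ} (hχ : IsIrrCharacter G χ) :
    IsIrrCharacter G (fun g => conj (χ g)) := by
  refine isIrrCharacter_of_classInner_self_eq_one (isCharacter_conj (isCharacter_of_isIrrCharacter hχ)) ?_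
  have h := classInner_irr_self hχ
  have h2 : classInner (fun g => conj (χ g)) (fun g => conj (χ g)) = conj (classInner χ χ) := by
    simp only [classInner, map_mul, map_sum, map_inv₀, Complex.conj_natCast]
  rw [h2, h, map_one]

/-- The conjugate as an irreducible character. -/
noncomputable def bar [Fintype G] (χ : IrrCharacter G) : IrrCharacter G :=
  ⟨fun g => conj ((χ : G → ℂ) g), isIrr_conj χ.2⟩

theorem triv_isIrr [Fintype G] : IsIrrCharacter G (triv G) :=
  Cfsg.Agent.Lib.Char.IndNormal.isIrrCharacter_principal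

theorem ne_of_degree {χ ψ : G → ℂ} (h : χ 1 ≠ ψ 1) : χ ≠ ψ := fun h2 => h (by rw [h2])

theorem classInner_eq_zero_of_degree [Fintype G] {χ ψ : G → ℂ} (hχ : IsIrrCharacter G χ)
    (hψ : IsIrrCharacter G ψ) (h : χ 1 ≠ ψ 1) : classInner χ ψ = 0 :=
  classInner_irr_of_ne hχ hψ (ne_of_degree h)

theorem not_real_exists {χ : G → ℂ} (h : ¬ IsReal χ) : ∃ g, conj (χ g) ≠ χ g := by
  simpa [IsReal] using h

/-- Nonreal degree 3 characters: the square is `conj χ + τ`, `τ ∈ R`. -/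
theorem sq_of_not_real [Fintype G] (hyp : Hyp G u) (χ : IrrCharacter G) (hX : IsX u χ)
    (hnr : ¬ IsReal (χ : G → ℂ)) :
    ∃ τ : IrrCharacter G, IsR u τ ∧
      (χ : G → ℂ) * (χ : G → ℂ) = (fun g => conj ((χ : G → ℂ) g)) + (τ : G → ℂ) := by
  have hbar1 : ((bar χ : IrrCharacter G) : G → ℂ) 1 = 3 := by
    show conj ((χ : G → ℂ) 1) = 3
    rw [hX.1, map_ofNat]
  have hne : (χ : G → ℂ) ≠ (bar χ : IrrCharacter G) := by
    intro h
    apply hnr
    intro g
    have := congrFun h g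
    exact this.symm
  have hT : classInner ((χ : G → ℂ) * (χ : G → ℂ)) (triv G) = 0 := by
    have h1 := classInner_irr_of_ne χ.2 (bar χ).2 hne
    have h2 : classInner ((χ : G → ℂ) * (χ : G → ℂ)) (triv G) =
        classInner (χ : G → ℂ) (bar χ : IrrCharacter G) := by
      simp only [classInner, bar, Pi.mul_apply, map_one, mul_one, Complex.conj_conj]
    rw [h2, h1]
  obtain ⟨S, hS, hSeq⟩ := mul_self_eq (perfect hyp) (isCharacter_of_isIrrCharacter χ.2) hX.1
  have hB : classInner ((χ : G → ℂ) * (χ : G → ℂ)) (bar χ : IrrCharacter G) ≠ 0 := by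
    rw [hSeq]
    obtain ⟨k, hk⟩ := exists_nat_classInner hS (bar χ)
    have h1 : classInner ((fun g => conj ((χ : G → ℂ) g)) + S) ((bar χ : IrrCharacter G) : G → ℂ) =
        classInner ((bar χ : IrrCharacter G) : G → ℂ) ((bar χ : IrrCharacter G) : G → ℂ) +
          classInner S ((bar χ : IrrCharacter G) : G → ℂ) := by
      rw [classInner_add_left]
      rfl
    rw [h1, classInner_irr_self (bar χ).2, hk]
    have : ((1 + k : ℕ) : ℂ) ≠ 0 := by exact_mod_cast (by omega : 1 + k ≠ 0)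
    simpa using this
  rcases table hyp χ χ hX hX with ⟨ζ, τ, hζ, hτ, h⟩ | ⟨θ, σ, hθ, hσ, h⟩ | ⟨ζ, θ, hζ, hθ, h⟩ |
    ⟨σ₁, σ₂, h₁, h₂, h⟩ | ⟨σ, hσ, h⟩
  · -- type 1
    refine ⟨τ, hτ, ?_⟩
    rw [h] at hB ⊢
    rw [classInner_add_left, classInner_eq_zero_of_degree τ.2 (bar χ).2
      (by rw [hτ.1, hbar1]; norm_num), add_zero] at hB
    have : (ζ : G → ℂ) = (bar χ : IrrCharacter G) := by
      by_contra hc
      exact hB (classInner_irr_of_ne ζ.2 (bar χ).2 hc)
    rw [this]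
    rfl
  · exfalso
    rw [h] at hB
    rw [classInner_add_left, classInner_eq_zero_of_degree θ.2 (bar χ).2
      (by rw [hθ.1, hbar1]; norm_num), classInner_eq_zero_of_degree σ.2 (bar χ).2
      (by rw [hσ.1, hbar1]; norm_num), add_zero] at hB
    exact hB rfl
  · exfalso
    rw [h, classInner_add_left, classInner_add_left, classInner_irr_self triv_isIrr,
      classInner_eq_zero_of_degree ζ.2 triv_isIrr (by rw [hζ.1]; norm_num),
      classInner_eq_zero_of_degree θ.2 triv_isIrr (by rw [hθ.1]; norm_num)] at hT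
    simp at hT
  · exfalso
    rw [h, classInner_add_left, classInner_add_left, classInner_irr_self triv_isIrr,
      classInner_eq_zero_of_degree σ₁.2 triv_isIrr (by rw [h₁.1]; norm_num),
      classInner_eq_zero_of_degree σ₂.2 triv_isIrr (by rw [h₂.1]; norm_num)] at hT
    simp at hT
  · exfalso
    rw [h, classInner_add_left, classInner_irr_self triv_isIrr,
      classInner_eq_zero_of_degree σ.2 triv_isIrr (by rw [hσ.1]; norm_num)] at hT
    simp at hT

/-- Under "no real `X`", some `R`-character has indicator `-1`. -/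
theorem exists_R [Fintype G] (hyp : Hyp G u) (hu : u ≠ 1) (hu2 : u ^ 2 = 1)
    (hnr : ∀ χ : IrrCharacter G, IsX u χ → ¬ IsReal (χ : G → ℂ)) :
    ∃ τ : IrrCharacter G, IsR u τ ∧ nu (τ : G → ℂ) = -1 := by
  classical
  by_contra hcon
  push Not at hcon
  haveI : Finite (IrrCharacter G) := Cfsg.Agent.Lib.Char.Complete.finite_irr
  cases nonempty_fintype (IrrCharacter G)
  have hns := no_sqrt_of_card (perfect hyp) hu hu2 (card_centralizer_mod hyp hu)
  have h0 : sqrtCount G u = 0 := by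
    simp only [sqrtCount, Nat.cast_eq_zero, Finset.card_eq_zero, Finset.filter_eq_empty_iff,
      Finset.mem_univ, true_implies]
    intro x hx
    exact hns ⟨x, by rw [← pow_two]; exact hx⟩
  rw [sqrtCount_eq_sum] at h0
  have hre := congrArg Complex.re h0
  rw [Complex.re_sum, Complex.zero_re] at hre
  let one : IrrCharacter G := ⟨triv G, triv_isIrr⟩
  have hone : (nu ((one : IrrCharacter G) : G → ℂ) * ((one : IrrCharacter G) : G → ℂ) u).re = 1 := by
    have hν : nu ((one : IrrCharacter G) : G → ℂ) = 1 := by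
      simp only [nu, one, Finset.sum_const, Finset.card_univ, nsmul_eq_mul, mul_one,
        Nat.card_eq_fintype_card]
      exact inv_mul_cancel₀ (by exact_mod_cast Fintype.card_ne_zero)
    rw [hν]
    simp [one]
  have hnn : ∀ χ : IrrCharacter G, 0 ≤ (nu (χ : G → ℂ) * (χ : G → ℂ) u).re := by
    intro χ
    by_cases hχ1 : (χ : G → ℂ) = triv G
    · have : χ = one := Subtype.ext hχ1
      rw [this, hone]
      exact zero_le_one
    by_cases hχu : (χ : G → ℂ) u = 0
    · simp [hχu]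
    have hnu0 : ¬ IsReal (χ : G → ℂ) → nu (χ : G → ℂ) = 0 := fun h =>
      nu_of_not_real χ.2 (not_real_exists h)
    rcases degrees hyp hu χ hχ1 hχu with hX | hP | hR
    · rw [hnu0 (hnr χ hX)]
      simp
    · rw [hP.2]
      by_cases hr : IsReal (χ : G → ℂ)
      · rcases nu_of_real χ.2 hr with h | h
        · rw [h]; simp
        · exact absurd h (nu_ne_neg_one_of_degree χ (d := 5) (by decide) (by rw [hP.1]; norm_num) hr)
      · rw [hnu0 hr]; simp
    · rw [hR.2]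
      by_cases hr : IsReal (χ : G → ℂ)
      · rcases nu_of_real χ.2 hr with h | h
        · rw [h]; simp
        · exact absurd h (hcon χ hR)
      · rw [hnu0 hr]; simp
  have hle := Finset.single_le_sum (f := fun χ : IrrCharacter G =>
    (nu (χ : G → ℂ) * (χ : G → ℂ) u).re) (fun χ _ => hnn χ) (Finset.mem_univ one)
  rw [hone, hre] at hle
  linarith

end RealAux

open RealAux in
theorem exists_real_of_involution [Fintype G] (hyp : Hyp G u) (hu : u ≠ 1) (hu2 : u ^ 2 = 1) :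
    ∃ χ : IrrCharacter G, IsX u χ ∧ IsReal (χ : G → ℂ) := by
  by_contra hcon
  push Not at hcon
  have hnr : ∀ χ : IrrCharacter G, IsX u χ → ¬ IsReal (χ : G → ℂ) := fun χ h => hcon χ h
  obtain ⟨τ, hτ, hν⟩ := exists_R hyp hu hu2 hnr
  have hτr : IsReal (τ : G → ℂ) := by
    intro g
    exact conj_eq_of_nu_ne_zero τ.2 (by rw [hν]; norm_num) g
  obtain ⟨χ₁, χ₂, h₁, h₂, hin⟩ := exists_factor hyp hu τ (d := 6) (by norm_num)
    (by rw [hτ.1]; norm_num) (by rw [hτ.2]; norm_num)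
  -- type 1 only
  obtain ⟨ζ, hζ, h12⟩ : ∃ ζ : IrrCharacter G, IsX u ζ ∧
      (χ₁ : G → ℂ) * (χ₂ : G → ℂ) = (ζ : G → ℂ) + (τ : G → ℂ) := by
    rcases table hyp χ₁ χ₂ h₁ h₂ with ⟨ζ, τ', hζ, hτ', h⟩ | ⟨θ, σ, hθ, hσ, h⟩ | ⟨ζ, θ, hζ, hθ, h⟩ |
      ⟨σ₁, σ₂, hσ₁, hσ₂, h⟩ | ⟨σ, hσ, h⟩
    · refine ⟨ζ, hζ, ?_⟩
      rw [h] at hin ⊢
      rw [classInner_add_left, classInner_eq_zero_of_degree ζ.2 τ.2
        (by rw [hζ.1, hτ.1]; norm_num), zero_add] at hin
      have : (τ' : G → ℂ) = τ := by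
        by_contra hc
        exact hin (classInner_irr_of_ne τ'.2 τ.2 hc)
      rw [this]
    · exfalso
      rw [h, classInner_add_left, classInner_eq_zero_of_degree θ.2 τ.2
        (by rw [hθ.1, hτ.1]; norm_num), classInner_eq_zero_of_degree σ.2 τ.2
        (by rw [hσ.1, hτ.1]; norm_num), add_zero] at hin
      exact hin rfl
    · exfalso
      rw [h, classInner_add_left, classInner_add_left,
        classInner_eq_zero_of_degree triv_isIrr τ.2 (by rw [hτ.1]; norm_num),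
        classInner_eq_zero_of_degree ζ.2 τ.2 (by rw [hζ.1, hτ.1]; norm_num),
        classInner_eq_zero_of_degree θ.2 τ.2 (by rw [hθ.1, hτ.1]; norm_num)] at hin
      simp at hin
    · exfalso
      rw [h, classInner_add_left, classInner_add_left,
        classInner_eq_zero_of_degree triv_isIrr τ.2 (by rw [hτ.1]; norm_num),
        classInner_eq_zero_of_degree σ₁.2 τ.2 (by rw [hσ₁.1, hτ.1]; norm_num),
        classInner_eq_zero_of_degree σ₂.2 τ.2 (by rw [hσ₂.1, hτ.1]; norm_num)] at hin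
      simp at hin
    · exfalso
      rw [h, classInner_add_left,
        classInner_eq_zero_of_degree triv_isIrr τ.2 (by rw [hτ.1]; norm_num),
        classInner_eq_zero_of_degree σ.2 τ.2 (by rw [hσ.1, hτ.1]; norm_num)] at hin
      simp at hin
  obtain ⟨τ₁, hτ₁, hs₁⟩ := sq_of_not_real hyp χ₁ h₁ (hnr χ₁ h₁)
  obtain ⟨τ₂, hτ₂, hs₂⟩ := sq_of_not_real hyp χ₂ h₂ (hnr χ₂ h₂)
  have hperf := perfect hyp
  have hsq₁ := sq_value hperf (isCharacter_of_isIrrCharacter χ₁.2) h₁.1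
  have hsq₂ := sq_value hperf (isCharacter_of_isIrrCharacter χ₂.2) h₂.1
  -- the indicator of the product, first way
  have hνa : nu ((χ₁ : G → ℂ) * (χ₂ : G → ℂ)) = -1 := by
    have h1 : nu ((χ₁ : G → ℂ) * (χ₂ : G → ℂ)) = nu (ζ : G → ℂ) + nu (τ : G → ℂ) := by
      rw [h12]
      simp only [nu, Pi.add_apply, Finset.sum_add_distrib, mul_add]
    rw [h1, hν, nu_of_not_real ζ.2 (not_real_exists (hnr ζ hζ)), zero_add]
  -- second way
  have hνb : nu ((χ₁ : G → ℂ) * (χ₂ : G → ℂ)) = 1 := by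
    have hζζ : classInner (ζ : G → ℂ) (bar ζ : IrrCharacter G) = 0 := by
      refine classInner_irr_of_ne ζ.2 (bar ζ).2 fun h => hnr ζ hζ fun g => ?_
      exact (congrFun h g).symm
    have hζτ : classInner (ζ : G → ℂ) (τ : G → ℂ) = 0 :=
      classInner_eq_zero_of_degree ζ.2 τ.2 (by rw [hζ.1, hτ.1]; norm_num)
    have hττ : classInner (τ : G → ℂ) (τ : G → ℂ) = 1 := classInner_irr_self τ.2
    have hτ₁χ : classInner (τ₁ : G → ℂ) (χ₂ : G → ℂ) = 0 :=
      classInner_eq_zero_of_degree τ₁.2 χ₂.2 (by rw [hτ₁.1, h₂.1]; norm_num)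
    have hτ₂χ : classInner (τ₂ : G → ℂ) (χ₁ : G → ℂ) = 0 :=
      classInner_eq_zero_of_degree τ₂.2 χ₁.2 (by rw [hτ₂.1, h₁.1]; norm_num)
    have hint : ∀ x : G, ((χ₁ : G → ℂ) * (χ₂ : G → ℂ)) (x ^ 2) =
        (ζ : G → ℂ) x * conj (((bar ζ : IrrCharacter G) : G → ℂ) x) +
        2 * ((ζ : G → ℂ) x * conj ((τ : G → ℂ) x)) +
        (τ : G → ℂ) x * conj ((τ : G → ℂ) x) -
        2 * ((τ₁ : G → ℂ) x * conj ((χ₂ : G → ℂ) x)) -
        2 * ((τ₂ : G → ℂ) x * conj ((χ₁ : G → ℂ) x)) := by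
      intro x
      have e1 := congrFun h12 x
      have e2 := congrFun hs₁ x
      have e3 := congrFun hs₂ x
      simp only [Pi.mul_apply, Pi.add_apply] at e1 e2 e3 ⊢
      rw [hsq₁ x, hsq₂ x]
      have e4 : conj (((bar ζ : IrrCharacter G) : G → ℂ) x) = (ζ : G → ℂ) x := by
        show conj (conj ((ζ : G → ℂ) x)) = _
        rw [Complex.conj_conj]
      rw [e4, hτr x]
      have e5 : ((χ₁ : G → ℂ) x) ^ 2 = conj ((χ₁ : G → ℂ) x) + (τ₁ : G → ℂ) x := by
        rw [pow_two, e2]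
      have e6 : ((χ₂ : G → ℂ) x) ^ 2 = conj ((χ₂ : G → ℂ) x) + (τ₂ : G → ℂ) x := by
        rw [pow_two, e3]
      have e7 : ((χ₁ : G → ℂ) x) ^ 2 * ((χ₂ : G → ℂ) x) ^ 2 = ((ζ : G → ℂ) x + (τ : G → ℂ) x) ^ 2 := by
        rw [← e1]; ring
      have : (((χ₁ : G → ℂ) x) ^ 2 - 2 * conj ((χ₁ : G → ℂ) x)) *
          (((χ₂ : G → ℂ) x) ^ 2 - 2 * conj ((χ₂ : G → ℂ) x)) =
          ((χ₁ : G → ℂ) x) ^ 2 * ((χ₂ : G → ℂ) x) ^ 2
            - 2 * ((χ₁ : G → ℂ) x) ^ 2 * conj ((χ₂ : G → ℂ) x)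
            - 2 * conj ((χ₁ : G → ℂ) x) * ((χ₂ : G → ℂ) x) ^ 2
            + 4 * conj ((χ₁ : G → ℂ) x) * conj ((χ₂ : G → ℂ) x) := by ring
      rw [this, e7, e5, e6]
      ring
    have hsum : nu ((χ₁ : G → ℂ) * (χ₂ : G → ℂ)) =
        classInner (ζ : G → ℂ) (bar ζ : IrrCharacter G) + 2 * classInner (ζ : G → ℂ) (τ : G → ℂ) +
          classInner (τ : G → ℂ) (τ : G → ℂ) - 2 * classInner (τ₁ : G → ℂ) (χ₂ : G → ℂ) -
          2 * classInner (τ₂ : G → ℂ) (χ₁ : G → ℂ) := by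
      simp only [nu, classInner, hint, Finset.sum_sub_distrib, Finset.sum_add_distrib, ← Finset.mul_sum]
      ring
    rw [hsum, hζζ, hζτ, hττ, hτ₁χ, hτ₂χ]
    norm_num
  rw [hνa] at hνb
  norm_num at hνb

theorem exists_real [Fintype G] (hyp : Hyp G u) (hu : u ≠ 1) :
    ∃ χ : IrrCharacter G, IsX u χ ∧ IsReal (χ : G → ℂ) := by
  classical
  let N : Subgroup G := normalClosure ({u ^ 2} : Set G)
  haveI : N.Normal := normalClosure_normal
  have hperf := perfect hyp
  have hu1 : ((u : G) : G ⧸ N) ≠ 1 := by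
    intro h
    have huN : u ∈ N := (QuotientGroup.eq_one_iff u).1 h
    obtain ⟨χ, hχ⟩ := exists_X hyp hu
    have hsq := sq_of_isX hperf hχ
    obtain ⟨χf, n, ρ, hρ, hχf⟩ := χ
    subst hχf
    have hχ1 : (n : ℂ) = 3 := by
      have h2 : ρ.character 1 = (n : ℂ) := by
        rw [Representation.char_one]
        simp
      rw [← h2]
      exact hχ.1
    have hfr : ((Module.finrank ℂ (Fin n → ℂ) : ℕ) : ℂ) = 3 := by simpa using hχ1
    have hu2id : ρ (u ^ 2) = 1 := by
      have h3 : ρ.character (u ^ 2) = ((Module.finrank ℂ (Fin n → ℂ) : ℕ) : ℂ) := by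
        rw [hfr]
        exact hsq
      exact (Cfsg.Agent.Lib.Char.Values.character_eq_finrank_iff ρ (u ^ 2)).1 h3
    have hker : N ≤ MonoidHom.ker ρ := by
      refine normalClosure_le_normal ?_
      intro x hx
      rw [Set.mem_singleton_iff] at hx
      subst hx
      exact hu2id
    have hu1 : ρ u = 1 := hker huN
    have h4 : ρ.character u = ((Module.finrank ℂ (Fin n → ℂ) : ℕ) : ℂ) :=
      (Cfsg.Agent.Lib.Char.Values.character_eq_finrank_iff ρ u).2 hu1
    rw [hfr] at h4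
    have h5 : ρ.character u = -1 := hχ.2
    rw [h5] at h4
    norm_num at h4
  have hu22 : ((u : G) : G ⧸ N) ^ 2 = 1 := by
    rw [← QuotientGroup.mk_pow]
    exact (QuotientGroup.eq_one_iff _).2 (subset_normalClosure rfl)
  haveI : Fintype (G ⧸ N) := Fintype.ofFinite _
  obtain ⟨χ, hX, hr⟩ := exists_real_of_involution (hyp.quot N) hu1 hu22
  refine ⟨⟨fun g => (χ : (G ⧸ N) → ℂ) (g : G ⧸ N), isIrrCharacter_comp_surjective χ.2 (QuotientGroup.mk' N)
    (QuotientGroup.mk'_surjective N)⟩, ⟨?_, hX.2⟩, fun g => hr _⟩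
  exact hX.1

end Cfsg.Agent.Lib.S4758
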