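import Mathlib
import Cfsg.Agent.Lib.Char.Burnside2

/-! Piece A6c of S4758: a perfect group whose non-identity elements are partitioned by a
conjugation invariant family of non-normal subgroups with `|N(A) : A| ≤ 2` has order 60. -/

set_option autoImplicit false

namespace Cfsg.Agent.Lib.S4758

open Subgroup

universe w

namespace PartCount

/-- the arithmetic data of one orbit -/
def Good (e n N : ℕ) : Prop := 2 ≤ e ∧ (n = e ∨ n = 2 * e) ∧ n ∣ N ∧ n < N

/-- the contribution of one orbit -/
noncomputable def term (e n : ℕ) : ℚ := ((e : ℚ) - 1) / n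

lemma two_mul_le {n N : ℕ} (hn : 0 < n) (h : n ∣ N) (h' : n < N) : 2 * n ≤ N := by
  obtain ⟨k, rfl⟩ := h
  have hk : 2 ≤ k := by
    rcases k with _ | _ | k
    · simp at h'
    · simp at h'
    · omega
  nlinarith

lemma inv_le {k e : ℕ} (hk : 0 < k) (h : k ≤ e) : (1 : ℚ) / e ≤ 1 / k :=
  one_div_le_one_div_of_le (by exact_mod_cast hk) (by exact_mod_cast h)

lemma inv_pos' {e : ℕ} (he : 0 < e) : (0 : ℚ) < 1 / e := by positivity

/-- the three shapes of facts for a good triple -/
lemma good_facts {e n N : ℕ} (h : Good e n N) :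
    (0 : ℚ) < 1 / (e : ℚ) ∧ (1 : ℚ) / e ≤ 1 / 2 ∧
    ((n = e ∧ term e n = 1 - 1 / (e : ℚ) ∧ 2 * e ≤ N) ∨
      (n = 2 * e ∧ term e n = (1 - 1 / (e : ℚ)) / 2 ∧ 4 * e ≤ N)) := by
  obtain ⟨h2, hn, hd, hl⟩ := h
  have he0 : (e : ℚ) ≠ 0 := by
    have : 0 < e := by omega
    positivity
  refine ⟨inv_pos' (by omega), by simpa using inv_le (k := 2) (by norm_num) h2, ?_⟩
  rcases hn with rfl | rfl
  · left
    refine ⟨rfl, ?_, two_mul_le (by omega) hd hl⟩
    simp only [term]
    field_simp
  · right
    refine ⟨rfl, ?_, ?_⟩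
    · simp only [term]
      push_cast
      field_simp
    · have := two_mul_le (n := 2 * e) (by omega) hd hl
      omega

lemma term_ge {e n N : ℕ} (h : Good e n N) : (1 : ℚ) / 4 ≤ term e n := by
  obtain ⟨h1, h2, h3⟩ := good_facts h
  rcases h3 with ⟨_, h4, _⟩ | ⟨_, h4, _⟩ <;> rw [h4] <;> linarith

lemma arith1 {e n N : ℕ} (hN : 2 ≤ N) (h : Good e n N) (heq : term e n = 1 - 1 / (N : ℚ)) : False := by
  obtain ⟨h1, h2, h3⟩ := good_facts h
  have hb : (1 : ℚ) / N ≤ 1 / 2 := by simpa using inv_le (k := 2) (by norm_num) hN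
  rcases h3 with ⟨_, h4, h5⟩ | ⟨_, h4, _⟩
  · rw [h4] at heq
    have hlt : (1 : ℚ) / N < 1 / e := by
      apply one_div_lt_one_div_of_lt
      · have := h.1
        exact_mod_cast (by omega : 0 < e)
      · have := h.1
        exact_mod_cast (by omega : e < N)
    linarith
  · rw [h4] at heq
    linarith

lemma arith2 {e₁ n₁ e₂ n₂ N : ℕ} (hN : 2 ≤ N) (h₁ : Good e₁ n₁ N) (h₂ : Good e₂ n₂ N)
    (heq : term e₁ n₁ + term e₂ n₂ = 1 - 1 / (N : ℚ)) : N = 12 := by
  -- the asymmetric case
  have key : ∀ {a b : ℕ}, 2 ≤ a → 2 ≤ b → 4 * b ≤ N →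
      (1 : ℚ) / a + (1 / b) / 2 = 1 / 2 + 1 / N → N = 12 := by
    intro a b ha hb hbN h
    have hNpos : (0 : ℚ) < N := by exact_mod_cast (by omega : 0 < N)
    have hb0 : (0 : ℚ) < 1 / (N : ℚ) := by positivity
    have hbq : (1 : ℚ) / b ≤ 1 / 2 := by simpa using inv_le (k := 2) (by norm_num) hb
    have hbpos : (0 : ℚ) < 1 / (b : ℚ) := inv_pos' (by omega)
    have hapos : (0 : ℚ) < 1 / (a : ℚ) := inv_pos' (by omega)
    have ha3 : a ≤ 3 := by
      by_contra hc
      have : (1 : ℚ) / a ≤ 1 / 4 := by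
        simpa only [Nat.cast_ofNat] using inv_le (k := 4) (by norm_num) (show 4 ≤ a by omega)
      linarith
    have hNb : (1 : ℚ) / N ≤ (1 / b) / 4 := by
      have := inv_le (k := 4 * b) (by omega) hbN
      have h' : (1 : ℚ) / ((4 * b : ℕ) : ℚ) = (1 / b) / 4 := by
        push_cast
        have : (b : ℚ) ≠ 0 := by
          have : 0 < b := by omega
          positivity
        field_simp
      rw [h'] at this
      exact this
    interval_cases a
    · -- a = 2
      exfalso
      simp only [Nat.cast_ofNat] at h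
      linarith
    · -- a = 3
      simp only [Nat.cast_ofNat] at h
      have hb2 : b ≤ 2 := by
        by_contra hc
        have : (1 : ℚ) / b ≤ 1 / 3 := by
          simpa only [Nat.cast_ofNat] using inv_le (k := 3) (by norm_num) (show 3 ≤ b by omega)
        linarith
      have hb3 : b = 2 := by omega
      subst hb3
      simp only [Nat.cast_ofNat] at h
      have hN' : (1 : ℚ) / N = 1 / 12 := by linarith
      have hne : (N : ℚ) ≠ 0 := ne_of_gt hNpos
      have h9 := (div_eq_div_iff hne (by norm_num : (12 : ℚ) ≠ 0)).1 hN'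
      have : (N : ℚ) = 12 := by linarith
      exact_mod_cast this
  obtain ⟨a1, a2, a3⟩ := good_facts h₁
  obtain ⟨b1, b2, b3⟩ := good_facts h₂
  have hNpos : (0 : ℚ) < N := by exact_mod_cast (by omega : 0 < N)
  have hb0 : (0 : ℚ) < 1 / (N : ℚ) := by positivity
  rcases a3 with ⟨_, a4, a5⟩ | ⟨_, a4, a5⟩ <;> rcases b3 with ⟨_, b4, b5⟩ | ⟨_, b4, b5⟩ <;>
    rw [a4, b4] at heq
  · exfalso
    linarith
  · exact key h₁.1 h₂.1 b5 (by linarith)
  · exact key h₂.1 h₁.1 a5 (by linarith)
  · exfalso
    have c1 : (1 : ℚ) / N ≤ (1 / e₁) / 4 := by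
      have := inv_le (k := 4 * e₁) (by have := h₁.1; omega) a5
      have h' : (1 : ℚ) / ((4 * e₁ : ℕ) : ℚ) = (1 / e₁) / 4 := by
        push_cast
        have : (e₁ : ℚ) ≠ 0 := by
          have := h₁.1
          have : 0 < e₁ := by omega
          positivity
        field_simp
      rw [h'] at this
      exact this
    have c2 : (1 : ℚ) / N ≤ (1 / e₂) / 4 := by
      have := inv_le (k := 4 * e₂) (by have := h₂.1; omega) b5
      have h' : (1 : ℚ) / ((4 * e₂ : ℕ) : ℚ) = (1 / e₂) / 4 := by
        push_cast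
        have : (e₂ : ℚ) ≠ 0 := by
          have := h₂.1
          have : 0 < e₂ := by omega
          positivity
        field_simp
      rw [h'] at this
      exact this
    linarith

/-- sorted triple -/
lemma arith3_sorted {e₁ e₂ e₃ N : ℕ} (h1 : 2 ≤ e₁) (h12 : e₁ ≤ e₂) (h23 : e₂ ≤ e₃) (hN : 0 < N)
    (hb3 : 4 * e₃ ≤ N) (h : (1 : ℚ) / e₁ + 1 / e₂ + 1 / e₃ = 1 + 2 * (1 / N)) :
    N = 12 ∨ N = 24 ∨ N = 60 := by
  have hNpos : (0 : ℚ) < N := by exact_mod_cast hN
  have hb0 : (0 : ℚ) < 1 / (N : ℚ) := by positivity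
  have hne : (N : ℚ) ≠ 0 := ne_of_gt hNpos
  have he1 : e₁ = 2 := by
    by_contra hc
    have x1 : (1 : ℚ) / e₁ ≤ 1 / 3 := by
      simpa only [Nat.cast_ofNat] using inv_le (k := 3) (by norm_num) (show 3 ≤ e₁ by omega)
    have x2 : (1 : ℚ) / e₂ ≤ 1 / 3 := by
      simpa only [Nat.cast_ofNat] using inv_le (k := 3) (by norm_num) (show 3 ≤ e₂ by omega)
    have x3 : (1 : ℚ) / e₃ ≤ 1 / 3 := by
      simpa only [Nat.cast_ofNat] using inv_le (k := 3) (by norm_num) (show 3 ≤ e₃ by omega)
    linarith
  subst he1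
  simp only [Nat.cast_ofNat] at h
  have he2 : e₂ ≤ 3 := by
    by_contra hc
    have x2 : (1 : ℚ) / e₂ ≤ 1 / 4 := by
      simpa only [Nat.cast_ofNat] using inv_le (k := 4) (by norm_num) (show 4 ≤ e₂ by omega)
    have x3 : (1 : ℚ) / e₃ ≤ 1 / 4 := by
      simpa only [Nat.cast_ofNat] using inv_le (k := 4) (by norm_num) (show 4 ≤ e₃ by omega)
    linarith
  have he2' : e₂ = 2 ∨ e₂ = 3 := by omega
  rcases he2' with rfl | rfl
  · exfalso
    simp only [Nat.cast_ofNat] at h
    have hNb : (1 : ℚ) / N ≤ (1 / e₃) / 4 := by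
      have := inv_le (k := 4 * e₃) (by omega) hb3
      have h' : (1 : ℚ) / ((4 * e₃ : ℕ) : ℚ) = (1 / e₃) / 4 := by
        push_cast
        have : (e₃ : ℚ) ≠ 0 := by
          have : 0 < e₃ := by omega
          positivity
        field_simp
      rw [h'] at this
      exact this
    have hpos : (0 : ℚ) < 1 / (e₃ : ℚ) := inv_pos' (by omega)
    linarith
  · simp only [Nat.cast_ofNat] at h
    have he3 : e₃ ≤ 5 := by
      by_contra hc
      have x3 : (1 : ℚ) / e₃ ≤ 1 / 6 := by
        simpa only [Nat.cast_ofNat] using inv_le (k := 6) (by norm_num) (show 6 ≤ e₃ by omega)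
      linarith
    have hN' : ∀ c : ℚ, c ≠ 0 → (1 : ℚ) / N = 1 / c → (N : ℚ) = c := by
      intro c hc hx
      have h9 := (div_eq_div_iff hne hc).1 hx
      linarith
    interval_cases e₃
    · left
      simp only [Nat.cast_ofNat] at h
      have := hN' 12 (by norm_num) (by linarith)
      exact_mod_cast this
    · right; left
      simp only [Nat.cast_ofNat] at h
      have := hN' 24 (by norm_num) (by linarith)
      exact_mod_cast this
    · right; right
      simp only [Nat.cast_ofNat] at h
      have := hN' 60 (by norm_num) (by linarith)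
      exact_mod_cast this

lemma arith3 {e₁ n₁ e₂ n₂ e₃ n₃ N : ℕ} (hN : 2 ≤ N) (h₁ : Good e₁ n₁ N) (h₂ : Good e₂ n₂ N)
    (h₃ : Good e₃ n₃ N) (heq : term e₁ n₁ + term e₂ n₂ + term e₃ n₃ = 1 - 1 / (N : ℚ)) :
    N = 12 ∨ N = 24 ∨ N = 60 := by
  obtain ⟨a1, a2, a3⟩ := good_facts h₁
  obtain ⟨b1, b2, b3⟩ := good_facts h₂
  obtain ⟨c1, c2, c3⟩ := good_facts h₃
  have hNpos : (0 : ℚ) < N := by exact_mod_cast (by omega : 0 < N)
  have hb0 : (0 : ℚ) < 1 / (N : ℚ) := by positivity
  rcases a3 with ⟨_, a4, a5⟩ | ⟨_, a4, a5⟩ <;> rcases b3 with ⟨_, b4, b5⟩ | ⟨_, b4, b5⟩ <;>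
    rcases c3 with ⟨_, c4, c5⟩ | ⟨_, c4, c5⟩ <;> rw [a4, b4, c4] at heq <;>
    first
    | (exfalso; linarith)
    | skip
  have heq' : (1 : ℚ) / e₁ + 1 / e₂ + 1 / e₃ = 1 + 2 * (1 / N) := by linarith
  have h1 := h₁.1
  have h2 := h₂.1
  have h3 := h₃.1
  rcases le_total e₁ e₂ with x | x <;> rcases le_total e₂ e₃ with y | y <;>
    rcases le_total e₁ e₃ with z | z
  · exact arith3_sorted h1 x y (by omega) c5 heq'
  · exact arith3_sorted h1 x y (by omega) c5 heq'
  · exact arith3_sorted h1 z y (by omega) b5 (by linarith)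
  · exact arith3_sorted h3 z x (by omega) b5 (by linarith)
  · exact arith3_sorted h2 x z (by omega) c5 (by linarith)
  · exact arith3_sorted h2 y z (by omega) a5 (by linarith)
  · exact arith3_sorted h3 y x (by omega) a5 (by linarith)
  · exact arith3_sorted h3 y x (by omega) a5 (by linarith)

/-- the conjugation action on the family -/
@[reducible] def act {H : Type w} [Group H] (F : Set (Subgroup H))
    (hconj : ∀ A ∈ F, ∀ g : H, A.map (MulAut.conj g).toMonoidHom ∈ F) :
    MulAction H {A : Subgroup H // A ∈ F} where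
  smul g A := ⟨A.1.map (MulAut.conj g).toMonoidHom, hconj A.1 A.2 g⟩
  one_smul A := by
    apply Subtype.ext
    show A.1.map (MulAut.conj (1 : H)).toMonoidHom = A.1
    ext x
    simp
  mul_smul g h A := by
    apply Subtype.ext
    show A.1.map (MulAut.conj (g * h)).toMonoidHom =
      (A.1.map (MulAut.conj h).toMonoidHom).map (MulAut.conj g).toMonoidHom
    rw [Subgroup.map_map]
    congr 1
    ext x
    simp [MulAut.conj_apply, mul_assoc]

end PartCount

open PartCount in
/-- `H#` is partitioned by a conjugation-invariant family of subgroups with `|N(A):A| ≤ 2`, none normal,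
`H` perfect: `|H| = 60`.  (1 - 1/N = ∑ (1-1/e_i)/ε_i over orbits.) -/
theorem card_of_partition {H : Type w} [Group H] [Finite H] [Nontrivial H] (hperf : commutator H = ⊤)
    (F : Set (Subgroup H)) (hconj : ∀ A ∈ F, ∀ g : H, A.map (MulAut.conj g).toMonoidHom ∈ F)
    (hbot : ∀ A ∈ F, A ≠ ⊥) (hpart : ∀ g : H, g ≠ 1 → ∃! A, A ∈ F ∧ g ∈ A)
    (hidx : ∀ A ∈ F, Nat.card (normalizer (A : Set H)) ≤ 2 * Nat.card A)
    (hnn : ∀ A ∈ F, ¬ A.Normal) : Nat.card H = 60 := by
  classical
  haveI := Fintype.ofFinite H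
  have hN2 : 2 ≤ Nat.card H := Finite.one_lt_card
  have hNpos : (0 : ℚ) < (Nat.card H : ℚ) := by exact_mod_cast (by omega : 0 < Nat.card H)
  have hNne : (Nat.card H : ℚ) ≠ 0 := ne_of_gt hNpos
  let X := {A : Subgroup H // A ∈ F}
  haveI : Fintype X := Fintype.ofFinite X
  letI actX : MulAction H X := act F hconj
  have hsmul : ∀ (g : H) (A : X), (g • A).1 = A.1.map (MulAut.conj g).toMonoidHom := fun _ _ => rfl
  let Q := MulAction.orbitRel.Quotient H X
  haveI : Fintype Q := Fintype.ofFinite Q
  haveI : ∀ b : X, Fintype (MulAction.orbit H b) := fun b => Fintype.ofFinite _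
  -- Step A : the partition count
  have hA : (Nat.card H : ℚ) - 1 = ∑ A : X, ((Nat.card A.1 : ℚ) - 1) := by
    let T : X → Finset H := fun A => Finset.univ.filter (fun g => g ∈ A.1 ∧ g ≠ 1)
    have hU : (Finset.univ.erase (1 : H)) = Finset.univ.biUnion T := by
      ext g
      simp only [Finset.mem_erase, Finset.mem_univ, and_true, Finset.mem_biUnion, true_and, T,
        Finset.mem_filter]
      constructor
      · intro hg
        obtain ⟨A, ⟨hA, hgA⟩, _⟩ := hpart g hg
        exact ⟨⟨A, hA⟩, hgA, hg⟩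
      · rintro ⟨_, _, hg⟩
        exact hg
    have hD : ∀ A ∈ (Finset.univ : Finset X), ∀ B ∈ (Finset.univ : Finset X), A ≠ B →
        Disjoint (T A) (T B) := by
      intro A _ B _ hAB
      rw [Finset.disjoint_left]
      intro g hgA hgB
      simp only [T, Finset.mem_filter, Finset.mem_univ, true_and] at hgA hgB
      exact hAB (Subtype.ext ((hpart g hgA.2).unique ⟨A.2, hgA.1⟩ ⟨B.2, hgB.1⟩))
    have hT : ∀ A : X, (((T A).card : ℕ) : ℚ) = (Nat.card A.1 : ℚ) - 1 := by
      intro A
      have h1 : (Finset.univ.filter (fun g => g ∈ A.1)).card = Nat.card A.1 := by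
        rw [← Fintype.card_subtype, ← Nat.card_eq_fintype_card]
      have h2 : T A = (Finset.univ.filter (fun g => g ∈ A.1)).erase 1 := by
        ext g
        simp only [T, Finset.mem_filter, Finset.mem_univ, true_and, Finset.mem_erase]
        tauto
      have h3 : (1 : H) ∈ Finset.univ.filter (fun g => g ∈ A.1) := by
        simp [A.1.one_mem]
      have h4 : (T A).card + 1 = Nat.card A.1 := by
        rw [h2, Finset.card_erase_add_one h3, h1]
      rw [← h4]
      push_cast
      ring
    have h5 : (Finset.univ.erase (1 : H)).card + 1 = Nat.card H := by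
      rw [Finset.card_erase_add_one (Finset.mem_univ _), Nat.card_eq_fintype_card, Finset.card_univ]
    have h6 : ((Nat.card H : ℕ) : ℚ) - 1 = ((Finset.univ.erase (1 : H)).card : ℚ) := by
      rw [← h5]
      push_cast
      ring
    rw [h6, hU, Finset.card_biUnion hD]
    push_cast
    exact Finset.sum_congr rfl (fun A _ => hT A)
  -- Step B : orbit sum
  have hB : ∀ g : X → ℚ, (∀ (h : H) (A : X), g (h • A) = g A) →
      ∑ A : X, g A = ∑ q : Q, (Nat.card (MulAction.orbit H (Quotient.out q)) : ℚ) * g (Quotient.out q) := by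
    intro g hg
    have hfib : ∀ (q : Q) (A : X), (Quotient.mk'' A : Q) = q ↔ A ∈ MulAction.orbit H (Quotient.out q) := by
      intro q A
      have h0 : (Quotient.out q : X) = Quotient.out q := rfl
      constructor
      · intro hq
        have h2 : (Quotient.mk'' A : Q) = Quotient.mk'' (Quotient.out q) := by
          rw [hq]
          exact (Quotient.out_eq' q).symm
        exact MulAction.orbitRel_apply.1 (Quotient.eq''.1 h2)
      · intro hA'
        have h2 : (Quotient.mk'' A : Q) = Quotient.mk'' (Quotient.out q) :=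
          Quotient.eq''.2 (MulAction.orbitRel_apply.2 hA')
        rw [h2]
        exact Quotient.out_eq' q
    rw [← Finset.sum_fiberwise (Finset.univ : Finset X) (fun A => (Quotient.mk'' A : Q)) g]
    apply Finset.sum_congr rfl
    intro q _
    have h1 : ∀ A ∈ Finset.univ.filter (fun A : X => (Quotient.mk'' A : Q) = q), g A = g (Quotient.out q) := by
      intro A hA'
      have hA2 : (Quotient.mk'' A : Q) = q := (Finset.mem_filter.1 hA').2
      obtain ⟨h, hh⟩ := (hfib q A).1 hA2
      rw [← hh]
      exact hg h _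
    rw [Finset.sum_congr rfl h1, Finset.sum_const, nsmul_eq_mul]
    congr 2
    rw [Nat.card_eq_fintype_card]
    symm
    exact Fintype.card_of_subtype _ (fun A => by
      rw [Finset.mem_filter]
      simp only [Finset.mem_univ, true_and]
      exact hfib q A)
  have hinv : ∀ (h : H) (A : X), ((Nat.card (h • A).1 : ℚ) - 1) = (Nat.card A.1 : ℚ) - 1 := by
    intro h A
    rw [hsmul, Subgroup.card_map_of_injective (MulAut.conj h).injective]
  -- orbit data
  let e : Q → ℕ := fun q => Nat.card (Quotient.out q : X).1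
  let n : Q → ℕ := fun q => Nat.card (normalizer ((Quotient.out q : X).1 : Set H))
  have hstab : ∀ b : X, MulAction.stabilizer H b = normalizer (b.1 : Set H) := by
    intro b
    ext g
    rw [MulAction.mem_stabilizer_iff, mem_normalizer_iff_map_conj_eq, Subtype.ext_iff]
    rfl
  have horb : ∀ q : Q, Nat.card (MulAction.orbit H (Quotient.out q)) * n q = Nat.card H := by
    intro q
    have := Nat.card_congr (MulAction.orbitProdStabilizerEquivGroup H (Quotient.out q))
    rw [Nat.card_prod, hstab] at this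
    exact this
  have hgood : ∀ q : Q, Good (e q) (n q) (Nat.card H) := by
    intro q
    set A : X := Quotient.out q with hAdef
    have h2 : 2 ≤ e q := by
      have : 1 < Nat.card A.1 := (Subgroup.one_lt_card_iff_ne_bot _).2 (hbot A.1 A.2)
      exact this
    have hdvd : e q ∣ n q := Subgroup.card_dvd_of_le (Subgroup.le_normalizer)
    have hle : n q ≤ 2 * e q := hidx A.1 A.2
    have hn : n q = e q ∨ n q = 2 * e q := by
      obtain ⟨k, hk⟩ := hdvd
      have hk2 : k ≤ 2 := by
        by_contra hc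
        have : e q * 3 ≤ e q * k := Nat.mul_le_mul_left _ (by omega)
        omega
      have hk0 : k ≠ 0 := by
        rintro rfl
        have : 0 < n q := Nat.card_pos
        omega
      have : k = 1 ∨ k = 2 := by omega
      rcases this with rfl | rfl
      · left; omega
      · right; omega
    refine ⟨h2, hn, Subgroup.card_subgroup_dvd_card _, ?_⟩
    have hle' : n q ≤ Nat.card H := Nat.le_of_dvd Nat.card_pos (Subgroup.card_subgroup_dvd_card _)
    apply lt_of_le_of_ne hle'
    intro heq
    apply hnn A.1 A.2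
    rw [← normalizer_eq_top_iff]
    exact Subgroup.eq_top_of_card_eq _ heq
  -- main equation
  have hmain : ∑ q : Q, term (e q) (n q) = 1 - 1 / (Nat.card H : ℚ) := by
    have h1 := hA
    rw [hB _ hinv] at h1
    have h2 : ∀ q : Q, term (e q) (n q) =
        ((Nat.card (MulAction.orbit H (Quotient.out q)) : ℚ) * ((Nat.card (Quotient.out q : X).1 : ℚ) - 1)) /
          (Nat.card H : ℚ) := by
      intro q
      have hq := horb q
      have hnpos : (0 : ℚ) < (n q : ℚ) := by
        have : 0 < n q := Nat.card_pos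
        exact_mod_cast this
      have hopos : (0 : ℚ) < (Nat.card (MulAction.orbit H (Quotient.out q)) : ℚ) := by
        have : 0 < Nat.card (MulAction.orbit H (Quotient.out q)) := by
          rcases Nat.eq_zero_or_pos (Nat.card (MulAction.orbit H (Quotient.out q))) with h0 | h0
          · rw [h0] at hq
            omega
          · exact h0
        exact_mod_cast this
      rw [← hq]
      simp only [term, e]
      push_cast
      field_simp
    rw [Finset.sum_congr rfl (fun q _ => h2 q), ← Finset.sum_div, ← h1]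
    field_simp
  have hless : Fintype.card Q < 4 := by
    have h1 := Finset.card_nsmul_le_sum (Finset.univ : Finset Q) (fun q => term (e q) (n q)) (1 / 4)
      (fun q _ => term_ge (hgood q))
    rw [hmain, Finset.card_univ, nsmul_eq_mul] at h1
    have hb0 : (0 : ℚ) < 1 / (Nat.card H : ℚ) := by positivity
    have : (Fintype.card Q : ℚ) < 4 := by linarith
    exact_mod_cast this
  have hno : ∀ (a b : ℕ), Nat.card H = 2 ^ a * 3 ^ b → False := by
    intro a b hab
    haveI : Group.IsSolvable H := Cfsg.Agent.Lib.Char.Burnside2.isSolvable_of_card_eq Nat.prime_two Nat.prime_three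
      (Nat.card H) H a b rfl hab
    have := Group.IsSolvable.commutator_lt_top_of_nontrivial H
    rw [hperf] at this
    exact lt_irrefl _ this
  have hcases : Fintype.card Q = 0 ∨ Fintype.card Q = 1 ∨ Fintype.card Q = 2 ∨ Fintype.card Q = 3 := by
    omega
  have hconc : Nat.card H = 12 ∨ Nat.card H = 24 ∨ Nat.card H = 60 := by
    rcases hcases with h | h | h | h
    · exfalso
      have : IsEmpty Q := Fintype.card_eq_zero_iff.1 h
      rw [Finset.univ_eq_empty, Finset.sum_empty] at hmain
      have h1 : (1 : ℚ) / (Nat.card H : ℚ) = 1 := by linarith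
      have h2 : (Nat.card H : ℚ) ≤ 1 := by
        field_simp at h1
        linarith
      have h3 : (2 : ℚ) ≤ (Nat.card H : ℚ) := by exact_mod_cast hN2
      linarith
    · exfalso
      let E := Fintype.equivFinOfCardEq h
      rw [← E.symm.sum_comp, Fin.sum_univ_one] at hmain
      exact arith1 hN2 (hgood _) hmain
    · left
      let E := Fintype.equivFinOfCardEq h
      rw [← E.symm.sum_comp, Fin.sum_univ_two] at hmain
      exact arith2 hN2 (hgood _) (hgood _) hmain
    · let E := Fintype.equivFinOfCardEq h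
      rw [← E.symm.sum_comp, Fin.sum_univ_three] at hmain
      exact arith3 hN2 (hgood _) (hgood _) (hgood _) hmain
  rcases hconc with h | h | h
  · exact (hno 2 1 (by rw [h]; norm_num)).elim
  · exact (hno 3 1 (by rw [h]; norm_num)).elim
  · exact h

end Cfsg.Agent.Lib.S4758
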