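import Mathlib
import Cfsg.Agent.Lib.S4758.Defs
import Cfsg.Agent.Lib.S4758.Cube
import Cfsg.Agent.Lib.Char.Values

/-! S4758 piece A6a: a real character of degree three of a perfect group:
every element has a fixed vector, and so on. -/

set_option autoImplicit false
open scoped ComplexConjugate ComplexOrder

namespace Cfsg.Agent.Lib.S4758

open Cfsg Subgroup

universe w

namespace SOEigAux

theorem det_sub_smul_fin_three (A : Matrix (Fin 3) (Fin 3) ℂ) (l : ℂ) :
    (A - l • (1 : Matrix (Fin 3) (Fin 3) ℂ)).det = A.det - l * A.adjugate.trace + l ^ 2 * A.trace - l ^ 3 := by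
  simp only [Matrix.det_fin_three, Matrix.trace_fin_three, Matrix.adjugate_fin_three,
    Matrix.sub_apply, Matrix.smul_apply, Matrix.one_apply, smul_eq_mul,
    Matrix.of_apply, Matrix.cons_val', Matrix.cons_val_zero, Matrix.cons_val_one, Matrix.cons_val_two]
  simp
  ring

theorem exists_eig_of_det (A : Matrix (Fin 3) (Fin 3) ℂ) (l : ℂ)
    (h : (A - l • (1 : Matrix (Fin 3) (Fin 3) ℂ)).det = 0) :
    ∃ v : Fin 3 → ℂ, v ≠ 0 ∧ A.mulVec v = l • v := by
  obtain ⟨v, hv0, hv⟩ := Matrix.exists_mulVec_eq_zero_iff.mpr h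
  refine ⟨v, hv0, ?_⟩
  rw [Matrix.sub_mulVec, Matrix.smul_mulVec, Matrix.one_mulVec, sub_eq_zero] at hv
  exact hv

theorem det_of_eig (A : Matrix (Fin 3) (Fin 3) ℂ) (l : ℂ) {v : Fin 3 → ℂ} (hv0 : v ≠ 0)
    (hv : A.mulVec v = l • v) : (A - l • (1 : Matrix (Fin 3) (Fin 3) ℂ)).det = 0 := by
  refine Matrix.exists_mulVec_eq_zero_iff.mp ⟨v, hv0, ?_⟩
  rw [Matrix.sub_mulVec, Matrix.smul_mulVec, Matrix.one_mulVec, hv, sub_self]

theorem trace_eq_three_of_two_fixed (A : Matrix (Fin 3) (Fin 3) ℂ) (hdet : A.det = 1)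
    {v w : Fin 3 → ℂ} (hvw : LinearIndependent ℂ ![v, w]) (hv : A.mulVec v = v)
    (hw : A.mulVec w = w) : A.trace = 3 := by
  classical
  have hn : crossProduct v w ≠ 0 := crossProduct_ne_zero_iff_linearIndependent.mpr hvw
  set n := crossProduct v w with hndef
  set x : Fin 3 → ℂ := star n with hx
  let P : Matrix (Fin 3) (Fin 3) ℂ := Matrix.of (fun i j => ![v, w, x] j i)
  have hdetP : P.det ≠ 0 := by
    have h1 : P.det = n ⬝ᵥ x := by
      simp only [hndef, P, Matrix.det_fin_three, crossProduct, dotProduct, Fin.sum_univ_three]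
      simp
      ring
    rw [h1, hx]
    intro h0
    exact hn (dotProduct_self_star_eq_zero.mp h0)
  have hPu : IsUnit P.det := isUnit_iff_ne_zero.mpr hdetP
  set Q := P⁻¹ with hQ
  have hQP : Q * P = 1 := Matrix.nonsing_inv_mul P hPu
  set B := Q * (A * P) with hB
  have hcol0 : ∀ i, (A * P) i 0 = P i 0 := by
    intro i
    have := congrFun hv i
    simpa [Matrix.mul_apply, Matrix.mulVec, dotProduct, P] using this
  have hcol1 : ∀ i, (A * P) i 1 = P i 1 := by
    intro i
    have := congrFun hw i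
    simpa [Matrix.mul_apply, Matrix.mulVec, dotProduct, P] using this
  have hB0 : ∀ i, B i 0 = (1 : Matrix (Fin 3) (Fin 3) ℂ) i 0 := by
    intro i
    rw [← hQP, hB, Matrix.mul_apply, Matrix.mul_apply]
    exact Finset.sum_congr rfl (fun k _ => by rw [hcol0])
  have hB1 : ∀ i, B i 1 = (1 : Matrix (Fin 3) (Fin 3) ℂ) i 1 := by
    intro i
    rw [← hQP, hB, Matrix.mul_apply, Matrix.mul_apply]
    exact Finset.sum_congr rfl (fun k _ => by rw [hcol1])
  have hdetB : B.det = 1 := by
    rw [hB, Matrix.det_mul, Matrix.det_mul, hdet, one_mul, ← Matrix.det_mul, hQP, Matrix.det_one]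
  have htrB : B.trace = A.trace := by
    have : P * Q = 1 := Matrix.mul_nonsing_inv P hPu
    rw [hB, Matrix.trace_mul_comm, mul_assoc, this, mul_one]
  have h00 := hB0 0
  have h10 := hB0 1
  have h20 := hB0 2
  have h01 := hB1 0
  have h11 := hB1 1
  have h21 := hB1 2
  simp at h00 h10 h20 h01 h11 h21
  rw [Matrix.det_fin_three, h00, h10, h20, h01, h11, h21] at hdetB
  rw [← htrB, Matrix.trace_fin_three, h00, h11]
  simp at hdetB
  rw [hdetB]
  norm_num

end SOEigAux

section SO
variable {H : Type w} [Group H] [Finite H]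

open SOEigAux

/-- The common computation: matrix of `ρ g`, determinant one, adjugate trace equal to the trace. -/
theorem SOEigAux.matrix_facts (hperf : commutator H = ⊤) (ρ : Representation ℂ H (Fin 3 → ℂ))
    (hreal : IsReal ρ.character) (g : H) :
    (LinearMap.toMatrix' (ρ g)).det = 1 ∧
    (LinearMap.toMatrix' (ρ g)).trace = ρ.character g ∧
    (LinearMap.toMatrix' (ρ g)).adjugate.trace = ρ.character g := by
  have htr : ∀ h : H, ρ.character h = (LinearMap.toMatrix' (ρ h)).trace := by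
    intro h
    show LinearMap.trace ℂ _ (ρ h) = _
    rw [LinearMap.trace_eq_matrix_trace ℂ (Pi.basisFun ℂ (Fin 3))]
    rfl
  set A := LinearMap.toMatrix' (ρ g) with hA
  set B := LinearMap.toMatrix' (ρ g⁻¹) with hB
  have hAB : A * B = 1 := by
    rw [hA, hB, ← LinearMap.toMatrix'_comp]
    have : (ρ g).comp (ρ g⁻¹) = 1 := by
      rw [← Module.End.mul_eq_comp, ← map_mul, mul_inv_cancel, map_one]
    rw [this]
    exact LinearMap.toMatrix'_one
  have hdet : A.det = 1 := by
    rw [hA, LinearMap.det_toMatrix']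
    exact CubeAux.det_eq_one hperf ρ g
  have hadj : A.adjugate = B := by
    have h1 : A.adjugate * A = A.det • (1 : Matrix (Fin 3) (Fin 3) ℂ) := Matrix.adjugate_mul A
    calc A.adjugate = A.adjugate * (A * B) := by rw [hAB, mul_one]
      _ = (A.adjugate * A) * B := by rw [mul_assoc]
      _ = B := by rw [h1, hdet, one_smul, one_mul]
  refine ⟨hdet, (htr g).symm, ?_⟩
  rw [hadj, ← htr g⁻¹, Cfsg.Agent.Lib.Char.Values.character_inv]
  exact hreal g

theorem fix_exists (hperf : commutator H = ⊤) (ρ : Representation ℂ H (Fin 3 → ℂ))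
    (hreal : IsReal ρ.character) (g : H) : ∃ v : Fin 3 → ℂ, v ≠ 0 ∧ ρ g v = v := by
  obtain ⟨h1, h2, h3⟩ := SOEigAux.matrix_facts hperf ρ hreal g
  have h0 : (LinearMap.toMatrix' (ρ g) - (1 : ℂ) • (1 : Matrix (Fin 3) (Fin 3) ℂ)).det = 0 := by
    rw [det_sub_smul_fin_three, h1, h2, h3]; ring
  obtain ⟨v, hv0, hv⟩ := exists_eig_of_det _ _ h0
  refine ⟨v, hv0, ?_⟩
  rw [LinearMap.toMatrix'_mulVec, one_smul] at hv
  exact hv

/-- eigenvalue `≠ 1` determines the trace. -/
theorem trace_of_eig (hperf : commutator H = ⊤) (ρ : Representation ℂ H (Fin 3 → ℂ))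
    (hreal : IsReal ρ.character) {g : H} {v : Fin 3 → ℂ} {l : ℂ} (hv0 : v ≠ 0) (hv : ρ g v = l • v)
    (hl : l ≠ 1) : ρ.character g = 1 + l + l⁻¹ := by
  obtain ⟨h1, h2, h3⟩ := SOEigAux.matrix_facts hperf ρ hreal g
  have h0 := det_of_eig (LinearMap.toMatrix' (ρ g)) l hv0 (by rw [LinearMap.toMatrix'_mulVec]; exact hv)
  rw [det_sub_smul_fin_three, h1, h2, h3] at h0
  have hl0 : l ≠ 0 := by
    rintro rfl
    simp at h0
  have hl1 : l - 1 ≠ 0 := sub_ne_zero.mpr hl
  have h4 : (l - 1) * (ρ.character g * l - (l ^ 2 + l + 1)) = 0 := by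
    linear_combination h0
  have h5 : ρ.character g * l = l ^ 2 + l + 1 := by
    have := (mul_eq_zero.mp h4).resolve_left hl1
    exact sub_eq_zero.mp this
  field_simp
  linear_combination h5

/-- fixed space of `g ≠ 1` is a line (`ρ` faithful). -/
theorem fix_unique (hperf : commutator H = ⊤) (ρ : Representation ℂ H (Fin 3 → ℂ))
    (hreal : IsReal ρ.character) (hf : ∀ g, ρ g = 1 → g = 1) {g : H} (hg : g ≠ 1) {v w : Fin 3 → ℂ}
    (hv0 : v ≠ 0) (hv : ρ g v = v) (hw : ρ g w = w) : ∃ c : ℂ, w = c • v := by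
  by_contra hnot
  push Not at hnot
  have hli : LinearIndependent ℂ ![v, w] := by
    rw [LinearIndependent.pair_iff]
    intro s t hst
    have ht : t = 0 := by
      by_contra ht
      apply hnot (-(s / t))
      have : t • w = -(s • v) := by
        rw [eq_neg_iff_add_eq_zero, add_comm]; exact hst
      have h2 : w = t⁻¹ • (t • w) := by rw [smul_smul, inv_mul_cancel₀ ht, one_smul]
      rw [h2, this, smul_neg, ← neg_smul, smul_smul]
      congr 1
      field_simp
    subst ht
    simp only [zero_smul, add_zero] at hst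
    exact ⟨(smul_eq_zero.mp hst).resolve_right hv0, rfl⟩
  obtain ⟨h1, h2, -⟩ := SOEigAux.matrix_facts hperf ρ hreal g
  have h3 := trace_eq_three_of_two_fixed (LinearMap.toMatrix' (ρ g)) h1 hli
    (by rw [LinearMap.toMatrix'_mulVec]; exact hv) (by rw [LinearMap.toMatrix'_mulVec]; exact hw)
  rw [h2] at h3
  apply hg
  apply hf
  have h4 := (Cfsg.Agent.Lib.Char.Values.character_eq_finrank_iff ρ g).mp (by rw [h3]; simp)
  rw [h4]
  rfl

end SO

end Cfsg.Agent.Lib.S4758
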