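import Cfsg.Agent.Lib.S4758.Defs

/-! Core of piece A6b (SOSign) of S4758, with the two facts of piece SOEig as hypotheses. -/

set_option autoImplicit false
open scoped ComplexConjugate TensorProduct

namespace Cfsg.Agent.Lib.S4758

open Cfsg Subgroup

universe w

namespace SOSignAux

variable {V : Type*} [AddCommGroup V] [Module ℂ V] [FiniteDimensional ℂ V]

theorem trace_rank_one (ψ : Module.Dual ℂ V) (v : V) (T : V →ₗ[ℂ] V) (h : ∀ x, T x = ψ x • v) :
    LinearMap.trace ℂ V T = ψ v := by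
  have e : T = dualTensorHom ℂ V V (ψ ⊗ₜ[ℂ] v) := by
    ext x
    rw [h, dualTensorHom_apply]
  rw [e, LinearMap.trace_eq_contract_apply, contractLeft_apply]

end SOSignAux

section SO
variable {H : Type w} [Group H] [Finite H]

theorem eig_sign_core (ρ : Representation ℂ H (Fin 3 → ℂ))
    (hfix : ∀ {g : H}, g ≠ 1 → ∀ {v w : Fin 3 → ℂ}, v ≠ 0 → ρ g v = v → ρ g w = w → ∃ c : ℂ, w = c • v)
    (htr : ∀ {g : H} {v : Fin 3 → ℂ} {l : ℂ}, v ≠ 0 → ρ g v = l • v → l ≠ 1 →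
      ρ.character g = 1 + l + l⁻¹)
    (A : Subgroup H) (hA : A ≠ ⊥)
    {v : Fin 3 → ℂ} (hv0 : v ≠ 0) (hAv : ∀ a ∈ A, ρ a v = v) {g : H}
    {l : ℂ} (hl : ρ g v = l • v) : l = 1 ∨ l = -1 := by
  classical
  by_cases hl1 : l = 1
  · exact Or.inl hl1
  right
  have hfA : Fintype A := Fintype.ofFinite A
  have hl0 : l ≠ 0 := by
    intro h0
    rw [h0, zero_smul] at hl
    apply hv0
    have h1 : ρ g⁻¹ (ρ g v) = v := by
      rw [← Module.End.mul_apply, ← map_mul, inv_mul_cancel, map_one, Module.End.one_apply]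
    rw [← h1, hl, map_zero]
  -- the operator `Q = ∑ ρ a`
  let Q : (Fin 3 → ℂ) →ₗ[ℂ] (Fin 3 → ℂ) := ∑ a : A, ρ (a : H)
  have hQ : ∀ x, Q x = ∑ a : A, ρ (a : H) x := fun x => by
    simp [Q, LinearMap.sum_apply]
  obtain ⟨a₀, ha₀, ha₀1⟩ : ∃ a₀ ∈ A, a₀ ≠ 1 := by
    by_contra hc
    apply hA
    rw [eq_bot_iff]
    intro x hx
    rw [mem_bot]
    by_contra hx1
    exact hc ⟨x, hx, hx1⟩
  have hQfix : ∀ x, ρ a₀ (Q x) = Q x := by
    intro x
    rw [hQ, map_sum]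
    have : ∀ a : A, ρ a₀ (ρ (a : H) x) = ρ ((⟨a₀, ha₀⟩ * a : A) : H) x := fun a => by
      rw [Subgroup.coe_mul, map_mul, Module.End.mul_apply]
    simp only [this]
    exact Equiv.sum_comp (Equiv.mulLeft (⟨a₀, ha₀⟩ : A)) (fun b : A => ρ (b : H) x)
  have hQv : Q v = (Nat.card A : ℂ) • v := by
    rw [hQ]
    have : ∀ a : A, ρ (a : H) v = v := fun a => hAv a a.2
    simp only [this, Finset.sum_const, Finset.card_univ]
    rw [Nat.card_eq_fintype_card, Nat.cast_smul_eq_nsmul]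
  obtain ⟨i, hi⟩ : ∃ i, v i ≠ 0 := by
    by_contra hc
    apply hv0
    funext i
    by_contra hi
    exact hc ⟨i, hi⟩
  obtain ⟨φ, hφ⟩ : ∃ φ : Module.Dual ℂ (Fin 3 → ℂ), ∀ x, φ x = (v i)⁻¹ * (Q x) i :=
    ⟨(v i)⁻¹ • (LinearMap.proj i ∘ₗ Q), fun x => rfl⟩
  have hQφ : ∀ x, Q x = φ x • v := by
    intro x
    obtain ⟨c, hc⟩ := hfix ha₀1 hv0 (hAv a₀ ha₀) (hQfix x)
    rw [hφ, hc]
    have : (c • v) i = c * v i := rfl
    rw [this]
    have e : (v i)⁻¹ * (c * v i) = c := by field_simp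
    rw [e]
  have hφv : φ v = (Nat.card A : ℂ) := by
    rw [hφ, hQv]
    have : ((Nat.card A : ℂ) • v) i = (Nat.card A : ℂ) * v i := rfl
    rw [this]
    field_simp
  -- the trace of `ρ g ∘ Q`
  let T : (Fin 3 → ℂ) →ₗ[ℂ] (Fin 3 → ℂ) := ρ g ∘ₗ Q
  have hT : ∀ x, T x = (l • φ) x • v := by
    intro x
    calc T x = ρ g (φ x • v) := by
          show ρ g (Q x) = _
          rw [hQφ x]
      _ = φ x • (l • v) := by rw [map_smul, hl]
      _ = (l • φ) x • v := by rw [smul_smul, LinearMap.smul_apply, smul_eq_mul, mul_comm]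
  have htrT : LinearMap.trace ℂ _ T = l * (Nat.card A : ℂ) := by
    rw [SOSignAux.trace_rank_one (l • φ) v T hT, LinearMap.smul_apply, hφv, smul_eq_mul]
  have hT2 : T = ∑ a : A, ρ (g * (a : H)) := by
    refine LinearMap.ext fun x => ?_
    show ρ g (Q x) = _
    rw [hQ, map_sum, LinearMap.sum_apply]
    refine Finset.sum_congr rfl fun a _ => ?_
    rw [map_mul, Module.End.mul_apply]
  have hsum : LinearMap.trace ℂ _ T = (Nat.card A : ℂ) * (1 + l + l⁻¹) := by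
    rw [hT2, map_sum]
    have : ∀ a : A, LinearMap.trace ℂ _ (ρ (g * (a : H))) = 1 + l + l⁻¹ := by
      intro a
      have h1 : ρ (g * (a : H)) v = l • v := by
        rw [map_mul, Module.End.mul_apply, hAv a a.2, hl]
      exact htr hv0 h1 hl1
    simp only [this, Finset.sum_const, Finset.card_univ]
    rw [Nat.card_eq_fintype_card, nsmul_eq_mul]
  have hcard : (Nat.card A : ℂ) ≠ 0 := by
    exact_mod_cast (Nat.card_pos (α := A)).ne'
  have hfin : l * (Nat.card A : ℂ) = (Nat.card A : ℂ) * (1 + l + l⁻¹) := htrT.symm.trans hsum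
  have h2 : l = 1 + l + l⁻¹ := by
    apply mul_right_cancel₀ hcard
    rw [hfin, mul_comm]
  have h3 : l⁻¹ = -1 := by linear_combination - h2
  have h4 : l = (l⁻¹)⁻¹ := (inv_inv l).symm
  rw [h4, h3]
  norm_num

end SO

end Cfsg.Agent.Lib.S4758
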