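import Cfsg.Agent.Lib.S4758.SOEig
import Cfsg.Agent.Lib.S4758.SOSignCore

/-! S4758 piece A6b: the sign of the eigenvalue on the fixed line of a subgroup. -/

set_option autoImplicit false

namespace Cfsg.Agent.Lib.S4758

open Cfsg Subgroup

universe w

section SO
variable {H : Type w} [Group H] [Finite H]

/-- `A ≠ 1` fixing `v`, `g` normalizing `A`, `ρ g v = l v` ⇒ `l = ±1`. -/
theorem eig_sign (hperf : commutator H = ⊤) (ρ : Representation ℂ H (Fin 3 → ℂ))
    (hreal : IsReal ρ.character) (hf : ∀ g, ρ g = 1 → g = 1) (A : Subgroup H) (hA : A ≠ ⊥)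
    {v : Fin 3 → ℂ} (hv0 : v ≠ 0) (hAv : ∀ a ∈ A, ρ a v = v) {g : H}
    (_hg : g ∈ normalizer (A : Set H)) {l : ℂ} (hl : ρ g v = l • v) : l = 1 ∨ l = -1 :=
  eig_sign_core ρ (fun hg' _ _ hv0' hv hw => fix_unique hperf ρ hreal hf hg' hv0' hv hw)
    (fun hv0' hv hl' => trace_of_eig hperf ρ hreal hv0' hv hl') A hA hv0 hAv hl

end SO

end Cfsg.Agent.Lib.S4758
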