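import Mathlib
import Cfsg.Agent.Lib.S4758.Defs
import Cfsg.Agent.Lib.S4758.SOEig
import Cfsg.Agent.Lib.S4758.SOSign
import Cfsg.Agent.Lib.S4758.PartCount

/-! Piece A6d of S4758: a perfect finite subgroup of `SO₃(ℂ)` has order `60`. -/

set_option autoImplicit false
open scoped ComplexConjugate

namespace Cfsg.Agent.Lib.S4758

open Cfsg Subgroup

universe w

namespace SOMainAux

variable {H : Type w} [Group H]

/-- The stabilizer of a vector. -/
def stab (ρ : Representation ℂ H (Fin 3 → ℂ)) (v : Fin 3 → ℂ) : Subgroup H where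
  carrier := {g | ρ g v = v}
  mul_mem' := by
    intro a b ha hb
    simp only [Set.mem_ofPred_eq] at *
    rw [map_mul, Module.End.mul_apply, hb, ha]
  one_mem' := by simp
  inv_mem' := by
    intro a ha
    simp only [Set.mem_ofPred_eq] at *
    have h : ρ a⁻¹ (ρ a v) = v := by
      rw [← Module.End.mul_apply, ← map_mul]; simp
    rwa [ha] at h

theorem mem_stab {ρ : Representation ℂ H (Fin 3 → ℂ)} {v : Fin 3 → ℂ} {g : H} :
    g ∈ stab ρ v ↔ ρ g v = v := Iff.rfl

theorem rho_inv_rho (ρ : Representation ℂ H (Fin 3 → ℂ)) (g : H) (v : Fin 3 → ℂ) :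
    ρ g⁻¹ (ρ g v) = v := by
  rw [← Module.End.mul_apply, ← map_mul]; simp

theorem rho_rho_inv (ρ : Representation ℂ H (Fin 3 → ℂ)) (g : H) (v : Fin 3 → ℂ) :
    ρ g (ρ g⁻¹ v) = v := by
  rw [← Module.End.mul_apply, ← map_mul]; simp

theorem stab_conj (ρ : Representation ℂ H (Fin 3 → ℂ)) (v : Fin 3 → ℂ) (g : H) :
    (stab ρ v).map (MulAut.conj g).toMonoidHom = stab ρ (ρ g v) := by
  ext x
  rw [Subgroup.mem_map]
  constructor
  · rintro ⟨a, ha, rfl⟩
    rw [mem_stab] at ha ⊢
    have : (MulAut.conj g).toMonoidHom a = g * a * g⁻¹ := rfl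
    rw [this, map_mul, map_mul, Module.End.mul_apply, Module.End.mul_apply, rho_inv_rho, ha]
  · intro hx
    rw [mem_stab] at hx
    refine ⟨g⁻¹ * x * g, ?_, ?_⟩
    · rw [mem_stab, map_mul, map_mul, Module.End.mul_apply, Module.End.mul_apply, hx, rho_inv_rho]
    · show g * (g⁻¹ * x * g) * g⁻¹ = x
      group

/-- An invariant line is impossible in an irreducible 3-dimensional representation. -/
theorem no_line (ρ : Representation ℂ H (Fin 3 → ℂ)) (hirr : ρ.IsIrreducible) {v : Fin 3 → ℂ}
    (hv : v ≠ 0) (hg : ∀ g : H, ∃ c : ℂ, ρ g v = c • v) : False := by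
  let W : Subrepresentation ρ :=
    { toSubmodule := Submodule.span ℂ {v}
      apply_mem_toSubmodule := by
        intro g x hx
        obtain ⟨a, rfl⟩ := Submodule.mem_span_singleton.1 hx
        obtain ⟨c, hc⟩ := hg g
        rw [map_smul, hc]
        exact Submodule.smul_mem _ _ (Submodule.smul_mem _ _ (Submodule.mem_span_singleton_self v)) }
  have hmem : v ∈ W.toSubmodule := Submodule.mem_span_singleton_self v
  rcases hirr.eq_bot_or_eq_top W with h | h
  · rw [h] at hmem
    exact hv ((Submodule.mem_bot ℂ).1 hmem)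
  · have h2 : (Submodule.span ℂ {v} : Submodule ℂ (Fin 3 → ℂ)) = ⊤ := by
      have : W.toSubmodule = (⊤ : Subrepresentation ρ).toSubmodule := by rw [h]
      exact this
    have h3 := finrank_span_singleton (K := ℂ) hv
    rw [h2, finrank_top] at h3
    simp at h3

end SOMainAux

open SOMainAux

theorem card_eq_sixty {H : Type w} [Group H] [Finite H] (hperf : commutator H = ⊤)
    (ρ : Representation ℂ H (Fin 3 → ℂ)) (hirr : ρ.IsIrreducible) (hf : ∀ g, ρ g = 1 → g = 1)
    (hreal : IsReal ρ.character) : Nat.card H = 60 := by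
  classical
  have : Nontrivial H := by
    by_contra hn
    rw [not_nontrivial_iff_subsingleton] at hn
    refine no_line ρ hirr (v := fun _ => 1) ?_ ?_
    · intro h
      have := congrFun h 0
      simp at this
    · intro g
      refine ⟨1, ?_⟩
      rw [Subsingleton.elim g 1]
      simp
  -- normalizer elements act on the fixed line by a scalar
  have hscal : ∀ v : Fin 3 → ℂ, v ≠ 0 → stab ρ v ≠ ⊥ →
      ∀ x ∈ normalizer ((stab ρ v : Subgroup H) : Set H),
      ∃ l : ℂ, ρ x v = l • v ∧ (l = 1 ∨ l = -1) := by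
    intro v hv hne x hx
    obtain ⟨a, ha, ha1⟩ := (Subgroup.bot_or_exists_ne_one _).resolve_left hne
    have hmem : x⁻¹ * a * x ∈ stab ρ v := (mem_set_normalizer_iff''.1 hx a).1 ha
    have hfix : ρ a (ρ x v) = ρ x v := by
      rw [mem_stab, map_mul, map_mul, Module.End.mul_apply, Module.End.mul_apply] at hmem
      have h2 := congrArg (ρ x) hmem
      rwa [rho_rho_inv] at h2
    obtain ⟨c, hc⟩ := fix_unique hperf ρ hreal hf ha1 hv ha hfix
    exact ⟨c, hc, eig_sign hperf ρ hreal hf (stab ρ v) hne hv (fun b hb => hb) hx hc⟩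
  refine card_of_partition hperf {A | ∃ v : Fin 3 → ℂ, v ≠ 0 ∧ A = stab ρ v ∧ A ≠ ⊥} ?_ ?_ ?_ ?_ ?_
  · rintro A ⟨v, hv, rfl, hne⟩ g
    refine ⟨ρ g v, ?_, stab_conj ρ v g, ?_⟩
    · intro h
      apply hv
      have := rho_inv_rho ρ g v
      rw [h, map_zero] at this
      exact this.symm
    · rw [Ne, Subgroup.map_eq_bot_iff_of_injective _ (MulAut.conj g).injective]
      exact hne
  · rintro A ⟨v, _, _, h⟩
    exact h
  · intro g hg
    obtain ⟨v, hv, hgv⟩ := fix_exists hperf ρ hreal g
    refine ⟨stab ρ v, ⟨⟨v, hv, rfl, ?_⟩, hgv⟩, ?_⟩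
    · intro h
      have h2 : g ∈ (⊥ : Subgroup H) := h ▸ (mem_stab.2 hgv)
      exact hg (Subgroup.mem_bot.1 h2)
    · rintro A ⟨⟨w, hw, rfl, hne⟩, hgw⟩
      obtain ⟨c, hc⟩ := fix_unique hperf ρ hreal hf hg hv hgv hgw
      have hc0 : c ≠ 0 := by
        rintro rfl
        apply hw
        simpa using hc
      subst hc
      ext x
      rw [mem_stab, mem_stab, map_smul]
      constructor
      · intro h
        exact smul_right_injective _ hc0 h
      · intro h
        rw [h]
  · rintro A ⟨v, hv, rfl, hne⟩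
    by_cases hsub : ∀ y ∈ normalizer ((stab ρ v : Subgroup H) : Set H), y ∈ stab ρ v
    · have hle : normalizer ((stab ρ v : Subgroup H) : Set H) ≤ stab ρ v := hsub
      have h1 := Subgroup.card_le_of_le hle
      omega
    · push Not at hsub
      obtain ⟨x, hx, hxA⟩ := hsub
      obtain ⟨l, hl, hl1⟩ := hscal v hv hne x hx
      have hxv : ρ x v = -v := by
        rcases hl1 with rfl | rfl
        · exact absurd (mem_stab.2 (by simpa using hl)) hxA
        · simpa using hl
      have hkey : ∀ y ∈ normalizer ((stab ρ v : Subgroup H) : Set H), y ∉ stab ρ v →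
          x⁻¹ * y ∈ stab ρ v := by
        intro y hy hyA
        obtain ⟨m, hm, hm1⟩ := hscal v hv hne y hy
        have hyv : ρ y v = -v := by
          rcases hm1 with rfl | rfl
          · exact absurd (mem_stab.2 (by simpa using hm)) hyA
          · simpa using hm
        rw [mem_stab, map_mul, Module.End.mul_apply, hyv, ← hxv, rho_inv_rho]
      let f : normalizer ((stab ρ v : Subgroup H) : Set H) → (stab ρ v) × Bool := fun y =>
        if h : (y : H) ∈ stab ρ v then (⟨y, h⟩, true) else (⟨x⁻¹ * y, hkey y y.2 h⟩, false)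
      have hinj : Function.Injective f := by
        intro y z hyz
        apply Subtype.ext
        by_cases h1 : (y : H) ∈ stab ρ v <;> by_cases h2 : (z : H) ∈ stab ρ v
        · simp only [f, h1, h2, dif_pos] at hyz
          simpa using congrArg (fun p => ((p.1 : stab ρ v) : H)) hyz
        · simp [f, h1, h2] at hyz
        · simp [f, h1, h2] at hyz
        · simp only [f, h1, h2, dif_neg, not_false_eq_true] at hyz
          have := congrArg (fun p => ((p.1 : stab ρ v) : H)) hyz
          simpa using this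
      have h1 := Nat.card_le_card_of_injective f hinj
      rw [Nat.card_prod, Nat.card_eq_fintype_card (α := Bool)] at h1
      simpa [mul_comm] using h1
  · rintro A ⟨v, hv, rfl, hne⟩ hnorm
    refine no_line ρ hirr hv (fun g => ?_)
    have hg : g ∈ normalizer ((stab ρ v : Subgroup H) : Set H) := by
      rw [normalizer_eq_top_iff.2 hnorm]
      exact Subgroup.mem_top g
    obtain ⟨l, hl, -⟩ := hscal v hv hne g hg
    exact ⟨l, hl⟩

end Cfsg.Agent.Lib.S4758
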