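import Mathlib
import Cfsg.Agent.Lib.S4758.Defs
import Cfsg.Agent.Lib.S4758.Basic
import Cfsg.Agent.Lib.S4758.PowerCore
import Cfsg.Agent.Lib.S4758.NumericsCore
import Cfsg.Agent.Lib.Char.Ortho
import Cfsg.Agent.Lib.Char.Basic
import Cfsg.Agent.Lib.Char.Complete
import Cfsg.Agent.Lib.Char.CompleteCor
import Cfsg.Agent.Lib.Char.Burnside2

/-! The character count for a group of order sixty, with the degree list as a hypothesis. -/

set_option autoImplicit false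
set_option linter.unusedVariables false
set_option linter.style.haveILetI false
open scoped ComplexConjugate

namespace Cfsg.Agent.Lib.S4758

open Cfsg Subgroup

universe w

variable {G : Type w} [Group G] {u : G}

namespace SixtyAux

theorem degree_cases [Fintype G] (hyp : Hyp G u) (hu : u ≠ 1) (hu2 : u ^ 2 = 1) (hc : Nat.card G = 60)
    (hdeg : ∀ ψ : IrrCharacter G, (ψ : G → ℂ) ≠ triv G → (ψ : G → ℂ) u ≠ 0 → IsX u ψ ∨ IsP u ψ ∨ IsR u ψ)
    (χ : IrrCharacter G) (hχ : (χ : G → ℂ) ≠ triv G) :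
    IsX u χ ∨ IsP u χ ∨ IsR u χ ∨ IsB u 4 χ := by
  classical
  by_cases h0 : (χ : G → ℂ) u = 0
  · right; right; right
    have h4 := four_dvd (perfect hyp) χ (u := u) (by rw [hu2])
    obtain ⟨k, hk⟩ := h4
    rw [h0, sub_zero] at hk
    refine ⟨?_, h0⟩
    -- the degree is at most 7
    haveI : Fintype (IrrCharacter G) := Fintype.ofFinite _
    have hsum := Cfsg.Agent.Lib.Char.CompleteCor.sum_sq_degrees (G := G)
    rw [hc] at hsum
    choose d hd0 hd using fun χ : IrrCharacter G => Cfsg.Agent.Lib.Char.Ortho.irr_degree_pos χ.2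
    have hsumN : ∑ χ : IrrCharacter G, d χ ^ 2 = 60 := by
      have : ((∑ χ : IrrCharacter G, d χ ^ 2 : ℕ) : ℂ) = ((60 : ℕ) : ℂ) := by
        push_cast
        rw [← Nat.cast_ofNat (R := ℂ), ← hsum]
        refine Finset.sum_congr rfl (fun τ _ => ?_)
        rw [hd τ]
      exact_mod_cast this
    -- the trivial character contributes one more
    let τ₀ : IrrCharacter G := ⟨triv G, Cfsg.Agent.Lib.Char.Burnside2.isIrrCharacter_one⟩
    have hne : χ ≠ τ₀ := fun h => hχ (congrArg Subtype.val h)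
    have hle : d χ ^ 2 + d τ₀ ^ 2 ≤ 60 := by
      rw [← hsumN]
      rw [← Finset.add_sum_erase _ _ (Finset.mem_univ χ)]
      apply Nat.add_le_add_left
      exact Finset.single_le_sum (f := fun x => d x ^ 2) (fun _ _ => Nat.zero_le _)
        (Finset.mem_erase.2 ⟨hne.symm, Finset.mem_univ _⟩)
    have hdk : d χ = 4 * k := by
      have : ((d χ : ℕ) : ℂ) = ((4 * k : ℕ) : ℂ) := by
        push_cast
        rw [← hd χ, hk]
      exact_mod_cast this
    have h1 := hd0 χ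
    have h2 := hd0 τ₀
    have hk1 : k = 1 := by
      rw [hdk] at hle h1
      have hk0 : 0 < k := by omega
      by_contra hne1
      have hk2 : 2 ≤ k := by omega
      have : 4 * 2 ≤ 4 * k := by omega
      have h64 : (4 * 2) ^ 2 ≤ (4 * k) ^ 2 := Nat.pow_le_pow_left this 2
      omega
    rw [hk, hk1]
    norm_num
  · rcases hdeg χ hχ h0 with h | h | h
    · exact Or.inl h
    · exact Or.inr (Or.inl h)
    · exact Or.inr (Or.inr (Or.inl h))

end SixtyAux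

theorem sixty_eq [Fintype G] (hyp : Hyp G u) (hu : u ≠ 1) (hu2 : u ^ 2 = 1) (hc : Nat.card G = 60)
    (hdeg : ∀ ψ : IrrCharacter G, (ψ : G → ℂ) ≠ triv G → (ψ : G → ℂ) u ≠ 0 → IsX u ψ ∨ IsP u ψ ∨ IsR u ψ) :
    1 + 9 * nA u 3 + 16 * Nat.card {χ : IrrCharacter G // (χ : G → ℂ) 1 = 4}
      + 25 * nA u 5 + 36 * nA u 6 = 60 := by
  classical
  haveI : Fintype (IrrCharacter G) := Fintype.ofFinite _
  have hsum := Cfsg.Agent.Lib.Char.CompleteCor.sum_sq_degrees (G := G)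
  rw [hc] at hsum
  let τ₀ : IrrCharacter G := ⟨triv G, Cfsg.Agent.Lib.Char.Burnside2.isIrrCharacter_one⟩
  have key : ∀ χ : IrrCharacter G, (χ : G → ℂ) 1 ^ 2 =
      (if χ = τ₀ then (1 : ℂ) else 0)
        + 9 * (if (χ : G → ℂ) 1 = ((3 : ℕ) : ℂ) ∧ (χ : G → ℂ) u ≠ 0 then (1 : ℂ) else 0)
        + 16 * (if (χ : G → ℂ) 1 = 4 then (1 : ℂ) else 0)
        + 25 * (if (χ : G → ℂ) 1 = ((5 : ℕ) : ℂ) ∧ (χ : G → ℂ) u ≠ 0 then (1 : ℂ) else 0)
        + 36 * (if (χ : G → ℂ) 1 = ((6 : ℕ) : ℂ) ∧ (χ : G → ℂ) u ≠ 0 then (1 : ℂ) else 0) := by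
    intro χ
    by_cases ht : χ = τ₀
    · subst ht
      have h1 : (τ₀ : G → ℂ) 1 = 1 := rfl
      simp only [h1]
      norm_num
    · have htv : (χ : G → ℂ) ≠ triv G := fun h => ht (Subtype.ext h)
      rcases SixtyAux.degree_cases hyp hu hu2 hc hdeg χ htv with h | h | h | h
      · obtain ⟨h1, h2⟩ := h
        simp only [h1, h2, if_neg ht]
        norm_num
      · obtain ⟨h1, h2⟩ := h
        simp only [h1, h2, if_neg ht]
        norm_num
      · obtain ⟨h1, h2⟩ := h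
        simp only [h1, h2, if_neg ht]
        norm_num
      · obtain ⟨h1, h2⟩ := h
        have h1' : (χ : G → ℂ) 1 = 4 := by rw [h1]; norm_num
        simp only [h1', h2, if_neg ht]
        norm_num
  have hcount : ∀ (P : IrrCharacter G → Prop) (hd : DecidablePred P),
      (∑ χ : IrrCharacter G, @ite ℂ (P χ) (hd χ) 1 0)
      = ((Nat.card {χ : IrrCharacter G // P χ} : ℕ) : ℂ) := by
    intro P hd
    rw [Finset.sum_boole, Nat.card_eq_fintype_card, Fintype.card_subtype]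
  have e3 : (∑ χ : IrrCharacter G, (if (χ : G → ℂ) 1 = ((3 : ℕ) : ℂ) ∧ (χ : G → ℂ) u ≠ 0 then (1 : ℂ) else 0))
      = (nA u 3 : ℂ) := hcount _ _
  have e5 : (∑ χ : IrrCharacter G, (if (χ : G → ℂ) 1 = ((5 : ℕ) : ℂ) ∧ (χ : G → ℂ) u ≠ 0 then (1 : ℂ) else 0))
      = (nA u 5 : ℂ) := hcount _ _
  have e6 : (∑ χ : IrrCharacter G, (if (χ : G → ℂ) 1 = ((6 : ℕ) : ℂ) ∧ (χ : G → ℂ) u ≠ 0 then (1 : ℂ) else 0))
      = (nA u 6 : ℂ) := hcount _ _
  have e4 : (∑ χ : IrrCharacter G, (if (χ : G → ℂ) 1 = 4 then (1 : ℂ) else 0))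
      = (Nat.card {χ : IrrCharacter G // (χ : G → ℂ) 1 = 4} : ℂ) := hcount _ _
  have htot : ((60 : ℕ) : ℂ) = ((1 + 9 * nA u 3 + 16 * Nat.card {χ : IrrCharacter G // (χ : G → ℂ) 1 = 4}
      + 25 * nA u 5 + 36 * nA u 6 : ℕ) : ℂ) := by
    rw [← hsum, Finset.sum_congr rfl (fun χ _ => key χ)]
    simp only [Finset.sum_add_distrib, ← Finset.mul_sum]
    rw [e3, e4, e5, e6]
    have h1 : (∑ χ : IrrCharacter G, (if χ = τ₀ then (1 : ℂ) else 0)) = 1 := by
      rw [Finset.sum_ite_eq' Finset.univ τ₀]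
      simp
    rw [h1]
    push_cast
    ring
  exact_mod_cast htot.symm

theorem irr_of_card_sixty_core [Fintype G] (hyp : Hyp G u) (hu : u ≠ 1) (hu2 : u ^ 2 = 1) (hc : Nat.card G = 60)
    (hdeg : ∀ ψ : IrrCharacter G, (ψ : G → ℂ) ≠ triv G → (ψ : G → ℂ) u ≠ 0 → IsX u ψ ∨ IsP u ψ ∨ IsR u ψ) :
    nA u 3 = 2 ∧ nA u 5 = 1 ∧ nA u 6 = 0 ∧ Nat.card (centralizer ({u} : Set G)) = 4 ∧
      ∀ χ : IrrCharacter G, (χ : G → ℂ) ≠ triv G → IsX u χ ∨ IsP u χ ∨ IsB u 4 χ := by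
  classical
  have h60 := sixty_eq hyp hu hu2 hc hdeg
  obtain ⟨hn1, hn2⟩ := numerics_core hyp hu hdeg
  have h3 : nA u 3 = 2 := by omega
  have h5 : nA u 5 = 1 := by omega
  have h6 : nA u 6 = 0 := by omega
  refine ⟨h3, h5, h6, by omega, fun χ hχ => ?_⟩
  rcases SixtyAux.degree_cases hyp hu hu2 hc hdeg χ hχ with h | h | h | h
  · exact Or.inl h
  · exact Or.inr (Or.inl h)
  · exfalso
    haveI : Finite (IrrCharacter G) := Cfsg.Agent.Lib.Char.Complete.finite_irr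
    obtain ⟨h1, h2⟩ := h
    haveI : Nonempty {χ : IrrCharacter G // (χ : G → ℂ) 1 = ((6 : ℕ) : ℂ) ∧ (χ : G → ℂ) u ≠ 0} :=
      ⟨⟨χ, by rw [h1]; norm_num, by rw [h2]; norm_num⟩⟩
    have hpos : 0 < Nat.card {χ : IrrCharacter G // (χ : G → ℂ) 1 = ((6 : ℕ) : ℂ) ∧ (χ : G → ℂ) u ≠ 0} :=
      Nat.card_pos
    have : nA u 6 = Nat.card {χ : IrrCharacter G // (χ : G → ℂ) 1 = ((6 : ℕ) : ℂ) ∧ (χ : G → ℂ) u ≠ 0} := rfl
    omega
  · exact Or.inr (Or.inr h)

/-- uniqueness: there is exactly one deg 4 char and the deg 3, 5 counts above. -/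
theorem card_deg4_of_card_sixty_core [Fintype G] (hyp : Hyp G u) (hu : u ≠ 1) (hu2 : u ^ 2 = 1) (hc : Nat.card G = 60)
    (hdeg : ∀ ψ : IrrCharacter G, (ψ : G → ℂ) ≠ triv G → (ψ : G → ℂ) u ≠ 0 → IsX u ψ ∨ IsP u ψ ∨ IsR u ψ) :
    Nat.card {χ : IrrCharacter G // (χ : G → ℂ) 1 = 4} = 1 := by
  have h60 := sixty_eq hyp hu hu2 hc hdeg
  obtain ⟨hn1, hn2⟩ := numerics_core hyp hu hdeg
  omega

end Cfsg.Agent.Lib.S4758
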