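import Mathlib
import Cfsg.Agent.Lib.S4758.SixtyCore
import Cfsg.Agent.Lib.S4758.Degrees

/-! The character count for a group of order sixty. -/

set_option autoImplicit false

namespace Cfsg.Agent.Lib.S4758

open Cfsg Subgroup

universe w

variable {G : Type w} [Group G] {u : G}

theorem irr_of_card_sixty [Fintype G] (hyp : Hyp G u) (hu : u ≠ 1) (hu2 : u ^ 2 = 1) (hc : Nat.card G = 60) :
    nA u 3 = 2 ∧ nA u 5 = 1 ∧ nA u 6 = 0 ∧ Nat.card (centralizer ({u} : Set G)) = 4 ∧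
      ∀ χ : IrrCharacter G, (χ : G → ℂ) ≠ triv G → IsX u χ ∨ IsP u χ ∨ IsB u 4 χ :=
  irr_of_card_sixty_core hyp hu hu2 hc (fun ψ hψ h0 => degrees hyp hu ψ hψ h0)

/-- uniqueness: there is exactly one deg 4 char and the deg 3, 5 counts above. -/
theorem card_deg4_of_card_sixty [Fintype G] (hyp : Hyp G u) (hu : u ≠ 1) (hu2 : u ^ 2 = 1) (hc : Nat.card G = 60) :
    Nat.card {χ : IrrCharacter G // (χ : G → ℂ) 1 = 4} = 1 :=
  card_deg4_of_card_sixty_core hyp hu hu2 hc (fun ψ hψ h0 => degrees hyp hu ψ hψ h0)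

end Cfsg.Agent.Lib.S4758
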