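import Cfsg.Agent.Lib.S4758.X2Core
import Cfsg.Agent.Lib.S4758.Basic
import Cfsg.Agent.Lib.S4758.Power
import Cfsg.Agent.Lib.S4758.Table
import Cfsg.Agent.Lib.S4758.Degrees
import Cfsg.Agent.Lib.S4758.Sixty

/-! Piece A8c1 (X2) of S4758. -/

set_option autoImplicit false
open scoped ComplexConjugate

namespace Cfsg.Agent.Lib.S4758

open Cfsg Subgroup

universe w

variable {G : Type w} [Group G] {u : G}

theorem nA_three_eq_two [Fintype G] (hyp : Hyp G u) (hu : u ≠ 1) (K : Subgroup G) [K.Normal]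
    (hK : Nat.card (G ⧸ K) = 60) (hu2 : u ^ 2 ∈ K) (huK : u ∉ K) (χ₀ : IrrCharacter G) (h0 : IsX u χ₀)
    (hreal : IsReal (χ₀ : G → ℂ)) (hχ₀K : ∀ k ∈ K, (χ₀ : G → ℂ) k = 3) : nA u 3 = 2 := by
  classical
  have hperf := perfect hyp
  let _ : Fintype (G ⧸ K) := Fintype.ofFinite _
  have hq := hyp.quot K
  have hū : (u : G ⧸ K) ≠ 1 := mt (QuotientGroup.eq_one_iff u).1 huK
  have hū2 : (u : G ⧸ K) ^ 2 = 1 := by
    rw [← QuotientGroup.mk_pow]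
    exact (QuotientGroup.eq_one_iff _).2 hu2
  obtain ⟨h3, h5, -⟩ := irr_of_card_sixty hq hū hū2 hK
  exact nA_three_eq_two_core K χ₀ h0 hreal hχ₀K (fun ψ h1 h2 => degrees hyp hu ψ h1 h2)
    (fun χ₁ χ₂ h₁ h₂ => table hyp χ₁ χ₂ h₁ h₂) (fun hχ h3 => mul_self_eq hperf hχ h3)
    (fun hf x hx τ hτ => constituent_value hf x hx τ hτ) h3 h5

end Cfsg.Agent.Lib.S4758
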