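import Cfsg.Agent.Lib.S4758.Defs
import Cfsg.Agent.Lib.S4758.Basic
import Cfsg.Agent.Lib.S4758.Power
import Cfsg.Agent.Lib.S4758.Numerics
import Cfsg.Agent.Lib.S4758.Real
import Cfsg.Agent.Lib.S4758.SOMain
import Cfsg.Agent.Lib.S4758.Sixty
import Cfsg.Agent.Lib.S4758.X2
import Cfsg.Agent.Lib.Char.Codegree
import Cfsg.Agent.Lib.Char.QuotRep

/-! Piece CHARMAIN of S4758: assembly of the character part. -/

set_option autoImplicit false
open scoped ComplexConjugate

namespace Cfsg.Agent.Lib.S4758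

open Cfsg Subgroup

universe w

variable {G : Type w} [Group G] {u : G}

/-- The character part of S4758. -/
theorem char_main [Fintype G] (hyp : Hyp G u) (hu : u ≠ 1) :
    ∃ K : Subgroup G, ∃ _ : K.Normal, Setup u K := by
  classical
  have hperf := perfect hyp
  have hnc := normalClosure_eq_top hyp
  obtain ⟨χ₀, hX, hreal⟩ := exists_real hyp hu
  obtain ⟨n, ρ₀, hirr₀, hρ₀⟩ := χ₀.2
  have hn : n = 3 := by
    have h1 : ρ₀.character 1 = (n : ℂ) := by
      simp [Representation.character, map_one]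
    rw [hρ₀, hX.1] at h1
    exact_mod_cast h1.symm
  subst hn
  have hchar : ∀ g, (χ₀ : G → ℂ) g = ρ₀.character g := fun g => by rw [hρ₀]
  let K : Subgroup G := Cfsg.Agent.Lib.Char.Codegree.repKer ρ₀
  have hKn : K.Normal := by
    refine ⟨fun g hg x => ?_⟩
    have hg' : ρ₀ g = 1 := (Cfsg.Agent.Lib.Char.Codegree.mem_repKer ρ₀ g).1 hg
    refine (Cfsg.Agent.Lib.Char.Codegree.mem_repKer ρ₀ _).2 ?_
    rw [map_mul, map_mul, hg', mul_one, ← map_mul, mul_inv_cancel, map_one]
  have hK : ∀ g ∈ K, ρ₀ g = 1 := fun g hg => (Cfsg.Agent.Lib.Char.Codegree.mem_repKer ρ₀ g).1 hg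
  have hKchar : ∀ g, g ∈ K ↔ (χ₀ : G → ℂ) g = 3 := by
    intro g
    have h := Cfsg.Agent.Lib.Char.Codegree.character_eq_one_iff ρ₀ g
    rw [← hchar, ← hchar, hX.1] at h
    exact h.symm
  let ρ' : Representation ℂ (G ⧸ K) (Fin 3 → ℂ) := Cfsg.Agent.Lib.Char.QuotRep.quotRep ρ₀ K hK
  have hirr' : ρ'.IsIrreducible :=
    have := hirr₀
    Cfsg.Agent.Lib.Char.QuotRep.quotRep_isIrreducible ρ₀ K hK
  have hf : ∀ g, ρ' g = 1 → g = 1 := by
    intro g
    induction g using QuotientGroup.induction_on with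
    | H g =>
      intro hg
      have hg' : ρ₀ g = 1 := hg
      exact (QuotientGroup.eq_one_iff g).2 ((Cfsg.Agent.Lib.Char.Codegree.mem_repKer ρ₀ g).2 hg')
  have hreal' : IsReal ρ'.character := by
    intro g
    induction g using QuotientGroup.induction_on with
    | H g =>
      have h1 : ρ'.character (g : G ⧸ K) = ρ₀.character g :=
        Cfsg.Agent.Lib.Char.QuotRep.quotRep_character ρ₀ K hK g
      rw [h1, ← hchar]
      exact hreal g
  have hperf' : commutator (G ⧸ K) = ⊤ := by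
    have hsurj : Function.Surjective (QuotientGroup.mk' K) := QuotientGroup.mk'_surjective K
    have h := Subgroup.map_commutator (⊤ : Subgroup G) (⊤ : Subgroup G) (QuotientGroup.mk' K)
    rw [Subgroup.map_top_of_surjective _ hsurj] at h
    rw [commutator_def, ← h, ← commutator_def, hperf, Subgroup.map_top_of_surjective _ hsurj]
  have h60 : Nat.card (G ⧸ K) = 60 := card_eq_sixty hperf' ρ' hirr' hf hreal'
  have huK : u ∉ K := by
    intro h
    have h1 := (hKchar u).1 h
    rw [hX.2] at h1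
    norm_num at h1
  have hu2 : u ^ 2 ∈ K := by
    refine (hKchar _).2 ?_
    exact sq_of_isX hperf hX
  haveI : Fintype (G ⧸ K) := Fintype.ofFinite _
  have hq : Hyp (G ⧸ K) (u : G ⧸ K) := Hyp.quot hyp K
  have hu1 : (u : G ⧸ K) ≠ 1 := fun h => huK ((QuotientGroup.eq_one_iff u).1 h)
  have hu2' : (u : G ⧸ K) ^ 2 = 1 := by
    rw [← QuotientGroup.mk_pow]
    exact (QuotientGroup.eq_one_iff _).2 hu2
  obtain ⟨-, -, -, hcent', -⟩ := irr_of_card_sixty hq hu1 hu2' h60
  have hn3 : nA u 3 = 2 := nA_three_eq_two hyp hu K h60 hu2 huK χ₀ hX hreal fun k hk => (hKchar k).1 hk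
  obtain ⟨hnum, hcent⟩ := numerics hyp hu
  have hcent4 : Nat.card (centralizer ({u} : Set G)) = 4 := by
    rw [hcent, hn3]
    rw [hn3] at hnum
    omega
  exact ⟨K, hKn, ⟨hperf, hnc, h60, huK, hu2, hcent4, hcent'⟩⟩

end Cfsg.Agent.Lib.S4758
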