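import Mathlib

/-! Piece B4a of S4758: `K ⊴ G` with Sylow 2-subgroups of order 2 has a subgroup of odd order and index 2,
normal in `G`. -/

set_option autoImplicit false

namespace Cfsg.Agent.Lib.S4758

open Subgroup

universe w

variable {G : Type w} [Group G] [Finite G] {K : Subgroup G} [K.Normal]

theorem exists_complement (hK2 : ∀ P : Sylow 2 K, Nat.card P = 2) :
    ∃ O : Subgroup G, O.Normal ∧ O ≤ K ∧ Odd (Nat.card O) ∧ Nat.card K = 2 * Nat.card O := by
  classical
  have hfact : Fact (Nat.Prime 2) := ⟨Nat.prime_two⟩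
  let P : Sylow 2 K := default
  have hP2 : Nat.card (P : Subgroup K) = 2 := hK2 P
  obtain ⟨y, _, huniq⟩ := (Nat.card_eq_two_iff' (1 : (P : Subgroup K))).1 hP2
  have huq : ∀ a ∈ (P : Subgroup K), ∀ b ∈ (P : Subgroup K), a ≠ 1 → b ≠ 1 → a = b := by
    intro a ha b hb ha1 hb1
    have e1 : (⟨a, ha⟩ : (P : Subgroup K)) = y := huniq _ (fun h => ha1 (congrArg Subtype.val h))
    have e2 : (⟨b, hb⟩ : (P : Subgroup K)) = y := huniq _ (fun h => hb1 (congrArg Subtype.val h))
    exact congrArg Subtype.val (e1.trans e2.symm)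
  have hP : normalizer (P : Set K) ≤ centralizer (P : Set K) := by
    intro x hx
    rw [mem_centralizer_iff]
    intro t ht
    have ht' : t ∈ (P : Subgroup K) := ht
    by_cases ht1 : t = 1
    · rw [ht1, one_mul, mul_one]
    · have hconj : x * t * x⁻¹ ∈ (P : Subgroup K) := (mem_normalizer_iff.1 hx t).1 ht
      have hne : x * t * x⁻¹ ≠ 1 := fun h => ht1 (by
        have h2 : x * t = x := by
          have := congrArg (· * x) h
          simpa using this
        simpa using h2)
      have e := huq _ hconj _ ht' hne ht1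
      have e2 : x * t = t * x := by
        have := congrArg (· * x) e
        simpa using this
      exact e2.symm
  have hcomp := MonoidHom.ker_transferSylow_isComplement' P hP
  have hnd := MonoidHom.not_dvd_card_ker_transferSylow P hP
  set O₀ : Subgroup K := (MonoidHom.transferSylow P hP).ker with hO₀
  have hO₀n : O₀.Normal := MonoidHom.normal_ker _
  have hodd : Odd (Nat.card O₀) := by
    rw [← Nat.not_even_iff_odd, even_iff_two_dvd]
    exact hnd
  have hcard : Nat.card O₀ * 2 = Nat.card K := by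
    have := hcomp.card_mul_card
    rwa [hP2] at this
  have hidx : O₀.index = 2 := by
    have := hcomp.symm.index_eq_card
    rw [this, hP2]
  have hmem : ∀ x : K, Odd (orderOf x) → x ∈ O₀ := by
    intro x hx
    obtain ⟨k, hk⟩ := hx
    have h2 : x ^ 2 ∈ O₀ := Subgroup.sq_mem_of_index_two hidx x
    have e : x = (x ^ 2) ^ (k + 1) := by
      have h3 : x ^ (2 * k + 1) = 1 := by
        rw [← hk]
        exact pow_orderOf_eq_one x
      calc x = x ^ (2 * k + 1) * x := by rw [h3, one_mul]
        _ = (x ^ 2) ^ (k + 1) := by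
          rw [← pow_mul, show 2 * (k + 1) = 2 * k + 1 + 1 by ring, pow_succ x (2 * k + 1)]
    rw [e]
    exact O₀.pow_mem h2 _
  refine ⟨O₀.map K.subtype, ⟨?_⟩, map_subtype_le _, ?_, ?_⟩
  · rintro _ ⟨x, hx, rfl⟩ g
    have hgx : g * (x : G) * g⁻¹ ∈ K := ‹K.Normal›.conj_mem _ x.2 g
    refine ⟨⟨g * (x : G) * g⁻¹, hgx⟩, hmem _ ?_, rfl⟩
    have h1 : orderOf (⟨g * (x : G) * g⁻¹, hgx⟩ : K) = orderOf (g * (x : G) * g⁻¹) :=
      Subgroup.orderOf_mk _ _
    have h2 : orderOf (g * (x : G) * g⁻¹) = orderOf (x : G) := by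
      have := MulEquiv.orderOf_eq (MulAut.conj g) (x : G)
      simpa [MulAut.conj_apply] using this
    have h3 : orderOf (x : G) = orderOf x := Subgroup.orderOf_coe x
    rw [h1, h2, h3]
    exact Odd.of_dvd_nat hodd (Subgroup.orderOf_dvd_natCard O₀ hx)
  · have e : Nat.card ↥(O₀.map K.subtype) = Nat.card O₀ :=
      Nat.card_congr (O₀.equivMapOfInjective K.subtype K.subtype_injective).toEquiv.symm
    rw [e]
    exact hodd
  · have e : Nat.card ↥(O₀.map K.subtype) = Nat.card O₀ :=
      Nat.card_congr (O₀.equivMapOfInjective K.subtype K.subtype_injective).toEquiv.symm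
    rw [e, ← hcard, mul_comm]

end Cfsg.Agent.Lib.S4758
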