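import Mathlib
import Cfsg.Agent.Lib.Char.Burnside2
import Cfsg.Agent.Lib.PSL2.CosetIso
import Cfsg.Agent.S0253

/-! S4758 piece B5: a perfect group of order 60 is simple and isomorphic to `PSL₂(5)`. -/

set_option autoImplicit false

namespace Cfsg.Agent.Lib.S4758

open Subgroup

universe w

namespace Rec60Aux

/-- Every group of order a proper divisor of 60 is solvable. -/
lemma solvable_of_dvd_sixty {Q : Type*} [Group Q] [Finite Q] (h : Nat.card Q ∣ 60) (hne : Nat.card Q ≠ 60) :
    Group.IsSolvable Q := by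
  have hmem : Nat.card Q ∈ (60 : ℕ).divisors := Nat.mem_divisors.2 ⟨h, by norm_num⟩
  have hsq : Squarefree (Nat.card Q) → Group.IsSolvable Q := fun hs => by
    haveI : IsZGroup Q := IsZGroup.of_squarefree hs
    infer_instance
  have hdiv : (60 : ℕ).divisors = {1, 2, 3, 4, 5, 6, 10, 12, 15, 20, 30, 60} := by decide +kernel
  rw [hdiv] at hmem
  simp only [Finset.mem_insert, Finset.mem_singleton] at hmem
  have s2 : Squarefree 2 := Nat.prime_two.prime.irreducible.squarefree
  have s3 : Squarefree 3 := Nat.prime_three.prime.irreducible.squarefree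
  have s5 : Squarefree 5 := Nat.prime_five.prime.irreducible.squarefree
  have s6 : Squarefree (2 * 3) := (Nat.squarefree_mul (by norm_num)).2 ⟨s2, s3⟩
  have s10 : Squarefree (2 * 5) := (Nat.squarefree_mul (by norm_num)).2 ⟨s2, s5⟩
  have s15 : Squarefree (3 * 5) := (Nat.squarefree_mul (by norm_num)).2 ⟨s3, s5⟩
  have s30 : Squarefree (2 * (3 * 5)) := (Nat.squarefree_mul (by norm_num)).2 ⟨s2, s15⟩
  rcases hmem with h1 | h1 | h1 | h1 | h1 | h1 | h1 | h1 | h1 | h1 | h1 | h1
  · exact hsq (by rw [h1]; exact squarefree_one)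
  · exact hsq (by rw [h1]; exact s2)
  · exact hsq (by rw [h1]; exact s3)
  · exact Cfsg.Agent.Lib.Char.Burnside2.isSolvable_of_card_eq Nat.prime_two Nat.prime_three _ Q 2 0 rfl
      (by rw [h1]; norm_num)
  · exact hsq (by rw [h1]; exact s5)
  · exact hsq (by rw [h1]; exact s6)
  · exact hsq (by rw [h1]; exact s10)
  · exact Cfsg.Agent.Lib.Char.Burnside2.isSolvable_of_card_eq Nat.prime_two Nat.prime_three _ Q 2 1 rfl
      (by rw [h1]; norm_num)
  · exact hsq (by rw [h1]; exact s15)
  · exact Cfsg.Agent.Lib.Char.Burnside2.isSolvable_of_card_eq Nat.prime_two (by norm_num : Nat.Prime 5) _ Q 2 1 rfl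
      (by rw [h1]; norm_num)
  · exact hsq (by rw [h1]; exact s30)
  · exact absurd h1 hne

/-- A solvable perfect group is trivial. -/
lemma subsingleton_of_solvable_perfect {Q : Type*} [Group Q] (hs : Group.IsSolvable Q)
    (hp : commutator Q = ⊤) : Subsingleton Q := by
  obtain ⟨n, hn⟩ := hs.solvable
  have h : ∀ k, derivedSeries Q k = ⊤ := by
    intro k
    induction k with
    | zero => rfl
    | succ k ih =>
      rw [derivedSeries_succ, ih]
      exact hp
  refine ⟨fun a b => ?_⟩
  have ha : a ∈ derivedSeries Q n := by rw [h n]; trivial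
  have hb : b ∈ derivedSeries Q n := by rw [h n]; trivial
  rw [hn] at ha hb
  rw [Subgroup.mem_bot.1 ha, Subgroup.mem_bot.1 hb]

end Rec60Aux

open Rec60Aux in
theorem simple_of_perfect_sixty {H : Type w} [Group H] [Finite H] (hperf : commutator H = ⊤)
    (hc : Nat.card H = 60) : IsSimpleGroup H := by
  haveI : Nontrivial H := Finite.one_lt_card_iff_nontrivial.1 (by omega)
  refine { eq_bot_or_eq_top_of_normal := ?_ }
  intro N hN
  by_cases hb : N = ⊥
  · exact Or.inl hb
  right
  have hmul := N.card_mul_index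
  rw [hc] at hmul
  have hN1 : Nat.card N ≠ 1 := fun h => hb (Subgroup.card_eq_one.1 h)
  have hQc : Nat.card (H ⧸ N) = N.index := rfl
  have hdvd : Nat.card (H ⧸ N) ∣ 60 := by
    rw [hQc]
    exact ⟨Nat.card N, by rw [← hmul, mul_comm]⟩
  have hne : Nat.card (H ⧸ N) ≠ 60 := by
    rw [hQc]
    intro h
    rw [h] at hmul
    apply hN1
    omega
  have hs := solvable_of_dvd_sixty hdvd hne
  have hpQ : commutator (H ⧸ N) = ⊤ := by
    have hf : Function.Surjective (QuotientGroup.mk' N) := QuotientGroup.mk'_surjective N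
    have h1 : (⊤ : Subgroup (H ⧸ N)) = (⊤ : Subgroup H).map (QuotientGroup.mk' N) :=
      (Subgroup.map_top_of_surjective _ hf).symm
    rw [commutator_def, h1, ← Subgroup.map_commutator, ← commutator_def, hperf]
  haveI := subsingleton_of_solvable_perfect hs hpQ
  have h2 : N.index = 1 := by
    rw [← hQc]
    exact Nat.card_of_subsingleton (1 : H ⧸ N)
  exact Subgroup.index_eq_one.1 h2

namespace Rec60Aux

/-- A simple group embeds in the permutations of the cosets of a proper subgroup. -/
lemma card_le_factorial {H : Type*} [Group H] [Finite H] [hs : IsSimpleGroup H] (K : Subgroup H) (hK : K ≠ ⊤) :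
    Nat.card H ≤ K.index.factorial := by
  classical
  let φ := MulAction.toPermHom H (H ⧸ K)
  have hker : φ.ker ≤ K := by
    intro g hg
    have h1 : φ g = 1 := hg
    have h2 : (φ g) ((1 : H) : H ⧸ K) = ((1 : H) : H ⧸ K) := by
      rw [h1]
      rfl
    have h3 : ((g * 1 : H) : H ⧸ K) = ((1 : H) : H ⧸ K) := h2
    have h4 := QuotientGroup.eq.1 h3
    simpa using K.inv_mem h4
  have hbot : φ.ker = ⊥ := by
    rcases hs.eq_bot_or_eq_top_of_normal φ.ker φ.normal_ker with h | h
    · exact h
    · exact absurd (top_le_iff.1 (h ▸ hker)) hK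
  have hinj : Function.Injective φ := (MonoidHom.ker_eq_bot_iff φ).1 hbot
  have h1 := Nat.card_le_card_of_injective φ hinj
  haveI : Fintype (H ⧸ K) := Fintype.ofFinite _
  rw [Nat.card_eq_fintype_card (α := Equiv.Perm (H ⧸ K)), Fintype.card_perm] at h1
  rw [← Nat.card_eq_fintype_card] at h1
  exact h1

end Rec60Aux

open Rec60Aux in
/-- A perfect group of order 60 is `A₅`. -/
theorem iso_a5_of_perfect_sixty {H : Type w} [Group H] [Finite H] (hperf : commutator H = ⊤)
    (hc : Nat.card H = 60) : Nonempty (H ≃* alternatingGroup (Fin 5)) := by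
  classical
  haveI hs : IsSimpleGroup H := simple_of_perfect_sixty hperf hc
  haveI : Fact (Nat.Prime 2) := ⟨Nat.prime_two⟩
  obtain ⟨T⟩ : Nonempty (Sylow 2 H) := inferInstance
  have hmulT := (T : Subgroup H).card_mul_index
  rw [hc] at hmulT
  obtain ⟨k, hk⟩ := T.2.exists_card_eq
  have hndvd := T.not_dvd_index
  have hT4 : Nat.card (T : Subgroup H) = 4 := by
    rw [hk] at hmulT ⊢
    have hk3 : k < 3 := by
      by_contra hcon
      push Not at hcon
      have h1 : 2 ^ 3 ∣ 60 := by
        rw [← hmulT]
        exact Dvd.dvd.mul_right (pow_dvd_pow 2 hcon) _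
      norm_num at h1
    interval_cases k
    · exfalso
      apply hndvd
      omega
    · exfalso
      apply hndvd
      omega
    · rfl
  set N := normalizer ((T : Subgroup H) : Set H) with hNdef
  have hTN : (T : Subgroup H) ≤ N := Subgroup.le_normalizer
  have hidx : N.index = Nat.card (Sylow 2 H) := (Sylow.card_eq_index_normalizer T).symm
  have hmulN := N.card_mul_index
  rw [hc] at hmulN
  have hdvdN : 4 ∣ Nat.card N := by
    rw [← hT4]
    exact Subgroup.card_dvd_of_le hTN
  obtain ⟨c, hcN⟩ := hdvdN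
  have hidx15 : N.index ∣ 15 := by
    rw [hcN] at hmulN
    refine ⟨c, ?_⟩
    nlinarith
  have hmem : N.index ∈ (15 : ℕ).divisors := Nat.mem_divisors.2 ⟨hidx15, by norm_num⟩
  have hdiv : (15 : ℕ).divisors = {1, 3, 5, 15} := by decide +kernel
  rw [hdiv] at hmem
  simp only [Finset.mem_insert, Finset.mem_singleton] at hmem
  rcases hmem with h | h | h | h
  · -- normal Sylow
    exfalso
    have hnorm : (T : Subgroup H).Normal :=
      Subgroup.normalizer_eq_top_iff.1 (Subgroup.index_eq_one.1 h)
    rcases hs.eq_bot_or_eq_top_of_normal _ hnorm with h1 | h1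
    · rw [h1, Subgroup.card_bot] at hT4
      omega
    · rw [h1, Subgroup.card_top, hc] at hT4
      omega
  · exfalso
    have hne : N ≠ ⊤ := by
      rintro h1
      rw [h1, Subgroup.index_top] at h
      omega
    have := card_le_factorial N hne
    rw [hc, h] at this
    norm_num [Nat.factorial] at this
  · -- the main case
    refine Cfsg.Agent.Lib.PSL2.CosetIso.nonempty_equiv_A5 N h ?_ hc
    intro M hM hle
    rcases hs.eq_bot_or_eq_top_of_normal M hM with h1 | h1
    · exact h1
    · exfalso
      rw [h1, top_le_iff] at hle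
      rw [hle, Subgroup.index_top] at h
      omega
  · -- Burnside transfer
    exfalso
    have hNc : Nat.card N = 4 := by
      rw [h] at hmulN
      omega
    have hNT : (T : Subgroup H) = N :=
      Subgroup.eq_of_le_of_card_ge hTN (by rw [hNc, hT4])
    have hab := IsPGroup.commutative_of_card_eq_prime_sq (p := 2) (G := (T : Subgroup H)) (by rw [hT4]; norm_num)
    have hP : N ≤ centralizer ((T : Subgroup H) : Set H) := by
      rw [← hNT]
      intro a ha'
      rw [Subgroup.mem_centralizer_iff]
      intro b hb'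
      exact congrArg Subtype.val (hab ⟨b, hb'⟩ ⟨a, ha'⟩)
    have hcomp := MonoidHom.ker_transferSylow_isComplement' T hP
    have hcard := hcomp.card_mul
    rw [hT4, hc] at hcard
    have hker : Nat.card (MonoidHom.transferSylow T hP).ker = 15 := by omega
    rcases hs.eq_bot_or_eq_top_of_normal _ (MonoidHom.transferSylow T hP).normal_ker with h1 | h1
    · rw [h1, Subgroup.card_bot] at hker
      omega
    · rw [h1, Subgroup.card_top, hc] at hker
      omega

theorem iso_psl_of_perfect_sixty {H : Type w} [Group H] [Finite H] (hperf : commutator H = ⊤)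
    (hc : Nat.card H = 60) : Nonempty (H ≃* Matrix.ProjectiveSpecialLinearGroup (Fin 2) (ZMod 5)) := by
  obtain ⟨e⟩ := iso_a5_of_perfect_sixty hperf hc
  obtain ⟨e'⟩ := Cfsg.Agent.S0253.result (F := ZMod 5) (by simp [ZMod.card])
  exact ⟨e.trans e'.symm⟩

end Cfsg.Agent.Lib.S4758
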