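import Cfsg.Agent.Lib.S4758.CoreEqCore
import Cfsg.Agent.Lib.S4758.Rec60

/-! Piece COREEQ of S4758. -/

set_option autoImplicit false

namespace Cfsg.Agent.Lib.S4758

open Cfsg Subgroup

universe w

variable {G : Type w} [Group G] {u : G} [Finite G] {K : Subgroup G} [K.Normal]

theorem oddCore_eq (S : Setup u K) {O : Subgroup G} [O.Normal] (hOK : O ≤ K) (hO : Odd (Nat.card O))
    (hc : Nat.card K ≤ 2 * Nat.card O) : oddCore G = O := by
  have hperf : commutator (G ⧸ K) = ⊤ := by
    have h : commutator (G ⧸ K) = (commutator G).map (QuotientGroup.mk' K) := by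
      rw [commutator_def, commutator_def, Subgroup.map_commutator,
        Subgroup.map_top_of_surjective _ (QuotientGroup.mk'_surjective K)]
    rw [h, S.perf, Subgroup.map_top_of_surjective _ (QuotientGroup.mk'_surjective K)]
  exact oddCore_eq_of_simple (simple_of_perfect_sixty hperf S.card) S.card hOK hO hc

end Cfsg.Agent.Lib.S4758
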