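import Cfsg.Agent.Lib.S4758.Defs
import Cfsg.Agent.Lib.Solvable.Carter

/-! Piece COREEQ of S4758: the odd core from a simple quotient of even order. -/

set_option autoImplicit false

namespace Cfsg.Agent.Lib.S4758

open Cfsg Subgroup

universe w

variable {G : Type w} [Group G] [Finite G]

theorem oddCore_eq_of_simple {K : Subgroup G} [K.Normal] (hs : IsSimpleGroup (G ⧸ K))
    (h60 : Nat.card (G ⧸ K) = 60) {O : Subgroup G} [hON : O.Normal] (_hOK : O ≤ K)
    (hO : Odd (Nat.card O)) (hc : Nat.card K ≤ 2 * Nat.card O) : oddCore G = O := by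
  set N : Subgroup G := oddCore G with hN
  have hNodd : Odd (Nat.card N) :=
    Nat.coprime_two_right.1 (Cfsg.Agent.Lib.Solvable.Carter.card_pPrimeCore_coprime (G := G) 2)
  have hON' : O ≤ N :=
    Cfsg.Agent.Lib.Solvable.Carter.le_pPrimeCore hON (Nat.coprime_two_right.2 hO)
  have hNn : N.Normal := Cfsg.pPrimeCore_normal 2 G
  -- `N` lies in `K`
  have hNK : N ≤ K := by
    have himg : (N.map (QuotientGroup.mk' K)).Normal :=
      hNn.map _ (QuotientGroup.mk'_surjective K)
    rcases hs.eq_bot_or_eq_top_of_normal _ himg with h | h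
    · intro x hx
      have : (QuotientGroup.mk' K x) ∈ N.map (QuotientGroup.mk' K) := Subgroup.mem_map_of_mem _ hx
      rw [h, Subgroup.mem_bot] at this
      exact (QuotientGroup.eq_one_iff x).1 this
    · exfalso
      have hd : Nat.card (N.map (QuotientGroup.mk' K)) ∣ Nat.card N :=
        Subgroup.card_map_dvd (f := QuotientGroup.mk' K) (H := N)
      rw [h, Subgroup.card_top, h60] at hd
      have h2 : 2 ∣ Nat.card N := dvd_trans (by norm_num) hd
      exact (Nat.not_even_iff_odd.2 hNodd) (even_iff_two_dvd.2 h2)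
  -- index count
  obtain ⟨r, hr⟩ : Nat.card O ∣ Nat.card N := Subgroup.card_dvd_of_le hON'
  obtain ⟨t, ht⟩ : Nat.card N ∣ Nat.card K := Subgroup.card_dvd_of_le hNK
  have hOpos : 0 < Nat.card O := Nat.card_pos
  have hNpos : 0 < Nat.card N := Nat.card_pos
  have hKpos : 0 < Nat.card K := Nat.card_pos
  have htpos : 0 < t := by
    rcases Nat.eq_zero_or_pos t with h0 | h0
    · rw [h0] at ht; omega
    · exact h0
  have hrodd : Odd r := Odd.of_dvd_nat hNodd ⟨Nat.card O, by rw [hr]; ring⟩
  have hr2 : r ≤ 2 := by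
    by_contra hcon
    push Not at hcon
    have h3 : 3 ≤ r := hcon
    have : Nat.card K ≥ 3 * Nat.card O := by
      calc Nat.card K = Nat.card N * t := ht
        _ ≥ Nat.card N * 1 := Nat.mul_le_mul_left _ htpos
        _ = Nat.card O * r := by rw [mul_one, hr]
        _ ≥ Nat.card O * 3 := Nat.mul_le_mul_left _ h3
        _ = 3 * Nat.card O := by ring
    omega
  have hr1 : r = 1 := by
    obtain ⟨k, hk⟩ := hrodd
    omega
  have hcard : Nat.card N = Nat.card O := by rw [hr, hr1, mul_one]
  exact (Subgroup.eq_of_le_of_card_ge hON' (le_of_eq hcard)).symm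

end Cfsg.Agent.Lib.S4758
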