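import Cfsg.Agent.Lib.S4758.Defs

set_option autoImplicit false

namespace Cfsg.Agent.Lib.S4758

open Cfsg Subgroup

universe w

variable {G : Type w} [Group G] [Finite G]

/-- The preimage in `G` of the centralizer of `gN`. -/
private abbrev preC (N : Subgroup G) [N.Normal] (g : G) : Subgroup G :=
  (centralizer ({(g : G ⧸ N)} : Set (G ⧸ N))).comap (QuotientGroup.mk' N)

private theorem mem_preC (N : Subgroup G) [N.Normal] (g x : G) :
    x ∈ preC N g ↔ g⁻¹ * (x * g * x⁻¹) ∈ N := by
  simp only [preC, mem_comap, mem_centralizer_singleton_iff, QuotientGroup.mk'_apply]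
  constructor
  · intro h
    have h1 : ((x * g * x⁻¹ : G) : G ⧸ N) = (g : G ⧸ N) := by
      rw [QuotientGroup.mk_mul, QuotientGroup.mk_mul, h, QuotientGroup.mk_inv]
      group
    exact (QuotientGroup.eq.mp h1.symm)
  · intro h
    have h1 : (g : G ⧸ N) = ((x * g * x⁻¹ : G) : G ⧸ N) := QuotientGroup.eq.mpr h
    rw [QuotientGroup.mk_mul, QuotientGroup.mk_mul, QuotientGroup.mk_inv] at h1
    calc (x : G ⧸ N) * (g : G ⧸ N) = ((x : G ⧸ N) * (g : G ⧸ N) * (x : G ⧸ N)⁻¹) * (x : G ⧸ N) := by group
      _ = (g : G ⧸ N) * (x : G ⧸ N) := by rw [← h1]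

private theorem card_preC (N : Subgroup G) [N.Normal] (g : G) :
    Nat.card (preC N g) = Nat.card N * Nat.card (centralizer ({(g : G ⧸ N)} : Set (G ⧸ N))) := by
  have h1 := (preC N g).card_mul_index
  have h2 := (centralizer ({(g : G ⧸ N)} : Set (G ⧸ N))).card_mul_index
  have h3 : (preC N g).index = (centralizer ({(g : G ⧸ N)} : Set (G ⧸ N))).index :=
    Subgroup.index_comap_of_surjective _ (QuotientGroup.mk'_surjective N)
  have h4 := N.card_mul_index
  rw [Subgroup.index_eq_card] at h4
  have hi : (preC N g).index ≠ 0 := Subgroup.index_ne_zero_of_finite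
  apply Nat.eq_of_mul_eq_mul_right (Nat.pos_of_ne_zero hi)
  rw [h1, mul_assoc, h3, h2, h4]

private theorem centralizer_le_preC (N : Subgroup G) [N.Normal] (g : G) :
    centralizer ({g} : Set G) ≤ preC N g := by
  intro x hx
  rw [mem_centralizer_singleton_iff] at hx
  rw [mem_preC]
  have : g⁻¹ * (x * g * x⁻¹) = 1 := by
    rw [hx]; group
  rw [this]; exact N.one_mem

private noncomputable def phi (N : Subgroup G) [N.Normal] (g : G) :
    (preC N g) ⧸ (centralizer ({g} : Set G)).subgroupOf (preC N g) → N :=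
  fun q => ⟨g⁻¹ * ((q.out : G) * g * (q.out : G)⁻¹), (mem_preC N g _).mp q.out.2⟩

private theorem phi_inj (N : Subgroup G) [N.Normal] (g : G) : Function.Injective (phi N g) := by
  intro q₁ q₂ h
  have h1 : g⁻¹ * ((q₁.out : G) * g * (q₁.out : G)⁻¹) = g⁻¹ * ((q₂.out : G) * g * (q₂.out : G)⁻¹) :=
    congrArg Subtype.val h
  have h2 := mul_left_cancel h1
  rw [← q₁.out_eq', ← q₂.out_eq']
  apply QuotientGroup.eq.mpr
  rw [Subgroup.mem_subgroupOf, mem_centralizer_singleton_iff]
  simp only [Subgroup.coe_mul, Subgroup.coe_inv]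
  have h3 : (q₁.out : G)⁻¹ * (q₂.out : G) * g = g * ((q₁.out : G)⁻¹ * (q₂.out : G)) := by
    have : (q₂.out : G) * g = (q₁.out : G) * g * (q₁.out : G)⁻¹ * (q₂.out : G) := by
      rw [h2]; group
    calc (q₁.out : G)⁻¹ * (q₂.out : G) * g = (q₁.out : G)⁻¹ * ((q₂.out : G) * g) := by group
      _ = _ := by rw [this]; group
  simpa using h3

private theorem card_subgroupOf_centralizer (N : Subgroup G) [N.Normal] (g : G) :
    Nat.card ((centralizer ({g} : Set G)).subgroupOf (preC N g)) =
      Nat.card (centralizer ({g} : Set G)) :=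
  Nat.card_congr (Subgroup.subgroupOfEquivOfLe (centralizer_le_preC N g)).toEquiv

/-- Quotients do not increase centralizer orders. -/
theorem card_centralizer_quot_le (N : Subgroup G) [N.Normal] (g : G) :
    Nat.card (centralizer ({(g : G ⧸ N)} : Set (G ⧸ N))) ≤ Nat.card (centralizer ({g} : Set G)) := by
  have h1 := ((centralizer ({g} : Set G)).subgroupOf (preC N g)).card_mul_index
  rw [card_subgroupOf_centralizer, card_preC] at h1
  have h2 : ((centralizer ({g} : Set G)).subgroupOf (preC N g)).index ≤ Nat.card N := by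
    rw [Subgroup.index_eq_card]
    exact Nat.card_le_card_of_injective _ (phi_inj N g)
  have hN : 0 < Nat.card N := Nat.card_pos
  have hC : 0 < Nat.card (centralizer ({g} : Set G)) := Nat.card_pos
  by_contra hlt
  push Not at hlt
  have : Nat.card (centralizer ({g} : Set G)) * ((centralizer ({g} : Set G)).subgroupOf (preC N g)).index
      ≤ Nat.card (centralizer ({g} : Set G)) * Nat.card N := Nat.mul_le_mul_left _ h2
  rw [h1, mul_comm (Nat.card N)] at this
  have := Nat.le_of_mul_le_mul_right this hN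
  omega

/-- If centralizer orders agree, then every element of the coset `gN` is conjugate to `g`. -/
theorem isConj_mul_of_card_eq (N : Subgroup G) [N.Normal] (g : G)
    (h : Nat.card (centralizer ({(g : G ⧸ N)} : Set (G ⧸ N))) = Nat.card (centralizer ({g} : Set G)))
    {k : G} (hk : k ∈ N) : IsConj (g * k) g := by
  have h1 := ((centralizer ({g} : Set G)).subgroupOf (preC N g)).card_mul_index
  rw [card_subgroupOf_centralizer, card_preC, h] at h1
  have hC : 0 < Nat.card (centralizer ({g} : Set G)) := Nat.card_pos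
  have h2 : ((centralizer ({g} : Set G)).subgroupOf (preC N g)).index = Nat.card N := by
    rw [mul_comm (Nat.card N)] at h1
    exact Nat.eq_of_mul_eq_mul_left hC h1
  have hb : Function.Surjective (phi N g) := by
    have hi := phi_inj N g
    refine (Function.Injective.bijective_of_nat_card_le hi ?_).2
    rw [← Subgroup.index_eq_card, h2]
  obtain ⟨q, hq⟩ := hb ⟨k, hk⟩
  have h3 : g⁻¹ * ((q.out : G) * g * (q.out : G)⁻¹) = k := congrArg Subtype.val hq
  rw [isConj_comm, isConj_iff]
  refine ⟨q.out, ?_⟩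
  rw [← h3]; group

section Setup
variable {u : G} {K : Subgroup G} [K.Normal]

theorem isConj_mul (S : Setup u K) {k : G} (hk : k ∈ K) : IsConj (u * k) u :=
  isConj_mul_of_card_eq K u (by rw [S.cent, S.cent']) hk

/-- `⟨u⟩` has order dividing 4. -/
theorem orderOf_dvd_four (S : Setup u K) : orderOf u ∣ 4 := by
  have hm : u ∈ centralizer ({u} : Set G) := by
    rw [mem_centralizer_singleton_iff]
  have h := orderOf_dvd_natCard (⟨u, hm⟩ : centralizer ({u} : Set G))
  rw [Subgroup.orderOf_mk, S.cent] at h
  exact h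

/-- `C_K(u)` has order at most 2. -/
theorem card_centralizer_inf_le (S : Setup u K) :
    Nat.card (centralizer ({u} : Set G) ⊓ K : Subgroup G) ≤ 2 := by
  have hm : u ∈ centralizer ({u} : Set G) := by
    rw [mem_centralizer_singleton_iff]
  set C := centralizer ({u} : Set G) with hC
  set L : Subgroup C := K.subgroupOf C with hL
  have h1 := L.card_mul_index
  rw [S.cent] at h1
  have h2 : Nat.card (C ⊓ K : Subgroup G) = Nat.card L :=
    Nat.card_congr
      { toFun := fun x => ⟨⟨x.1, x.2.1⟩, x.2.2⟩
        invFun := fun y => ⟨y.1.1, y.1.2, y.2⟩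
        left_inv := fun _ => rfl
        right_inv := fun _ => rfl }
  have h3 : L.index ≠ 1 := by
    intro h
    rw [Subgroup.index_eq_one] at h
    have : (⟨u, hm⟩ : C) ∈ L := by rw [h]; trivial
    exact S.hu (by simpa [hL, Subgroup.mem_subgroupOf] using this)
  have h4 : L.index ≠ 0 := Subgroup.index_ne_zero_of_finite
  rw [h2]
  have h5 : 2 ≤ L.index := by omega
  nlinarith [Nat.card_pos (α := L)]

end Setup

end Cfsg.Agent.Lib.S4758
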