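import Cfsg.Agent.Lib.S4758.CosetConj

/-! B4c of S4758: `O` is abelian. -/

set_option autoImplicit false

namespace Cfsg.Agent.Lib.S4758

open Cfsg Subgroup

universe w

variable {G : Type w} [Group G] [Finite G]

/-- An automorphism with trivial fixed points whose square is trivial inverts. -/
theorem inverts_of_fpf (H : Subgroup G) (t : G) (hn : ∀ x ∈ H, t * x * t⁻¹ ∈ H)
    (h2 : ∀ x ∈ H, t * t * x = x * (t * t))
    (hf : ∀ x ∈ H, t * x = x * t → x = 1) : ∀ x ∈ H, t * x * t⁻¹ = x⁻¹ := by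
  let f : H → H := fun x => ⟨(x : G)⁻¹ * (t * x * t⁻¹), H.mul_mem (H.inv_mem x.2) (hn x x.2)⟩
  have hinj : Function.Injective f := by
    intro a b hab
    have h : (a : G)⁻¹ * (t * a * t⁻¹) = (b : G)⁻¹ * (t * b * t⁻¹) := congrArg Subtype.val hab
    have h' : (a : G)⁻¹ * t * a = (b : G)⁻¹ * t * b := by
      have := congrArg (· * t) h
      simpa [mul_assoc] using this
    have hy : t * ((b : G) * (a : G)⁻¹) = ((b : G) * (a : G)⁻¹) * t := by
      have h3 : t * a = (a : G) * ((b : G)⁻¹ * t * b) := by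
        rw [← h']; group
      calc t * ((b : G) * (a : G)⁻¹) = (b : G) * ((b : G)⁻¹ * t * b) * (a : G)⁻¹ := by group
        _ = (b : G) * ((a : G)⁻¹ * t * a) * (a : G)⁻¹ := by rw [h']
        _ = _ := by group
    have h1 := hf _ (H.mul_mem b.2 (H.inv_mem a.2)) hy
    have h4 : (b : G) = a := by
      have := congrArg (· * (a : G)) h1
      simpa using this
    exact (Subtype.ext h4).symm
  have hsurj := Finite.surjective_of_injective hinj
  intro x hx
  obtain ⟨a, ha⟩ := hsurj ⟨x, hx⟩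
  have hx' : (a : G)⁻¹ * (t * a * t⁻¹) = x := congrArg Subtype.val ha
  have h5 : t * (t * a) = a * t * t := by
    have := h2 a a.2
    simpa [mul_assoc] using this
  rw [← hx']
  calc t * ((a : G)⁻¹ * (t * a * t⁻¹)) * t⁻¹
      = t * (a : G)⁻¹ * t⁻¹ * ((t * (t * a)) * t⁻¹ * t⁻¹) := by group
    _ = t * (a : G)⁻¹ * t⁻¹ * ((a * t * t) * t⁻¹ * t⁻¹) := by rw [h5]
    _ = _ := by group

/-- Inversion by conjugation forces commutativity. -/
theorem comm_of_inverts (H : Subgroup G) (t : G) (h : ∀ x ∈ H, t * x * t⁻¹ = x⁻¹) :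
    ∀ x ∈ H, ∀ y ∈ H, x * y = y * x := by
  intro x hx y hy
  have h1 := h _ (H.mul_mem (H.inv_mem hx) (H.inv_mem hy))
  have h2 := h _ (H.inv_mem hx)
  have h3 := h _ (H.inv_mem hy)
  have h4 : t * (x⁻¹ * y⁻¹) * t⁻¹ = (t * x⁻¹ * t⁻¹) * (t * y⁻¹ * t⁻¹) := by group
  rw [h4, h2, h3] at h1
  simpa using h1

theorem commutator_le_of_index_two (W : Subgroup G) (hi2 : W.index = 2) : commutator G ≤ W := by
  rw [commutator_def, Subgroup.commutator_le]
  intro a _ b _
  rw [commutatorElement_def]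
  simp only [Subgroup.mul_mem_iff_of_index_two hi2, inv_mem_iff]
  by_cases ha : a ∈ W <;> by_cases hb : b ∈ W <;> simp [ha, hb]

variable {u : G} {K : Subgroup G} [K.Normal]

set_option maxHeartbeats 2000000 in
theorem odd_abelian (S : Setup u K) {O : Subgroup G} [O.Normal] (hOK : O ≤ K)
    (hO : Odd (Nat.card O)) (hc : Nat.card K = 2 * Nat.card O) (h4 : orderOf u = 4) :
    IsMulCommutative O := by
  classical
  have hodd : ∀ x ∈ O, x * x = 1 → x = 1 := by
    intro x hx hxx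
    have h1 : orderOf x ∣ 2 := orderOf_dvd_of_pow_eq_one (by rw [pow_two]; exact hxx)
    have h2 : orderOf x ∣ Nat.card O := Subgroup.orderOf_dvd_natCard O hx
    rcases (Nat.dvd_prime Nat.prime_two).mp h1 with h | h
    · exact orderOf_eq_one_iff.mp h
    · rw [h] at h2
      exact absurd (even_iff_two_dvd.mpr h2) (Nat.not_even_iff_odd.mpr hO)
  set z : G := u ^ 2 with hz
  have hz2 : z * z = 1 := by
    have : u ^ 4 = 1 := by rw [← h4]; exact pow_orderOf_eq_one u
    rw [hz, ← pow_add]; exact this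
  have hz1 : z ≠ 1 := by
    intro h
    have : orderOf u ∣ 2 := orderOf_dvd_of_pow_eq_one h
    rw [h4] at this
    omega
  have hzK : z ∈ K := S.hu2
  have hzO : z ∉ O := fun h => hz1 (hodd z h hz2)
  have huz : u * z = z * u := by rw [hz, pow_two, mul_assoc]
  -- `C_O(u) = 1`
  have hCOu : ∀ x ∈ O, u * x = x * u → x = 1 := by
    intro x hx hxu
    have hm : x ∈ (centralizer ({u} : Set G) ⊓ K : Subgroup G) :=
      Subgroup.mem_inf.mpr ⟨mem_centralizer_singleton_iff.mpr hxu.symm, hOK hx⟩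
    have h1 : orderOf x ∣ Nat.card (centralizer ({u} : Set G) ⊓ K : Subgroup G) :=
      Subgroup.orderOf_dvd_natCard _ hm
    have h2 := card_centralizer_inf_le S
    have h3 : 0 < Nat.card (centralizer ({u} : Set G) ⊓ K : Subgroup G) := Nat.card_pos
    have h5 : orderOf x ∣ 2 := by
      interval_cases hh : Nat.card (centralizer ({u} : Set G) ⊓ K : Subgroup G)
      · exact h1.trans (one_dvd _)
      · exact h1
    apply hodd x hx
    rw [← pow_two]; exact orderOf_dvd_iff_pow_eq_one.mp h5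
  -- involutions of `K` are `O`-conjugate
  have hidx : (O.subgroupOf K).index = 2 := by
    have h1 := (O.subgroupOf K).card_mul_index
    have h2 : Nat.card (O.subgroupOf K) = Nat.card O :=
      Nat.card_congr (Subgroup.subgroupOfEquivOfLe hOK).toEquiv
    rw [h2, hc, mul_comm 2] at h1
    exact Nat.eq_of_mul_eq_mul_left Nat.card_pos h1
  have hF : ∀ g : G, ∃ o ∈ O, g * z * g⁻¹ = o * z * o⁻¹ := by
    intro g
    set t := g * z * g⁻¹ with ht
    have htK : t ∈ K := ‹K.Normal›.conj_mem z hzK g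
    have htt : t * t = 1 := by
      rw [ht]
      calc g * z * g⁻¹ * (g * z * g⁻¹) = g * (z * z) * g⁻¹ := by group
        _ = 1 := by rw [hz2]; group
    have ht1 : t ≠ 1 := by
      intro h
      apply hz1
      have : z = g⁻¹ * t * g := by rw [ht]; group
      rw [this, h]; group
    have htO : t ∉ O := fun h => ht1 (hodd t h htt)
    have hrO : t * z ∈ O := by
      have h1 := Subgroup.mul_mem_iff_of_index_two hidx (a := ⟨t, htK⟩) (b := ⟨z, hzK⟩)
      have h2 : (⟨t, htK⟩ : K) ∉ O.subgroupOf K := by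
        rw [Subgroup.mem_subgroupOf]; exact htO
      have h3 : (⟨z, hzK⟩ : K) ∉ O.subgroupOf K := by
        rw [Subgroup.mem_subgroupOf]; exact hzO
      have h5 := h1.mpr ⟨fun h => absurd h h2, fun h => absurd h h3⟩
      rw [Subgroup.mem_subgroupOf] at h5
      exact h5
    set r := t * z with hr
    have hn : Odd (orderOf r) := by
      have h2 : orderOf r ∣ Nat.card O := Subgroup.orderOf_dvd_natCard O hrO
      exact Odd.of_dvd_nat hO h2
    obtain ⟨k, hk⟩ := hn
    have hsc : SemiconjBy z r⁻¹ r := by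
      unfold SemiconjBy
      have hti : t⁻¹ = t := (eq_inv_of_mul_eq_one_left htt).symm
      have hzi : z⁻¹ = z := (eq_inv_of_mul_eq_one_left hz2).symm
      rw [hr, mul_inv_rev, hzi, hti]
      calc z * (z * t) = (z * z) * t := by group
        _ = t := by rw [hz2]; group
        _ = t * (z * z) := by rw [hz2]; group
        _ = t * z * z := by group
    have hsc' := hsc.pow_right (k + 1)
    unfold SemiconjBy at hsc'
    refine ⟨r ^ (k + 1), O.pow_mem hrO _, ?_⟩
    have h6 : (r ^ (k + 1))⁻¹ = r⁻¹ ^ (k + 1) := (inv_pow r (k + 1)).symm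
    have h7 : r ^ (k + 1) * r ^ (k + 1) = r := by
      rw [← pow_add]
      have : k + 1 + (k + 1) = orderOf r + 1 := by omega
      rw [this, pow_succ, pow_orderOf_eq_one, one_mul]
    rw [h6, mul_assoc, hsc', ← mul_assoc, h7, hr]
    calc t = t * (z * z) := by rw [hz2]; group
      _ = t * z * z := by group
  -- `O₁ = C_O(z)`
  set O₁ : Subgroup G := O ⊓ centralizer ({z} : Set G) with hO₁
  have memO₁ : ∀ x, x ∈ O₁ ↔ x ∈ O ∧ z * x = x * z := by
    intro x
    rw [hO₁, Subgroup.mem_inf, mem_centralizer_singleton_iff]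
    exact and_congr_right fun _ => eq_comm
  have hinv : ∀ x ∈ O₁, u * x * u⁻¹ = x⁻¹ := by
    apply inverts_of_fpf O₁ u
    · intro x hx
      obtain ⟨hx1, hx2⟩ := (memO₁ x).mp hx
      rw [memO₁]
      refine ⟨‹O.Normal›.conj_mem x hx1 u, ?_⟩
      calc z * (u * x * u⁻¹) = (z * u) * x * u⁻¹ := by group
        _ = (u * z) * x * u⁻¹ := by rw [huz]
        _ = u * (z * x) * u⁻¹ := by group
        _ = u * (x * z) * u⁻¹ := by rw [hx2]
        _ = u * x * (z * u⁻¹) := by group
        _ = u * x * (u⁻¹ * z) := by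
            congr 1
            rw [eq_inv_mul_iff_mul_eq, ← mul_assoc, huz]; group
        _ = _ := by group
    · intro x hx
      have := ((memO₁ x).mp hx).2
      rw [← pow_two]; exact this
    · intro x hx
      exact hCOu x ((memO₁ x).mp hx).1
  have hab₁ := comm_of_inverts O₁ u hinv
  have hinv' : ∀ x ∈ O₁, u⁻¹ * x * u = x⁻¹ := by
    intro x hx
    have h1 := hinv x⁻¹ (O₁.inv_mem hx)
    rw [inv_inv] at h1
    calc u⁻¹ * x * u = u⁻¹ * (u * x⁻¹ * u⁻¹) * u := by rw [h1]
      _ = x⁻¹ := by group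
  -- the subgroup of `L` acting by `±1` on `O₁`
  let Y : Subgroup G :=
    { carrier := {l | z * l = l * z ∧ ((∀ x ∈ O₁, l * x * l⁻¹ = x) ∨ (∀ x ∈ O₁, l * x * l⁻¹ = x⁻¹))}
      one_mem' := ⟨by simp, Or.inl (by simp)⟩
      mul_mem' := by
        rintro a b ⟨ha, ha'⟩ ⟨hb, hb'⟩
        refine ⟨by rw [← mul_assoc, ha, mul_assoc, hb, mul_assoc], ?_⟩
        have hconj : ∀ x, a * b * x * (a * b)⁻¹ = a * (b * x * b⁻¹) * a⁻¹ := by intro x; group
        have hconjinv : ∀ x, a * x⁻¹ * a⁻¹ = (a * x * a⁻¹)⁻¹ := by intro x; group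
        rcases hb' with hb' | hb' <;> rcases ha' with ha' | ha'
        · left; intro x hx; rw [hconj, hb' x hx, ha' x hx]
        · right; intro x hx; rw [hconj, hb' x hx, ha' x hx]
        · right; intro x hx; rw [hconj, hb' x hx, hconjinv, ha' x hx]
        · left; intro x hx; rw [hconj, hb' x hx, hconjinv, ha' x hx, inv_inv]
      inv_mem' := by
        rintro a ⟨ha, ha'⟩
        refine ⟨?_, ?_⟩
        · calc z * a⁻¹ = a⁻¹ * (a * z) * a⁻¹ := by group
            _ = a⁻¹ * (z * a) * a⁻¹ := by rw [ha]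
            _ = a⁻¹ * z := by group
        · rcases ha' with h | h
          · left; intro x hx
            calc a⁻¹ * x * a⁻¹⁻¹ = a⁻¹ * (a * x * a⁻¹) * a⁻¹⁻¹ := by rw [h x hx]
              _ = x := by group
          · right; intro x hx
            calc a⁻¹ * x * a⁻¹⁻¹ = a⁻¹ * (a * x⁻¹ * a⁻¹) * a⁻¹⁻¹ := by
                  rw [h x⁻¹ (O₁.inv_mem hx), inv_inv x]
              _ = x⁻¹ := by group }
  have memY : ∀ l, l ∈ Y ↔ z * l = l * z ∧
      ((∀ x ∈ O₁, l * x * l⁻¹ = x) ∨ (∀ x ∈ O₁, l * x * l⁻¹ = x⁻¹)) := fun _ => Iff.rfl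
  have huY : u ∈ Y := (memY u).mpr ⟨huz.symm, Or.inr hinv⟩
  -- conjugates of `O₁` under the centralizer of `z`
  have hO₁conj : ∀ l, z * l = l * z → ∀ x ∈ O₁, l⁻¹ * x * l ∈ O₁ := by
    intro l hl x hx
    obtain ⟨hx1, hx2⟩ := (memO₁ x).mp hx
    rw [memO₁]
    refine ⟨?_, ?_⟩
    · have := ‹O.Normal›.conj_mem x hx1 l⁻¹
      simpa using this
    · have hl' : z * l⁻¹ = l⁻¹ * z := by
        calc z * l⁻¹ = l⁻¹ * (l * z) * l⁻¹ := by group
          _ = l⁻¹ * (z * l) * l⁻¹ := by rw [hl]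
          _ = l⁻¹ * z := by group
      calc z * (l⁻¹ * x * l) = (z * l⁻¹) * x * l := by group
        _ = l⁻¹ * (z * x) * l := by rw [hl']; group
        _ = l⁻¹ * (x * z) * l := by rw [hx2]
        _ = l⁻¹ * x * (z * l) := by group
        _ = l⁻¹ * x * (l * z) := by rw [hl]
        _ = _ := by group
  have hYconj : ∀ l, z * l = l * z → ∀ y ∈ Y, l * y * l⁻¹ ∈ Y := by
    intro l hl y hy
    obtain ⟨hy1, hy2⟩ := (memY y).mp hy
    have hl' : z * l⁻¹ = l⁻¹ * z := by
      calc z * l⁻¹ = l⁻¹ * (l * z) * l⁻¹ := by group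
        _ = l⁻¹ * (z * l) * l⁻¹ := by rw [hl]
        _ = l⁻¹ * z := by group
    have hform : ∀ x, (l * y * l⁻¹) * x * (l * y * l⁻¹)⁻¹ = l * (y * (l⁻¹ * x * l) * y⁻¹) * l⁻¹ := by
      intro x; group
    refine (memY _).mpr ⟨?_, ?_⟩
    · calc z * (l * y * l⁻¹) = (z * l) * y * l⁻¹ := by group
        _ = l * (z * y) * l⁻¹ := by rw [hl]; group
        _ = l * y * (z * l⁻¹) := by rw [hy1]; group
        _ = _ := by rw [hl']; group
    · rcases hy2 with h | h
      · left; intro x hx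
        rw [hform, h _ (hO₁conj l hl x hx)]; group
      · right; intro x hx
        rw [hform, h _ (hO₁conj l hl x hx)]; group
  -- every element of `G` is `o * y`
  have hdecomp : ∀ g : G, ∃ o ∈ O, ∃ y ∈ Y, o * y = g := by
    have hnormal : (O ⊔ Y).Normal := by
      constructor
      intro n hn g
      have hn' : n ∈ ((O ⊔ Y : Subgroup G) : Set G) := hn
      rw [Subgroup.normal_mul] at hn'
      obtain ⟨o, ho, y, hy, rfl⟩ := Set.mem_mul.mp hn'
      obtain ⟨o₀, ho₀, h0⟩ := hF g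
      set l := o₀⁻¹ * g with hl
      have hg : g = o₀ * l := by rw [hl]; group
      have hlz : z * l = l * z := by
        have h1 : (o₀⁻¹ * g) * z * (o₀⁻¹ * g)⁻¹ = z := by
          calc (o₀⁻¹ * g) * z * (o₀⁻¹ * g)⁻¹ = o₀⁻¹ * (g * z * g⁻¹) * o₀ := by group
            _ = o₀⁻¹ * (o₀ * z * o₀⁻¹) * o₀ := by rw [h0]
            _ = z := by group
        have h2 : l * z * l⁻¹ = z := h1
        calc z * l = (l * z * l⁻¹) * l := by rw [h2]
          _ = l * z := by group
      have hy' := hYconj l hlz y hy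
      set y' := l * y * l⁻¹ with hy'def
      have ho' : l * o * l⁻¹ ∈ O := ‹O.Normal›.conj_mem o ho l
      have ho'' : y' * o₀⁻¹ * y'⁻¹ ∈ O := ‹O.Normal›.conj_mem _ (O.inv_mem ho₀) y'
      have hmem : o₀ * (l * o * l⁻¹) * (y' * o₀⁻¹ * y'⁻¹) ∈ O :=
        O.mul_mem (O.mul_mem ho₀ ho') ho''
      have heq : g * (o * y) * g⁻¹ = o₀ * (l * o * l⁻¹) * (y' * o₀⁻¹ * y'⁻¹) * y' := by
        rw [hg, hy'def]; group
      rw [heq]
      exact (O ⊔ Y).mul_mem ((le_sup_left : O ≤ O ⊔ Y) hmem) ((le_sup_right : Y ≤ O ⊔ Y) hy')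
    have h1 : normalClosure ({u} : Set G) ≤ O ⊔ Y :=
      Subgroup.normalClosure_le_normal (by
        intro x hx
        rw [Set.mem_singleton_iff] at hx
        rw [hx]
        exact (le_sup_right : Y ≤ O ⊔ Y) huY)
    rw [S.nc] at h1
    intro g
    have hg : g ∈ ((O ⊔ Y : Subgroup G) : Set G) := h1 (Subgroup.mem_top g)
    rw [Subgroup.normal_mul] at hg
    obtain ⟨o, ho, y, hy, rfl⟩ := Set.mem_mul.mp hg
    exact ⟨o, ho, y, hy, rfl⟩
  -- `O₁ = 1`
  have hO₁triv : ∀ x ∈ O₁, x = 1 := by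
    intro x₀ hx₀
    by_contra hx₀1
    let C : Subgroup G := centralizer ({z} : Set G) ⊓ centralizer (O₁ : Set G)
    have memC : ∀ c, c ∈ C ↔ z * c = c * z ∧ ∀ x ∈ O₁, c * x * c⁻¹ = x := by
      intro c
      rw [Subgroup.mem_inf, mem_centralizer_singleton_iff, Subgroup.mem_centralizer_iff]
      refine and_congr eq_comm ⟨fun h x hx => ?_, fun h x hx => ?_⟩
      · rw [← h x hx]; group
      · have := h x hx
        calc x * c = (c * x * c⁻¹) * c := by rw [this]
          _ = c * x := by group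
    set W : Subgroup G := O ⊔ C with hW
    have memW : ∀ n, n ∈ W ↔ ∃ o ∈ O, ∃ c ∈ C, o * c = n := by
      intro n
      have : n ∈ W ↔ n ∈ ((O ⊔ C : Subgroup G) : Set G) := Iff.rfl
      rw [this, Subgroup.normal_mul, Set.mem_mul]
      simp only [SetLike.mem_coe]
    have hz_inv : z * u⁻¹ = u⁻¹ * z := by
      calc z * u⁻¹ = u⁻¹ * (u * z) * u⁻¹ := by group
        _ = u⁻¹ * (z * u) * u⁻¹ := by rw [huz]
        _ = u⁻¹ * z := by group
    have huW : u ∉ W := by
      intro h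
      obtain ⟨o, ho, c, hc', heq⟩ := (memW _).mp h
      obtain ⟨hc1, hc2⟩ := (memC c).mp hc'
      have hc1' : z * c⁻¹ = c⁻¹ * z := by
        calc z * c⁻¹ = c⁻¹ * (c * z) * c⁻¹ := by group
          _ = c⁻¹ * (z * c) * c⁻¹ := by rw [hc1]
          _ = c⁻¹ * z := by group
      have hoe : o = u * c⁻¹ := by rw [← heq]; group
      have hoz : z * o = o * z := by
        rw [hoe]
        calc z * (u * c⁻¹) = (z * u) * c⁻¹ := by group
          _ = (u * z) * c⁻¹ := by rw [huz]
          _ = u * (z * c⁻¹) := by group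
          _ = u * (c⁻¹ * z) := by rw [hc1']
          _ = _ := by group
      have hoO₁ : o ∈ O₁ := (memO₁ o).mpr ⟨ho, hoz⟩
      have h1 : u * x₀ * u⁻¹ = x₀ := by
        rw [← heq]
        calc o * c * x₀ * (o * c)⁻¹ = o * (c * x₀ * c⁻¹) * o⁻¹ := by group
          _ = o * x₀ * o⁻¹ := by rw [hc2 x₀ hx₀]
          _ = (x₀ * o) * o⁻¹ := by rw [hab₁ o hoO₁ x₀ hx₀]
          _ = x₀ := by group
      rw [hinv x₀ hx₀] at h1
      apply hx₀1
      apply hodd x₀ ((memO₁ x₀).mp hx₀).1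
      calc x₀ * x₀ = x₀⁻¹ * x₀ := by rw [h1]
        _ = 1 := by group
    have hall : ∀ g, g ∈ W ∨ g * u⁻¹ ∈ W := by
      intro g
      obtain ⟨o, ho, y, hy, rfl⟩ := hdecomp g
      obtain ⟨hy1, hy2⟩ := (memY y).mp hy
      rcases hy2 with h | h
      · left
        exact (memW _).mpr ⟨o, ho, y, (memC y).mpr ⟨hy1, h⟩, rfl⟩
      · right
        refine (memW _).mpr ⟨o, ho, y * u⁻¹, (memC _).mpr ⟨?_, ?_⟩, by group⟩
        · calc z * (y * u⁻¹) = (z * y) * u⁻¹ := by group
            _ = (y * z) * u⁻¹ := by rw [hy1]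
            _ = y * (z * u⁻¹) := by group
            _ = y * (u⁻¹ * z) := by rw [hz_inv]
            _ = _ := by group
        · intro x hx
          calc y * u⁻¹ * x * (y * u⁻¹)⁻¹ = y * (u⁻¹ * x * u) * y⁻¹ := by group
            _ = y * x⁻¹ * y⁻¹ := by rw [hinv' x hx]
            _ = (y * x * y⁻¹)⁻¹ := by group
            _ = x := by rw [h x hx, inv_inv]
    have hi2 : W.index = 2 := by
      refine Subgroup.index_eq_two_iff.mpr ⟨u⁻¹, fun b => ?_⟩
      by_cases hb : b ∈ W
      · right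
        refine ⟨hb, fun h => huW ?_⟩
        have h1 : u⁻¹ ∈ W := by
          have := W.mul_mem (W.inv_mem hb) h
          simpa using this
        simpa using W.inv_mem h1
      · left
        rcases hall b with h | h
        · exact absurd h hb
        · exact ⟨h, hb⟩
    have hcomm : commutator G ≤ W := commutator_le_of_index_two W hi2
    rw [S.perf] at hcomm
    exact huW (hcomm (Subgroup.mem_top u))
  have hinvz := inverts_of_fpf O z (fun x hx => ‹O.Normal›.conj_mem x hx z)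
    (fun x _ => by rw [hz2]; group) (fun x hx h => hO₁triv x ((memO₁ x).mpr ⟨hx, h⟩))
  have hcomm := comm_of_inverts O z hinvz
  exact ⟨⟨fun a b => Subtype.ext (hcomm a a.2 b b.2)⟩⟩

end Cfsg.Agent.Lib.S4758
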