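import Cfsg.Agent.Lib.S4758.Defs

/-! S4758 piece B3: the case `K` of odd order. -/

set_option autoImplicit false

namespace Cfsg.Agent.Lib.S4758

open Cfsg Subgroup
open scoped commutatorElement

universe w

variable {G : Type w} [Group G] {u : G}

section
variable [Finite G] {K : Subgroup G} [K.Normal]

theorem odd_case (S : Setup u K) (hK : Odd (Nat.card K)) : K = ⊥ ∧ orderOf u = 2 := by
  classical
  have hnK : K.Normal := inferInstance
  set C := centralizer ({u} : Set G) with hC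
  have huC : u ∈ C := Subgroup.mem_centralizer_singleton_iff.2 rfl
  -- `C_K(u) = 1`
  have hL : C ⊓ K = ⊥ := by
    have h1 : Nat.card ↥(C ⊓ K) ∣ 4 := by
      rw [← S.cent]; exact Subgroup.card_dvd_of_le inf_le_left
    have h2 : Nat.card ↥(C ⊓ K) ∣ Nat.card K := Subgroup.card_dvd_of_le inf_le_right
    have h3 : Odd (Nat.card ↥(C ⊓ K)) := Odd.of_dvd_nat hK h2
    have h4 : Nat.card ↥(C ⊓ K) = 1 := by
      have hle := Nat.le_of_dvd (by norm_num) h1
      generalize Nat.card ↥(C ⊓ K) = n at h1 h3 hle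
      interval_cases n <;> simp_all <;> revert h3 <;> decide
    exact Subgroup.eq_bot_of_card_eq _ h4
  have hfix : ∀ k ∈ K, u * k = k * u → k = 1 := by
    intro k hk hc
    have : k ∈ C ⊓ K := ⟨Subgroup.mem_centralizer_singleton_iff.2 hc.symm, hk⟩
    rw [hL] at this
    exact (Subgroup.mem_bot).1 this
  have hu2 : u ^ 2 = 1 := hfix _ S.hu2 (by rw [pow_two]; group)
  have hu1 : u ≠ 1 := fun h => S.hu (h ▸ K.one_mem)
  have hord : orderOf u = 2 := by
    have : Fact (Nat.Prime 2) := ⟨Nat.prime_two⟩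
    exact orderOf_eq_prime hu2 hu1
  have huu : u⁻¹ = u := by
    have : u * u = 1 := by rw [← pow_two]; exact hu2
    exact inv_eq_of_mul_eq_one_left this
  refine ⟨?_, hord⟩
  -- `u` inverts `K`
  have hinv : ∀ k ∈ K, u * k * u⁻¹ = k⁻¹ := by
    let f : K → K := fun a => ⟨a⁻¹ * (u * a * u⁻¹), K.mul_mem (K.inv_mem a.2) (hnK.conj_mem _ a.2 u)⟩
    have hinj : Function.Injective f := by
      intro a b hab
      have h : (a : G)⁻¹ * (u * a * u⁻¹) = (b : G)⁻¹ * (u * b * u⁻¹) := congrArg Subtype.val hab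
      have h' : (b : G) * (a : G)⁻¹ ∈ K := K.mul_mem b.2 (K.inv_mem a.2)
      have hc : u * ((b : G) * (a : G)⁻¹) = ((b : G) * (a : G)⁻¹) * u := by
        have h2 : (b : G) * (a : G)⁻¹ * (u * a * u⁻¹) = u * b * u⁻¹ := by
          rw [mul_assoc, h]; group
        have h3 : u * ((b : G) * (a : G)⁻¹) = (b : G) * (a : G)⁻¹ * (u * a * u⁻¹) * (u * (a : G)⁻¹) := by
          rw [h2]; group
        rw [h3]; group
      have := hfix _ h' hc
      apply Subtype.ext
      exact (mul_inv_eq_one.1 this).symm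
    have hsurj : Function.Surjective f := Finite.injective_iff_surjective.1 hinj
    intro k hk
    obtain ⟨a, ha⟩ := hsurj ⟨k, hk⟩
    have ha' : (a : G)⁻¹ * (u * a * u⁻¹) = k := congrArg Subtype.val ha
    rw [← ha', huu]
    have huu' : u * u = 1 := by rw [← pow_two]; exact hu2
    have e1 : u * ((a : G)⁻¹ * (u * a * u)) * u = u * (a : G)⁻¹ * u * a * (u * u) := by
      simp only [mul_assoc]
    rw [e1, huu', mul_one]
    simp only [mul_inv_rev, inv_inv, huu, mul_assoc]
  -- every element acts as `±1`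
  let T : Subgroup G :=
    { carrier := {x | ∀ k ∈ K, x * k * x⁻¹ = k ∨ x * k * x⁻¹ = k⁻¹}
      one_mem' := fun k _ => Or.inl (by simp)
      mul_mem' := by
        intro x y hx hy k hk
        have hconj : x * y * k * (x * y)⁻¹ = x * (y * k * y⁻¹) * x⁻¹ := by group
        have hconj' : x * k⁻¹ * x⁻¹ = (x * k * x⁻¹)⁻¹ := by group
        rcases hy k hk with h | h <;> rcases hx k hk with h' | h' <;> rw [hconj, h] <;>
          first
          | exact Or.inl h'
          | exact Or.inr h'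
          | (left; rw [hconj', h']; simp only [inv_inv]; done)
          | (right; rw [hconj', h']; done)
          | (left; rw [hconj', h', inv_inv]; done)
      inv_mem' := by
        intro x hx k hk
        have hy : x⁻¹ * k * x⁻¹⁻¹ ∈ K := hnK.conj_mem k hk x⁻¹
        have hxy : x * (x⁻¹ * k * x⁻¹⁻¹) * x⁻¹ = k := by group
        rcases hx _ hy with h | h
        · left; rw [hxy] at h; exact h.symm
        · right; rw [hxy] at h; exact (inv_inv _).symm.trans (congrArg (·⁻¹) h.symm) }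
  have hTtop : T = ⊤ := by
    rw [eq_top_iff, ← S.nc]
    refine (Subgroup.closure_le _).2 ?_
    intro x hx
    obtain ⟨a, ha, hax⟩ := Group.mem_conjugatesOfSet_iff.1 hx
    obtain ⟨c, rfl⟩ := isConj_iff.1 hax
    rw [Set.mem_singleton_iff] at ha
    subst ha
    intro k hk
    right
    have hy : c⁻¹ * k * c⁻¹⁻¹ ∈ K := hnK.conj_mem k hk c⁻¹
    have h := hinv _ hy
    have hc : c * a * c⁻¹ * k * (c * a * c⁻¹)⁻¹ = c * (a * (c⁻¹ * k * c⁻¹⁻¹) * a⁻¹) * c⁻¹ := by group
    rw [hc, h]; group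
  have hact : ∀ x : G, ∀ k ∈ K, x * k * x⁻¹ = k ∨ x * k * x⁻¹ = k⁻¹ := by
    intro x
    have : x ∈ T := by rw [hTtop]; trivial
    exact this
  -- commutators centralize `K`
  have hcomm : ∀ g h : G, ∀ k ∈ K, ⁅g, h⁆ * k * ⁅g, h⁆⁻¹ = k := by
    intro g h k hk
    have e : ⁅g, h⁆ * k * ⁅g, h⁆⁻¹ = g * (h * (g⁻¹ * (h⁻¹ * k * h⁻¹⁻¹) * g⁻¹⁻¹) * h⁻¹) * g⁻¹ := by
      rw [commutatorElement_def]; group
    have ci : ∀ x y : G, x * y⁻¹ * x⁻¹ = (x * y * x⁻¹)⁻¹ := by intro x y; group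
    have back : ∀ x y z : G, x⁻¹ * y * x⁻¹⁻¹ = z → x * z * x⁻¹ = y := by
      intro x y z hz; rw [← hz]; group
    have backi : ∀ x y z : G, x⁻¹ * y * x⁻¹⁻¹ = z⁻¹ → x * z * x⁻¹ = y⁻¹ := by
      intro x y z hz
      have : x * z⁻¹ * x⁻¹ = y := back x y z⁻¹ hz
      rw [← this]; group
    rw [e]
    rcases hact h⁻¹ k hk with h1 | h1 <;> rcases hact g⁻¹ k hk with h2 | h2
    · -- h⁻¹ fixes k, g⁻¹ fixes k
      rw [h1, h2, back h k k h1, back g k k h2]
    · rw [h1, h2]
      have a1 : h * k⁻¹ * h⁻¹ = k⁻¹ := by rw [ci, back h k k h1]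
      rw [a1]
      have a2 : g * k⁻¹ * g⁻¹ = k := by
        have := back g k k⁻¹ h2; exact this
      exact a2
    · have a0 : g⁻¹ * k⁻¹ * g⁻¹⁻¹ = k⁻¹ := by rw [ci, h2]
      rw [h1, a0]
      have a1 : h * k⁻¹ * h⁻¹ = k := back h k k⁻¹ h1
      rw [a1, back g k k h2]
    · have a0 : g⁻¹ * k⁻¹ * g⁻¹⁻¹ = k := by rw [ci, h2]; simp
      rw [h1, a0]
      have a1 : h * k * h⁻¹ = k⁻¹ := backi h k k (by rw [h1])
      rw [a1]
      exact back g k k⁻¹ h2
  have hcen : (⊤ : Subgroup G) ≤ centralizer (K : Set G) := by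
    rw [← S.perf]
    show ⁅(⊤ : Subgroup G), (⊤ : Subgroup G)⁆ ≤ _
    rw [Subgroup.commutator_le]
    intro g _ h _
    rw [Subgroup.mem_centralizer_iff]
    intro k hk
    have := hcomm g h k hk
    rw [mul_inv_eq_iff_eq_mul] at this
    exact this.symm
  have huZ : u ∈ centralizer (K : Set G) := hcen trivial
  rw [eq_bot_iff]
  intro k hk
  have := (Subgroup.mem_centralizer_iff.1 huZ) k hk
  exact (Subgroup.mem_bot).2 (hfix k hk this.symm)

end

end Cfsg.Agent.Lib.S4758
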