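import Cfsg.Agent.Lib.S4758.CosetConj
import Cfsg.Agent.Lib.PGroup.PowZ
import Cfsg.Agent.Lib.S4758.Rec60
import Cfsg.Agent.S0253

/-! B4b of S4758: the quotient `G ⧸ O` has quaternion Sylow 2-subgroups and `u` has order 4. -/

set_option autoImplicit false

namespace Cfsg.Agent.Lib.S4758

open Cfsg Subgroup

universe w

namespace QuatQuotAux

set_option maxRecDepth 100000 in
lemma a5_f1 : ∀ x : alternatingGroup (Fin 5), x ^ 8 = 1 → x ^ 2 = 1 := by decide

set_option maxRecDepth 100000 in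
lemma a5_f2 : ∀ x y : alternatingGroup (Fin 5), x ^ 2 = 1 → x ≠ 1 → y ^ 2 = 1 → y ≠ 1 →
    ∃ c, c * x * c⁻¹ = y := by decide

lemma card_sylow_eight {E : Type*} [Group E] [Finite E] (hE : Nat.card E = 120) (P : Sylow 2 E) :
    Nat.card P = 8 := by
  have h := P.card_eq_multiplicity
  rw [hE] at h
  have h3 : (120 : ℕ).factorization 2 = 3 := by
    have h120 : (120 : ℕ) = 2 ^ 3 * 15 := by norm_num
    rw [h120, Nat.factorization_mul (by norm_num) (by norm_num),
      Nat.Prime.factorization_pow Nat.prime_two]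
    have h15 : (15 : ℕ).factorization 2 = 0 :=
      Nat.factorization_eq_zero_of_not_dvd (by norm_num)
    simp [h15]
  rw [h3] at h
  simpa using h

variable {E H : Type*} [Group E] [Group H]

theorem core [Finite E] (π : E →* H)
    (hπ : Function.Surjective π) (hker : Nat.card π.ker = 2) (hE : Nat.card E = 120)
    (F1 : ∀ x : H, x ^ 8 = 1 → x ^ 2 = 1)
    (F2 : ∀ x y : H, x ^ 2 = 1 → x ≠ 1 → y ^ 2 = 1 → y ≠ 1 → ∃ c, c * x * c⁻¹ = y)
    (a : E) (ha : a ^ 8 = 1) (haK : π a ≠ 1)
    (hC : Nat.card (centralizer ({a} : Set E)) ≤ 4) :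
    a ^ 2 ≠ 1 ∧ ∀ P : Sylow 2 E, Nonempty ((P : Subgroup E) ≃* QuaternionGroup 2) := by
  -- elements of the kernel
  have hker2 : ∀ k ∈ π.ker, k ^ 2 = 1 := by
    intro k hk
    have := pow_card_eq_one' (x := (⟨k, hk⟩ : π.ker))
    rw [hker] at this
    simpa using congrArg Subtype.val this
  have huniq : ∀ k ∈ π.ker, ∀ l ∈ π.ker, k ≠ 1 → l ≠ 1 → k = l := by
    intro k hk l hl hk1 hl1
    obtain ⟨y, -, hy⟩ := (Nat.card_eq_two_iff' (1 : π.ker)).1 hker
    have h1 := hy ⟨k, hk⟩ (fun h => hk1 (congrArg Subtype.val h))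
    have h2 := hy ⟨l, hl⟩ (fun h => hl1 (congrArg Subtype.val h))
    exact congrArg Subtype.val (h1.trans h2.symm)
  have hcent : ∀ k ∈ π.ker, ∀ x : E, x * k = k * x := by
    intro k hk x
    by_cases hk1 : k = 1
    · simp [hk1]
    have hmem : x * k * x⁻¹ ∈ π.ker := (inferInstance : π.ker.Normal).conj_mem k hk x
    have hne : x * k * x⁻¹ ≠ 1 := by
      intro h
      apply hk1
      have : x * k = x := by
        calc x * k = x * k * x⁻¹ * x := by group
          _ = x := by rw [h, one_mul]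
      simpa using this
    have := huniq _ hmem k hk hne hk1
    calc x * k = x * k * x⁻¹ * x := by group
      _ = k * x := by rw [this]
  have hs : a ^ 2 ∈ π.ker := by
    rw [MonoidHom.mem_ker, map_pow]
    apply F1
    rw [← map_pow, ha, map_one]
  have hsq : ∀ y : E, y ^ 8 = 1 → π y ≠ 1 → y ^ 2 = a ^ 2 := by
    intro y hy hy1
    have hy2 : π y ^ 2 = 1 := F1 _ (by rw [← map_pow, hy, map_one])
    have ha2 : π a ^ 2 = 1 := F1 _ (by rw [← map_pow, ha, map_one])
    obtain ⟨c', hc'⟩ := F2 _ _ ha2 haK hy2 hy1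
    obtain ⟨c, rfl⟩ := hπ c'
    set b := c * a * c⁻¹ with hb
    have hk : b⁻¹ * y ∈ π.ker := by
      rw [MonoidHom.mem_ker, map_mul, map_inv, hb, map_mul, map_mul, map_inv, hc', inv_mul_cancel]
    set k := b⁻¹ * y with hkdef
    have hyk : y = b * k := by rw [hkdef]; group
    have hb2 : b ^ 2 = a ^ 2 := by
      have : b ^ 2 = c * a ^ 2 * c⁻¹ := by rw [hb]; simp [pow_two, mul_assoc]
      rw [this, hcent _ hs c]
      group
    have hk2 := hker2 k hk
    calc y ^ 2 = (b * k) ^ 2 := by rw [← hyk]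
      _ = b * (k * b) * k := by rw [pow_two]; simp [mul_assoc]
      _ = b * (b * k) * k := by rw [hcent k hk b]
      _ = b ^ 2 * k ^ 2 := by simp [pow_two, mul_assoc]
      _ = a ^ 2 := by rw [hb2, hk2, mul_one]
  have hsyl8 : ∀ (P : Sylow 2 E) (y : E), y ∈ P → y ^ 8 = 1 := by
    intro P y hy
    have := pow_card_eq_one' (x := (⟨y, hy⟩ : (P : Subgroup E)))
    have hcardP : Nat.card (P : Subgroup E) = 8 := card_sylow_eight hE P
    rw [hcardP] at this
    simpa using congrArg Subtype.val this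
  have hs1 : a ^ 2 ≠ 1 := by
    intro h1
    have hp : IsPGroup 2 (zpowers a) := by
      apply IsPGroup.of_card (n := (orderOf a).factorization 2)
      rw [Nat.card_zpowers]
      have hd : orderOf a ∣ 2 ^ 3 := orderOf_dvd_of_pow_eq_one ha
      obtain ⟨m, -, hm⟩ := (Nat.dvd_prime_pow Nat.prime_two).1 hd
      rw [hm]
      simp [Nat.Prime.factorization_self Nat.prime_two]
    obtain ⟨D, hD⟩ := hp.exists_le_sylow
    have haD : a ∈ D := hD (mem_zpowers a)
    have hall : ∀ y ∈ D, y ^ 2 = 1 := by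
      intro y hy
      by_cases hy1 : π y = 1
      · exact hker2 y hy1
      · rw [hsq y (hsyl8 D y hy) hy1, h1]
    have hcomm : ∀ y ∈ D, y * a = a * y := by
      intro y hy
      have h3 := hall (y * a) (D.toSubgroup.mul_mem hy haD)
      have hy2 := hall y hy
      have ha2 := hall a haD
      have hyi : y⁻¹ = y := by
        rw [inv_eq_iff_mul_eq_one, ← pow_two]; exact hy2
      have hai : a⁻¹ = a := by
        rw [inv_eq_iff_mul_eq_one, ← pow_two]; exact ha2
      have : (y * a) * (y * a) = 1 := by rw [← pow_two]; exact h3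
      calc y * a = (a⁻¹ * y⁻¹) := by
            rw [eq_comm, ← mul_inv_rev]; exact (inv_eq_iff_mul_eq_one.2 this)
        _ = a * y := by rw [hai, hyi]
    have hle : (D : Subgroup E) ≤ centralizer ({a} : Set E) := by
      intro y hy
      rw [mem_centralizer_singleton_iff]
      exact hcomm y hy
    have h8 := Nat.card_le_card_of_injective _ (Subgroup.inclusion_injective hle)
    rw [card_sylow_eight hE D] at h8
    omega
  refine ⟨hs1, fun P => ?_⟩
  have hP8 : Nat.card (P : Subgroup E) = 8 := card_sylow_eight hE P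
  -- an element outside the kernel
  have hex1 : ∃ r ∈ (P : Subgroup E), π r ≠ 1 := by
    by_contra hcon
    push_neg at hcon
    have hle : (P : Subgroup E) ≤ π.ker := fun y hy => hcon y hy
    have h8 := Nat.card_le_card_of_injective _ (Subgroup.inclusion_injective hle)
    rw [hP8, hker] at h8
    omega
  obtain ⟨r, hrP, hr1⟩ := hex1
  have hr2 : r ^ 2 = a ^ 2 := hsq r (hsyl8 P r hrP) hr1
  have hr4 : r ^ 4 = 1 := by
    have : r ^ 4 = (a ^ 2) ^ 2 := by rw [← hr2]; group
    rw [this, hker2 _ hs]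
  have hro : orderOf r = 4 := by
    have h := orderOf_eq_prime_pow (p := 2) (n := 1) (x := r) (by rw [pow_one, hr2]; exact hs1)
      (by norm_num; exact hr4)
    simpa using h
  have hzr : Nat.card (zpowers r) = 4 := by rw [Nat.card_zpowers, hro]
  have hzr_le : zpowers r ≤ (P : Subgroup E) := (zpowers_le).2 hrP
  have hex2 : ∃ t ∈ (P : Subgroup E), t ∉ zpowers r := by
    by_contra hcon
    push_neg at hcon
    have hle : (P : Subgroup E) ≤ zpowers r := fun y hy => hcon y hy
    have h8 := Nat.card_le_card_of_injective _ (Subgroup.inclusion_injective hle)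
    rw [hP8, hzr] at h8
    omega
  obtain ⟨t, htP, htr⟩ := hex2
  -- members of the kernel are `1` or `a ^ 2`
  have hkv : ∀ k ∈ π.ker, k = 1 ∨ k = r ^ 2 := by
    intro k hk
    by_cases hk1 : k = 1
    · exact Or.inl hk1
    · exact Or.inr (by rw [hr2]; exact huniq k hk _ hs hk1 hs1)
  have ht1 : π t ≠ 1 := by
    intro h
    rcases hkv t h with h | h
    · exact htr (by rw [h]; exact one_mem _)
    · exact htr (by rw [h]; exact (zpowers r).pow_mem (mem_zpowers r) 2)
  have ht2 : t ^ 2 = a ^ 2 := hsq t (hsyl8 P t htP) ht1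
  have htr1 : π (t * r) ≠ 1 := by
    intro h
    rcases hkv _ h with h | h
    · apply htr
      have : t = r⁻¹ := eq_inv_of_mul_eq_one_left h
      rw [this]
      exact inv_mem (mem_zpowers r)
    · apply htr
      have : t = r ^ 2 * r⁻¹ := eq_mul_inv_of_mul_eq h
      rw [this]
      exact mul_mem ((zpowers r).pow_mem (mem_zpowers r) 2) (inv_mem (mem_zpowers r))
  have htr2 : (t * r) ^ 2 = a ^ 2 :=
    hsq _ (hsyl8 P _ (mul_mem htP hrP)) htr1
  -- the relation
  have hs2 : a ^ 2 * a ^ 2 = 1 := by rw [← pow_two]; exact hker2 _ hs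
  have htinv : t⁻¹ = t * a ^ 2 := by
    rw [inv_eq_iff_mul_eq_one]
    calc t * (t * a ^ 2) = t ^ 2 * a ^ 2 := by rw [pow_two t, mul_assoc]
      _ = 1 := by rw [ht2, hs2]
  have hrel : t * r * t⁻¹ = r⁻¹ := by
    have h1 : t * r * t = a ^ 2 * r⁻¹ := by
      have : t * r * t * r = a ^ 2 := by rw [← htr2, pow_two]; simp [mul_assoc]
      rw [← this]; group
    rw [htinv]
    calc t * r * (t * a ^ 2) = (t * r * t) * a ^ 2 := by group
      _ = a ^ 2 * r⁻¹ * a ^ 2 := by rw [h1]
      _ = a ^ 2 * (r⁻¹ * a ^ 2) := by group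
      _ = a ^ 2 * (a ^ 2 * r⁻¹) := by rw [hcent _ hs r⁻¹]
      _ = (a ^ 2 * a ^ 2) * r⁻¹ := by group
      _ = r⁻¹ := by rw [hs2, one_mul]
  -- apply the recognition
  let rr : (P : Subgroup E) := ⟨r, hrP⟩
  let tt : (P : Subgroup E) := ⟨t, htP⟩
  have hrr : orderOf rr = 2 * 2 := by
    rw [Subgroup.orderOf_mk, hro]
  have htt : tt * tt = rr ^ 2 := by
    apply Subtype.ext
    show t * t = r ^ 2
    rw [← pow_two, ht2, hr2]
  have hrel' : tt * rr * tt⁻¹ = rr⁻¹ := by
    apply Subtype.ext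
    exact hrel
  have hn : tt ∉ zpowers rr := by
    intro h
    obtain ⟨n, hn⟩ := mem_zpowers_iff.1 h
    apply htr
    refine mem_zpowers_iff.2 ⟨n, ?_⟩
    have := congrArg Subtype.val hn
    simpa [rr, tt] using this
  exact Cfsg.Agent.Lib.PGroup.PowZ.nonempty_mulEquiv_quaternionGroup (m := 2) hrr htt hrel' hn
    (by rw [hP8])

end QuatQuotAux

variable {G : Type w} [Group G] {u : G} [Finite G] {K : Subgroup G} [K.Normal]

theorem quat_quot (S : Setup u K) {O : Subgroup G} [O.Normal] (hOK : O ≤ K) (hO : Odd (Nat.card O))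
    (hc : Nat.card K = 2 * Nat.card O) :
    (∀ P : Sylow 2 (G ⧸ O), Nonempty ((P : Subgroup (G ⧸ O)) ≃* QuaternionGroup 2)) ∧
      orderOf u = 4 := by
  classical
  -- the map to `G ⧸ K`
  let π : (G ⧸ O) →* (G ⧸ K) := QuotientGroup.map O K (MonoidHom.id G) (fun x hx => hOK hx)
  have hπ : Function.Surjective π := by
    intro y
    obtain ⟨g, rfl⟩ := QuotientGroup.mk_surjective y
    exact ⟨(g : G ⧸ O), rfl⟩
  have hOpos : 0 < Nat.card O := Nat.card_pos
  have hG1 : Nat.card G = Nat.card K * 60 := by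
    have := K.card_mul_index
    rw [Subgroup.index_eq_card, S.card] at this
    exact this.symm
  have hG2 : Nat.card G = Nat.card O * Nat.card (G ⧸ O) := by
    have := O.card_mul_index
    rw [Subgroup.index_eq_card] at this
    exact this.symm
  have hE : Nat.card (G ⧸ O) = 120 := by
    have : Nat.card O * Nat.card (G ⧸ O) = Nat.card O * 120 := by
      rw [← hG2, hG1, hc]; ring
    exact Nat.eq_of_mul_eq_mul_left hOpos this
  have hker : Nat.card π.ker = 2 := by
    have h1 := π.ker.card_mul_index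
    rw [Subgroup.index_ker, MonoidHom.range_eq_top.2 hπ, Nat.card_congr (Subgroup.topEquiv).toEquiv,
      hE, S.card] at h1
    omega
  have hperf : commutator (G ⧸ K) = ⊤ := by
    have h := Subgroup.map_commutator (⊤ : Subgroup G) (⊤ : Subgroup G) (QuotientGroup.mk' K)
    rw [Subgroup.map_top_of_surjective _ (QuotientGroup.mk'_surjective K), ← commutator_def,
      ← commutator_def, S.perf, Subgroup.map_top_of_surjective _ (QuotientGroup.mk'_surjective K)] at h
    exact h.symm
  obtain ⟨e1⟩ := iso_psl_of_perfect_sixty hperf S.card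
  obtain ⟨e2⟩ := Cfsg.Agent.S0253.result (F := ZMod 5) (by simp)
  let φ : (G ⧸ K) ≃* alternatingGroup (Fin 5) := e1.trans e2
  have F1 : ∀ x : G ⧸ K, x ^ 8 = 1 → x ^ 2 = 1 := by
    intro x hx
    apply φ.injective
    rw [map_pow, map_one]
    apply QuatQuotAux.a5_f1
    rw [← map_pow, hx, map_one]
  have F2 : ∀ x y : G ⧸ K, x ^ 2 = 1 → x ≠ 1 → y ^ 2 = 1 → y ≠ 1 → ∃ c, c * x * c⁻¹ = y := by
    intro x y hx hx1 hy hy1
    obtain ⟨c, hc'⟩ := QuatQuotAux.a5_f2 (φ x) (φ y) (by rw [← map_pow, hx, map_one])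
      (by simpa using hx1) (by rw [← map_pow, hy, map_one]) (by simpa using hy1)
    refine ⟨φ.symm c, φ.injective ?_⟩
    simpa using hc'
  have hu4 : u ^ 4 = 1 := orderOf_dvd_iff_pow_eq_one.1 (orderOf_dvd_four S)
  have ha : ((u : G ⧸ O)) ^ 8 = 1 := by
    have : u ^ 8 = 1 := by
      have : u ^ 8 = (u ^ 4) ^ 2 := by group
      rw [this, hu4, one_pow]
    rw [← QuotientGroup.mk_pow, this, QuotientGroup.mk_one]
  have haK : π (u : G ⧸ O) ≠ 1 := by
    show ((u : G ⧸ K)) ≠ 1
    rw [Ne, QuotientGroup.eq_one_iff]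
    exact S.hu
  have hC : Nat.card (centralizer ({(u : G ⧸ O)} : Set (G ⧸ O))) ≤ 4 := by
    have := card_centralizer_quot_le O u
    rwa [S.cent] at this
  obtain ⟨hne, hP⟩ := QuatQuotAux.core π hπ hker hE F1 F2 (u : G ⧸ O) ha haK hC
  refine ⟨hP, ?_⟩
  have hu2 : ¬ u ^ 2 ^ 1 = 1 := by
    intro h
    apply hne
    rw [← QuotientGroup.mk_pow]
    have h' : u ^ 2 = 1 := by simpa using h
    rw [h', QuotientGroup.mk_one]
  have h := orderOf_eq_prime_pow (p := 2) (n := 1) (x := u) hu2 (by norm_num; exact hu4)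
  simpa using h

end Cfsg.Agent.Lib.S4758
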