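import Mathlib
import Cfsg.Agent.Lib.S4758.Defs
import Cfsg.Agent.Lib.Perm.ThreeCycleGen
import Cfsg.Agent.Lib.Fusion.Meta.Frat
import Cfsg.Agent.Lib.Basic.PCore
import Cfsg.Agent.Lib.Basic.SylowUtil
import Cfsg.Agent.Lib.PGroup.FrattiniBasis
import Cfsg.Agent.Lib.S4758.CosetConj

/-! S4758 piece B2: a Sylow 2-subgroup of `K` has order at most 2. -/

set_option autoImplicit false

namespace Cfsg.Agent.Lib.S4758

open Cfsg Subgroup

universe w

variable {G : Type w} [Group G] {u : G}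

namespace SylowKAux

theorem top_of_perfect {X : Type*} [Group X] (hX : commutator X = ⊤) (L : Subgroup X) [L.Normal]
    (h : Group.IsSolvable (X ⧸ L)) : L = ⊤ := by
  by_contra hL
  haveI : Nontrivial (X ⧸ L) := QuotientGroup.nontrivial_iff.2 hL
  have h1 := IsSolvable.commutator_lt_top_of_nontrivial (X ⧸ L)
  have h2 : commutator (X ⧸ L) = ⊤ := by
    have hs := QuotientGroup.mk'_surjective L
    rw [_root_.commutator_def] at hX ⊢
    have := Subgroup.map_commutator (⊤ : Subgroup X) ⊤ (QuotientGroup.mk' L)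
    rw [hX, Subgroup.map_top_of_surjective _ hs] at this
    exact this.symm
  exact h1.ne h2

theorem solvable_of_factor {N Y A : Type*} [Group N] [Group Y] [Group A] [Group.IsSolvable A]
    (f : N →* Y) (hf : Function.Surjective f) (ψ : N →* A) (hker : ψ.ker ≤ f.ker) :
    Group.IsSolvable Y := by
  let ψ' : N →* ψ.range := ψ.rangeRestrict
  have hψ' : Function.Surjective ψ' := ψ.rangeRestrict_surjective
  have hk : ψ'.ker ≤ f.ker := by rw [MonoidHom.ker_rangeRestrict]; exact hker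
  let g : ψ.range →* Y := (MonoidHom.liftOfSurjective ψ' hψ') ⟨f, hk⟩
  have hg : ∀ n, g (ψ' n) = f n := fun n =>
    MonoidHom.liftOfRightInverse_comp_apply ψ' _ _ ⟨f, hk⟩ n
  haveI : Group.IsSolvable ψ.range := Group.isSolvable_of_isSolvable_injective ψ.range.subtype_injective
  exact Group.isSolvable_of_surjective (f := g) (fun y => by
    obtain ⟨n, rfl⟩ := hf y
    exact ⟨ψ' n, hg n⟩)

theorem card_le_four {M : Type*} [Group M] [Finite M] (W : Subgroup M) [hW : W.Normal]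
    (hexp : ∀ w ∈ W, w ^ 2 = 1) {v : M} (hv : v ∉ W) (hv2 : v ^ 2 ∈ W)
    (hc : Nat.card (centralizer ({v} : Set M)) ≤ 4) : Nat.card W ≤ 4 := by
  classical
  have hinv : ∀ a ∈ W, a⁻¹ = a := fun a ha => by
    have := hexp a ha
    rw [pow_two] at this
    exact inv_eq_of_mul_eq_one_left this
  have hab : ∀ a ∈ W, ∀ b ∈ W, a * b = b * a := by
    intro a ha b hb
    have h1 := hinv _ (W.mul_mem ha hb)
    rw [mul_inv_rev, hinv a ha, hinv b hb] at h1
    exact h1.symm
  let Cv : Subgroup M := centralizer ({v} : Set M)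
  let Y : Subgroup M := W ⊓ Cv
  have hmemC : ∀ x, x ∈ Cv ↔ v * x = x * v := fun x => by
    simp only [Cv, Subgroup.mem_centralizer_singleton_iff]
    exact eq_comm
  have hvC : v ∈ Cv := (hmemC v).2 rfl
  have hY : Nat.card Y ≤ 2 := by
    have hle : Y ≤ Cv := inf_le_right
    have hne : Nat.card Y ≠ Nat.card Cv := fun h => by
      have h2 : Y = Cv := Subgroup.eq_of_le_of_card_ge hle h.ge
      have h3 : v ∈ Y := h2 ▸ hvC
      exact hv h3.1
    obtain ⟨m, hm⟩ := Subgroup.card_dvd_of_le hle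
    have hm0 : m ≠ 0 := by
      rintro rfl
      have : 0 < Nat.card Cv := Nat.card_pos
      omega
    have hm1 : m ≠ 1 := by
      rintro rfl
      exact hne (by omega)
    have hm2 : 2 ≤ m := by omega
    have h4 : Nat.card Cv ≤ 4 := hc
    nlinarith [Nat.card_pos (α := Y)]
  have hconj : ∀ w : W, v * (w : M) * v⁻¹ ∈ W := fun w => hW.conj_mem w w.2 v
  let τ : W →* W :=
    { toFun := fun w => ⟨(w : M)⁻¹ * (v * w * v⁻¹), W.mul_mem (W.inv_mem w.2) (hconj w)⟩
      map_one' := by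
        apply Subtype.ext
        simp
      map_mul' := by
        intro a b
        apply Subtype.ext
        show ((a * b : W) : M)⁻¹ * (v * ((a * b : W) : M) * v⁻¹) =
          ((a : M)⁻¹ * (v * a * v⁻¹)) * ((b : M)⁻¹ * (v * b * v⁻¹))
        have h1 := hab _ (hconj a) _ (W.inv_mem b.2)
        have h2 := hab _ a.2 _ b.2
        push_cast
        calc ((a : M) * b)⁻¹ * (v * (a * b) * v⁻¹)
            = (b : M)⁻¹ * (a : M)⁻¹ * ((v * a * v⁻¹) * (v * b * v⁻¹)) := by group
          _ = (a : M)⁻¹ * (b : M)⁻¹ * ((v * a * v⁻¹) * (v * b * v⁻¹)) := by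
              rw [hab _ (W.inv_mem b.2) _ (W.inv_mem a.2)]
          _ = (a : M)⁻¹ * ((b : M)⁻¹ * (v * a * v⁻¹)) * (v * b * v⁻¹) := by group
          _ = (a : M)⁻¹ * ((v * a * v⁻¹) * (b : M)⁻¹) * (v * b * v⁻¹) := by rw [h1]
          _ = _ := by group }
  have hτ : ∀ w : W, ((τ w : W) : M) = (w : M)⁻¹ * (v * w * v⁻¹) := fun _ => rfl
  have hker : ∀ w : W, w ∈ τ.ker → (w : M) ∈ Y := by
    intro w hw
    have h1 : τ w = 1 := hw
    have h2 := congrArg (Subtype.val) h1
    rw [hτ] at h2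
    refine ⟨w.2, (hmemC _).2 ?_⟩
    have h3 : (w : M)⁻¹ * (v * w * v⁻¹) = 1 := h2
    have h4 : v * w * v⁻¹ = w := by
      have := inv_mul_eq_one.1 h3
      exact this.symm
    calc v * (w : M) = (v * w * v⁻¹) * v := by group
      _ = w * v := by rw [h4]
  have hran : ∀ w : W, ((τ w : W) : M) ∈ Y := by
    intro w
    rw [hτ]
    have hm : (w : M)⁻¹ * (v * w * v⁻¹) ∈ W := (τ w).2
    refine ⟨hm, (hmemC _).2 ?_⟩
    -- v (w⁻¹ v w v⁻¹) v⁻¹ = (w⁻¹ v w v⁻¹)
    have h1 : v ^ 2 * (w : M) * (v ^ 2)⁻¹ = w := by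
      rw [hab _ hv2 _ w.2]
      group
    have h2 : v * ((w : M)⁻¹ * (v * w * v⁻¹)) * v⁻¹ = ((w : M)⁻¹ * (v * w * v⁻¹))⁻¹ := by
      calc v * ((w : M)⁻¹ * (v * w * v⁻¹)) * v⁻¹
          = (v * (w : M) * v⁻¹)⁻¹ * (v ^ 2 * (w : M) * (v ^ 2)⁻¹) := by group
        _ = (v * (w : M) * v⁻¹)⁻¹ * w := by rw [h1]
        _ = _ := by group
    rw [hinv _ hm] at h2
    calc v * ((w : M)⁻¹ * (v * w * v⁻¹))
        = (v * ((w : M)⁻¹ * (v * w * v⁻¹)) * v⁻¹) * v := by group
      _ = _ := by rw [h2]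
  have h1 : Nat.card τ.ker ≤ Nat.card Y := by
    refine Nat.card_le_card_of_injective (fun x : τ.ker => (⟨((x : W) : M), hker _ x.2⟩ : Y)) ?_
    intro a b hab'
    have := congrArg (fun z : Y => (z : M)) hab'
    exact Subtype.ext (Subtype.ext this)
  have h2 : Nat.card τ.range ≤ Nat.card Y := by
    refine Nat.card_le_card_of_injective (fun x : τ.range => (⟨((x : W) : M), by
      obtain ⟨_, w, hw⟩ := x
      subst hw
      exact hran w⟩ : Y)) ?_
    intro a b hab'
    have := congrArg (fun z : Y => (z : M)) hab'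
    exact Subtype.ext (Subtype.ext this)
  have h3 : Nat.card W = Nat.card τ.ker * Nat.card τ.range := by
    rw [← Subgroup.index_ker τ]
    exact (Subgroup.card_mul_index τ.ker).symm
  rw [h3]
  calc Nat.card τ.ker * Nat.card τ.range ≤ 2 * 2 := Nat.mul_le_mul (h1.trans hY) (h2.trans hY)
    _ = 4 := rfl

theorem exists_cent_cover {N X : Type w} [Group N] [Finite N] [Group X]
    (T : Subgroup N) [hT : T.Normal] (hT2 : IsPGroup 2 T)
    (π : N →* X) (hπ : Function.Surjective π) (hTπ : T ≤ π.ker)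
    (hX : commutator X = ⊤)
    {v : N} (hv1 : π v ≠ 1) (hv2 : v ^ 2 ∈ T)
    (hvc : Nat.card (centralizer ({v} : Set N)) ≤ 4) :
    ∀ x : X, ∃ c : N, (∀ t ∈ T, c * t = t * c) ∧ π c = x := by
  classical
  haveI hf2 : Fact (Nat.Prime 2) := ⟨Nat.prime_two⟩
  haveI : Finite X := Finite.of_surjective π hπ
  let F : Subgroup N := (frattini ↥T).map T.subtype
  haveI hFn : F.Normal := Cfsg.Agent.Lib.Basic.PCore.map_subtype_normal_of_characteristic _
  have hFT : F ≤ T := Subgroup.map_subtype_le _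
  have hmemF : ∀ t : T, (t : N) ∈ F ↔ t ∈ frattini ↥T := by
    intro t
    constructor
    · rintro ⟨s, hs, hst⟩
      have : s = t := Subtype.ext hst
      rwa [← this]
    · intro h
      exact ⟨t, h, rfl⟩
  let q : N →* N ⧸ F := QuotientGroup.mk' F
  have hq : Function.Surjective q := QuotientGroup.mk'_surjective F
  have hq1 : ∀ g, q g = 1 ↔ g ∈ F := fun g => QuotientGroup.eq_one_iff g
  let W : Subgroup (N ⧸ F) := T.map q
  haveI hWn : W.Normal := Subgroup.Normal.map hT q hq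
  have hWexp : ∀ w ∈ W, w ^ 2 = 1 := by
    rintro _ ⟨t, ht, rfl⟩
    rw [← map_pow, hq1]
    have h1 := Cfsg.Agent.Lib.PGroup.FrattiniBasis.pow_mem_frattini hT2 (⟨t, ht⟩ : T)
    exact ⟨_, h1, rfl⟩
  have hvW : q v ∉ W := by
    rintro ⟨t, ht, h⟩
    have h1 : q (t⁻¹ * v) = 1 := by
      rw [map_mul, map_inv, h, inv_mul_cancel]
    have h2 : t⁻¹ * v ∈ T := hFT ((hq1 _).1 h1)
    have h3 : v ∈ T := by
      have := T.mul_mem ht h2
      simpa using this
    exact hv1 (hTπ h3)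
  have hv2W : q v ^ 2 ∈ W := ⟨v ^ 2, hv2, map_pow q v 2⟩
  have hcq : Nat.card (centralizer ({q v} : Set (N ⧸ F))) ≤ 4 :=
    (card_centralizer_quot_le F v).trans hvc
  have hWc : Nat.card W ≤ 4 := card_le_four W hWexp hvW hv2W hcq
  haveI : Fintype W := Fintype.ofFinite _
  haveI hsolvP : Group.IsSolvable (Equiv.Perm W) :=
    Cfsg.Agent.Lib.Perm.ThreeCycleGen.isSolvable_perm_of_card_le_four (by
      rwa [← Nat.card_eq_fintype_card])
  let ψ : N →* Equiv.Perm W :=
    (MulAut.toPerm W).comp ((MulAut.conjNormal : (N ⧸ F) →* MulAut W).comp q)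
  have hψ : ∀ d ∈ ψ.ker, ∀ t ∈ T, q d * q t * (q d)⁻¹ = q t := by
    intro d hd t ht
    have h1 : ψ d = 1 := hd
    have h1' : (MulAut.toPerm W) (MulAut.conjNormal (q d)) = 1 := h1
    have h2 : (MulAut.toPerm W) (MulAut.conjNormal (q d)) ⟨q t, t, ht, rfl⟩ = ⟨q t, t, ht, rfl⟩ := by
      rw [h1']; rfl
    have h3 := congrArg Subtype.val h2
    exact (MulAut.conjNormal_apply (q d) (⟨q t, t, ht, rfl⟩ : W)).symm.trans h3
  -- Step A
  let DX : Subgroup X := ψ.ker.map π
  haveI hDXn : DX.Normal := Subgroup.Normal.map inferInstance π hπ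
  have hDX : DX = ⊤ := by
    refine top_of_perfect hX DX ?_
    refine solvable_of_factor ((QuotientGroup.mk' DX).comp π)
      ((QuotientGroup.mk'_surjective DX).comp hπ) ψ ?_
    intro d hd
    show (QuotientGroup.mk' DX) (π d) = 1
    rw [QuotientGroup.mk'_apply, QuotientGroup.eq_one_iff]
    exact ⟨d, hd, rfl⟩
  -- Step B
  let ρ : N →* MulAut T := MulAut.conjNormal
  have hρ : ∀ (g : N) (t : T), ((ρ g t : T) : N) = g * t * g⁻¹ := fun g t =>
    MulAut.conjNormal_apply g t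
  have hstepB : ∀ d ∈ ψ.ker, ∃ k : ℕ, d ^ (2 ^ k) ∈ ρ.ker := by
    intro d hd
    obtain ⟨k, m, hm, hkm⟩ := Nat.exists_eq_two_pow_mul_odd (n := orderOf d)
      (orderOf_pos d).ne'
    refine ⟨k, ?_⟩
    have hd' : d ^ (2 ^ k) ∈ ψ.ker := Subgroup.pow_mem _ hd _
    have hord : orderOf (ρ (d ^ (2 ^ k))) ∣ m := by
      refine orderOf_dvd_of_pow_eq_one ?_
      rw [← map_pow, ← pow_mul, ← hkm, pow_orderOf_eq_one, map_one]
    have hcop : (orderOf (ρ (d ^ (2 ^ k)))).Coprime 2 := by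
      refine Nat.Coprime.coprime_dvd_left hord ?_
      exact (Nat.coprime_two_right).2 hm
    have hfr : ∀ x : T, x⁻¹ * (ρ (d ^ (2 ^ k))) x ∈ frattini ↥T := by
      intro x
      rw [← hmemF]
      rw [← hq1]
      have h1 := hψ _ hd' x x.2
      push_cast
      rw [hρ, map_mul, map_inv, map_mul, map_mul, map_inv, h1, inv_mul_cancel]
    have h1 := Cfsg.Agent.Lib.Fusion.Meta.Frat.aut_eq_one_of_frattini hT2 _ hcop hfr
    exact h1
  -- Step C
  let CX : Subgroup X := ρ.ker.map π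
  haveI hCXn : CX.Normal := Subgroup.Normal.map inferInstance π hπ
  have hCX : CX = ⊤ := by
    refine top_of_perfect hX CX ?_
    have hP : IsPGroup 2 (X ⧸ CX) := by
      intro y
      obtain ⟨x, rfl⟩ := QuotientGroup.mk'_surjective CX y
      have hx : x ∈ DX := by rw [hDX]; trivial
      obtain ⟨d, hd, rfl⟩ := hx
      obtain ⟨k, hk⟩ := hstepB d hd
      refine ⟨k, ?_⟩
      rw [← map_pow, ← map_pow, QuotientGroup.mk'_apply, QuotientGroup.eq_one_iff]
      exact ⟨_, hk, rfl⟩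
    haveI := hP.isNilpotent
    infer_instance
  intro x
  have hx : x ∈ CX := by rw [hCX]; trivial
  obtain ⟨c, hc, rfl⟩ := hx
  refine ⟨c, ?_, rfl⟩
  intro t ht
  have h1 : ρ c = 1 := hc
  have h2 := hρ c ⟨t, ht⟩
  rw [h1] at h2
  have h3 : t = c * t * c⁻¹ := h2
  calc c * t = (c * t * c⁻¹) * c := by group
    _ = t * c := by rw [← h3]

theorem card_cent_of_isConj {G : Type*} [Group G] {a b : G} (h : IsConj a b) :
    Nat.card (centralizer ({a} : Set G)) = Nat.card (centralizer ({b} : Set G)) := by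
  obtain ⟨c, hc⟩ := isConj_iff.1 h
  refine Nat.card_congr ((MulAut.conj c).toEquiv.subtypeEquiv ?_)
  intro x
  simp only [Subgroup.mem_centralizer_singleton_iff, MulEquiv.toEquiv_eq_coe, EquivLike.coe_coe,
    MulAut.conj_apply]
  subst hc
  constructor
  · intro hx
    calc c * x * c⁻¹ * (c * a * c⁻¹) = c * (x * a) * c⁻¹ := by group
      _ = c * (a * x) * c⁻¹ := by rw [hx]
      _ = (c * a * c⁻¹) * (c * x * c⁻¹) := by group
  · intro hx
    have h2 : c * (x * a) * c⁻¹ = c * (a * x) * c⁻¹ := by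
      calc c * (x * a) * c⁻¹ = c * x * c⁻¹ * (c * a * c⁻¹) := by group
        _ = (c * a * c⁻¹) * (c * x * c⁻¹) := hx
        _ = c * (a * x) * c⁻¹ := by group
    exact mul_left_cancel (mul_right_cancel h2)

end SylowKAux

theorem sylow_card_le_two [Finite G] {K : Subgroup G} [hKn : K.Normal] (S : Setup u K) (P : Sylow 2 K) :
    Nat.card P ≤ 2 := by
  classical
  haveI hf2 : Fact (Nat.Prime 2) := ⟨Nat.prime_two⟩
  set T₀ : Subgroup G := (P : Subgroup K).map K.subtype with hT₀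
  have hT₀K : T₀ ≤ K := Subgroup.map_subtype_le _
  have hT₀2 : IsPGroup 2 T₀ := P.isPGroup'.map K.subtype
  let N : Subgroup G := normalizer (T₀ : Set G)
  have hT₀N : T₀ ≤ N := Subgroup.le_normalizer
  let T : Subgroup N := T₀.subgroupOf N
  haveI hTn : T.Normal := (Subgroup.normal_subgroupOf_iff_le_normalizer hT₀N).2 le_rfl
  have hTmem : ∀ x : N, x ∈ T ↔ (x : G) ∈ T₀ := fun x => Subgroup.mem_subgroupOf
  have hT2 : IsPGroup 2 T := by
    intro t
    obtain ⟨k, hk⟩ := hT₀2 ⟨((t : N) : G), (hTmem _).1 t.2⟩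
    refine ⟨k, Subtype.ext (Subtype.ext ?_)⟩
    simpa using congrArg Subtype.val hk
  let π : N →* G ⧸ K := (QuotientGroup.mk' K).comp N.subtype
  have hπval : ∀ x : N, π x = ((x : G) : G ⧸ K) := fun _ => rfl
  have hπs : Function.Surjective π := by
    intro y
    obtain ⟨g, rfl⟩ := QuotientGroup.mk'_surjective K y
    obtain ⟨n, hn, h, hh, rfl⟩ := Cfsg.Agent.Lib.Basic.SylowUtil.frattini_argument' P g
    refine ⟨⟨h, hh⟩, ?_⟩
    rw [hπval]
    show ((h : G) : G ⧸ K) = ((n * h : G) : G ⧸ K)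
    rw [QuotientGroup.eq]
    have : h⁻¹ * (n * h) ∈ K := by
      have := hKn.conj_mem n hn h⁻¹
      simpa [mul_assoc] using this
    exact this
  have hTπ : T ≤ π.ker := by
    intro t ht
    show ((( t : N) : G) : G ⧸ K) = 1
    rw [QuotientGroup.eq_one_iff]
    exact hT₀K ((hTmem t).1 ht)
  have hperf : commutator (G ⧸ K) = ⊤ := by
    have hs := QuotientGroup.mk'_surjective K
    have hX := S.perf
    rw [_root_.commutator_def] at hX ⊢
    have := Subgroup.map_commutator (⊤ : Subgroup G) ⊤ (QuotientGroup.mk' K)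
    rw [hX, Subgroup.map_top_of_surjective _ hs] at this
    exact this.symm
  have hform : ∀ x : N, π x = (u : G ⧸ K) → IsConj (x : G) u := by
    intro x hx
    have h1 : u⁻¹ * (x : G) ∈ K := QuotientGroup.eq.1 hx.symm
    have h2 := isConj_mul S h1
    simpa using h2
  obtain ⟨v, hv⟩ := hπs (u : G ⧸ K)
  have hvconj := hform v hv
  have hcv : Nat.card (centralizer ({(v : G)} : Set G)) = 4 := by
    rw [SylowKAux.card_cent_of_isConj hvconj]
    exact S.cent
  have hv1 : π v ≠ 1 := by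
    rw [hv]
    intro h
    exact S.hu ((QuotientGroup.eq_one_iff u).1 h)
  have hvord : (v : G) ^ 4 = 1 := by
    have h1 : orderOf (v : G) ∣ 4 := by
      obtain ⟨c, hc⟩ := isConj_iff.1 hvconj
      have h2 : orderOf u = orderOf (v : G) := by
        rw [← hc]
        exact orderOf_injective (MulAut.conj c).toMonoidHom (MulAut.conj c).injective _
      rw [← h2]
      exact orderOf_dvd_four S
    exact orderOf_dvd_iff_pow_eq_one.1 h1
  have hv2K : (v : G) ^ 2 ∈ K := by
    rw [← QuotientGroup.eq_one_iff]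
    have h1 : (((v : G) ^ 2 : G) : G ⧸ K) = (π v) ^ 2 := by
      rw [hπval]; rfl
    rw [h1, hv]
    have h2 : ((u : G ⧸ K)) ^ 2 = ((u ^ 2 : G) : G ⧸ K) := rfl
    rw [h2, QuotientGroup.eq_one_iff]
    exact S.hu2
  have hv2T₀ : (v : G) ^ 2 ∈ T₀ := by
    let x : G := (v : G) ^ 2
    have hxN : x ∈ N := N.pow_mem v.2 2
    have hzp : IsPGroup 2 (Subgroup.zpowers x) := by
      intro y
      obtain ⟨n, hn⟩ := y.2
      refine ⟨1, Subtype.ext ?_⟩
      show ((y : G)) ^ (2 ^ 1) = 1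
      have h4 : x ^ 2 = 1 := by
        show ((v : G) ^ 2) ^ 2 = 1
        rw [← pow_mul]
        exact hvord
      rw [← hn]
      show (x ^ n) ^ (2 ^ 1) = 1
      rw [pow_one, ← zpow_natCast (x ^ n) 2, ← zpow_mul, mul_comm, zpow_mul, zpow_natCast, h4, one_zpow]
    have hQ : IsPGroup 2 (Subgroup.zpowers x ⊔ T₀ : Subgroup G) :=
      IsPGroup.to_sup_of_normal_right' hzp hT₀2 ((Subgroup.zpowers_le).2 hxN)
    have hQK : (Subgroup.zpowers x ⊔ T₀ : Subgroup G) ≤ K :=
      sup_le ((Subgroup.zpowers_le).2 hv2K) hT₀K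
    let Q' : Subgroup K := (Subgroup.zpowers x ⊔ T₀ : Subgroup G).comap K.subtype
    have hQ' : IsPGroup 2 Q' := hQ.comap_of_injective K.subtype K.subtype_injective
    have hPQ : (P : Subgroup K) ≤ Q' := by
      intro a ha
      exact Subgroup.mem_comap.2 (Subgroup.mem_sup_right ⟨a, ha, rfl⟩)
    have heq := P.is_maximal' hQ' hPQ
    have hx' : (⟨x, hv2K⟩ : K) ∈ Q' :=
      Subgroup.mem_comap.2 (Subgroup.mem_sup_left (Subgroup.mem_zpowers x))
    rw [heq] at hx'
    exact ⟨_, hx', rfl⟩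
  have hv2 : v ^ 2 ∈ T := (hTmem _).2 (by simpa using hv2T₀)
  have hvc : Nat.card (centralizer ({v} : Set N)) ≤ 4 := by
    rw [← hcv]
    refine Nat.card_le_card_of_injective
      (fun y : centralizer ({v} : Set N) => (⟨((y : N) : G), ?_⟩ : centralizer ({(v : G)} : Set G))) ?_
    · have h1 := (Subgroup.mem_centralizer_singleton_iff).1 y.2
      refine (Subgroup.mem_centralizer_singleton_iff).2 ?_
      exact congrArg Subtype.val h1
    · intro a b hab
      have := congrArg (fun z : centralizer ({(v : G)} : Set G) => (z : G)) hab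
      exact Subtype.ext (Subtype.ext this)
  obtain ⟨c, hcT, hcπ⟩ := SylowKAux.exists_cent_cover T hT2 π hπs hTπ hperf hv1 hv2 hvc (u : G ⧸ K)
  have hcconj := hform c hcπ
  have hcc : Nat.card (centralizer ({(c : G)} : Set G)) = 4 := by
    rw [SylowKAux.card_cent_of_isConj hcconj]
    exact S.cent
  have hle : T₀ ≤ centralizer ({(c : G)} : Set G) := by
    intro t ht
    refine (Subgroup.mem_centralizer_singleton_iff).2 ?_
    have h1 := hcT ⟨t, hT₀N ht⟩ ((hTmem _).2 ht)
    exact (congrArg Subtype.val h1).symm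
  have hcK : (c : G) ∉ K := by
    intro h
    apply hv1
    rw [hv, ← hcπ, hπval, QuotientGroup.eq_one_iff]
    exact h
  have hne : Nat.card T₀ ≠ 4 := by
    intro h
    have h2 : T₀ = centralizer ({(c : G)} : Set G) :=
      Subgroup.eq_of_le_of_card_ge hle (by rw [hcc, h])
    have h3 : (c : G) ∈ centralizer ({(c : G)} : Set G) :=
      (Subgroup.mem_centralizer_singleton_iff).2 rfl
    rw [← h2] at h3
    exact hcK (hT₀K h3)
  have hdvd : Nat.card T₀ ∣ 4 := hcc ▸ Subgroup.card_dvd_of_le hle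
  have hcardP : Nat.card P = Nat.card T₀ :=
    (Nat.card_congr ((P : Subgroup K).equivMapOfInjective K.subtype K.subtype_injective).toEquiv)
  rw [hcardP]
  have h5 : Nat.card T₀ ≤ 4 := Nat.le_of_dvd (by norm_num) hdvd
  interval_cases h : Nat.card T₀ <;> first | omega | (exfalso; revert hdvd; norm_num)

end Cfsg.Agent.Lib.S4758
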