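import Cfsg.Agent.Lib.S4758.Defs
import Cfsg.Agent.Lib.S4758.SylowK
import Cfsg.Agent.Lib.S4758.OddCase
import Cfsg.Agent.Lib.S4758.Complement
import Cfsg.Agent.Lib.S4758.QuatQuot
import Cfsg.Agent.Lib.S4758.OddAbel
import Cfsg.Agent.Lib.S4758.CoreEq
import Cfsg.Agent.Lib.S4758.Rec60
import Cfsg.Agent.S3378

/-! Assembly of the group-theoretic part of S4758. -/

set_option autoImplicit false

namespace Cfsg.Agent.Lib.S4758

open Cfsg Subgroup

universe w

variable {G : Type w} [Group G] {u : G}

theorem group_main [Finite G] {K : Subgroup G} [K.Normal] (S : Setup u K) :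
    IsMulCommutative ↥(Cfsg.oddCore G) ∧
      ((Nonempty (G ⧸ Cfsg.oddCore G ≃* Matrix.ProjectiveSpecialLinearGroup (Fin 2) (ZMod 5)) ∧ orderOf u = 2) ∨
       (Nonempty (G ⧸ Cfsg.oddCore G ≃* Matrix.SpecialLinearGroup (Fin 2) (ZMod 5)) ∧ orderOf u = 4)) := by
  classical
  have hcardG : Nat.card G = 60 * Nat.card K := by
    have := Subgroup.card_eq_card_quotient_mul_card_subgroup K
    rw [S.card] at this
    exact this
  by_cases hK : Odd (Nat.card K)
  · obtain ⟨hbot, h2⟩ := odd_case S hK
    have hK1 : Nat.card K = 1 := by rw [hbot]; simp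
    have hcG : Nat.card G = 60 := by rw [hcardG, hK1]
    have hcore : oddCore G = ⊥ := by
      refine oddCore_eq S (O := ⊥) bot_le (by simp) ?_
      simp [hK1]
    refine ⟨?_, Or.inl ⟨?_, h2⟩⟩
    · rw [hcore]
      infer_instance
    · obtain ⟨e⟩ := iso_psl_of_perfect_sixty S.perf hcG
      exact ⟨(QuotientGroup.quotientMulEquivOfEq hcore).trans ((QuotientGroup.quotientBot).trans e)⟩
  · have hK2 : ∀ P : Sylow 2 K, Nat.card P = 2 := by
      intro P
      have hle := sylow_card_le_two S P
      have hdvd : 2 ^ 1 ∣ Nat.card K := by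
        rw [pow_one]
        exact even_iff_two_dvd.1 (Nat.not_odd_iff_even.1 hK)
      have := P.pow_dvd_card_of_pow_dvd_card hdvd
      rw [pow_one] at this
      have hpos : 0 < Nat.card P := Nat.card_pos
      have := Nat.le_of_dvd hpos this
      omega
    obtain ⟨O, hON, hOK, hO, hc⟩ := exists_complement hK2
    haveI := hON
    obtain ⟨hQ, h4⟩ := quat_quot S hOK hO hc
    have hab := odd_abelian S hOK hO hc h4
    have hcore : oddCore G = O := oddCore_eq S hOK hO hc.le
    refine ⟨by rw [hcore]; exact hab, Or.inr ⟨?_, h4⟩⟩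
    have hcardQ : Nat.card (G ⧸ O) = 120 := by
      have h1 := Subgroup.card_eq_card_quotient_mul_card_subgroup O
      rw [hcardG, hc] at h1
      have hpos : 0 < Nat.card O := Nat.card_pos
      have : (Nat.card (G ⧸ O)) * Nat.card O = 120 * Nat.card O := by rw [← h1]; ring
      exact Nat.eq_of_mul_eq_mul_right hpos this
    have hperfQ : commutator (G ⧸ O) = ⊤ := by
      have hs : Function.Surjective (QuotientGroup.mk' O) := QuotientGroup.mk'_surjective O
      have := Subgroup.map_commutator (⊤ : Subgroup G) (⊤ : Subgroup G) (QuotientGroup.mk' O)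
      rw [commutator_def, ← Subgroup.map_top_of_surjective _ hs, ← this, ← commutator_def, S.perf]
    have hns : ¬ Group.IsSolvable (G ⧸ O) := by
      intro hsol
      haveI : Nontrivial (G ⧸ O) := by
        rw [← Finite.one_lt_card_iff_nontrivial, hcardQ]; norm_num
      obtain ⟨n, hn⟩ := hsol.solvable
      have htop : ∀ k, derivedSeries (G ⧸ O) k = ⊤ := by
        intro k
        induction k with
        | zero => rfl
        | succ k ih =>
          rw [derivedSeries_succ, ih]
          exact hperfQ
      rw [htop n] at hn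
      exact top_ne_bot hn
    obtain ⟨e⟩ := (Cfsg.Agent.S3378.result).1 (G ⧸ O) hcardQ hns hQ
    exact ⟨(QuotientGroup.quotientMulEquivOfEq hcore).trans e⟩

end Cfsg.Agent.Lib.S4758
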