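import Cfsg.Agent.Lib.S4758.Defs
import Cfsg.Agent.Lib.Char.Ortho
import Cfsg.Agent.Lib.Char.Burnside2

/-! Piece KERNORM of S4758: the average of a class function over a normal subgroup. -/

set_option autoImplicit false
open scoped ComplexConjugate

namespace Cfsg.Agent.Lib.S4758

open Cfsg Subgroup

universe w

variable {G : Type w} [Group G]

/-- `(1/|K|) ∑_{k ∈ K} φ k = ∑_{α ∈ Irr(G/K)} α(1) ⟨φ, α∘π⟩`. -/
theorem avg_ker [Fintype G] [Fintype (IrrCharacter G)] (K : Subgroup G) [K.Normal] [Fintype K] [Fintype (G ⧸ K)]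
    [Fintype (IrrCharacter (G ⧸ K))] (φ : G → ℂ) (hφ : IsClassFunction G φ) :
    (Nat.card K : ℂ)⁻¹ * ∑ k : K, φ k =
      ∑ α : IrrCharacter (G ⧸ K), (α : (G ⧸ K) → ℂ) 1 *
        classInner φ (fun g : G => (α : (G ⧸ K) → ℂ) (g : G ⧸ K)) := by
  classical
  have hcol : ∀ g : G, ∑ α : IrrCharacter (G ⧸ K), (α : (G ⧸ K) → ℂ) 1 * conj ((α : (G ⧸ K) → ℂ) (g : G ⧸ K)) =
      if g ∈ K then (Nat.card (G ⧸ K) : ℂ) else 0 := by
    intro g
    have h1 := Cfsg.Agent.Lib.Char.Burnside2.sum_degree_mul_character (G := G ⧸ K) ((g : G ⧸ K)⁻¹)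
    have h2 : ∀ α : IrrCharacter (G ⧸ K), conj ((α : (G ⧸ K) → ℂ) (g : G ⧸ K)) = (α : (G ⧸ K) → ℂ) ((g : G ⧸ K)⁻¹) :=
      fun α => Cfsg.Agent.Lib.Char.Ortho.conj_of_isCharacter (Cfsg.Agent.Lib.Char.Basic.isCharacter_of_isIrrCharacter α.2) _
    simp only [h2]
    rw [h1]
    have h3 : ((g : G ⧸ K)⁻¹ = 1) ↔ g ∈ K := by
      rw [inv_eq_one, QuotientGroup.eq_one_iff]
    simp only [h3]
  have hcard : (Nat.card G : ℂ) = (Nat.card (G ⧸ K) : ℂ) * (Nat.card K : ℂ) := by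
    rw [Subgroup.card_eq_card_quotient_mul_card_subgroup K]
    push_cast
    ring
  have hQ0 : (Nat.card (G ⧸ K) : ℂ) ≠ 0 := by
    exact_mod_cast Nat.card_pos.ne'
  have hK0 : (Nat.card K : ℂ) ≠ 0 := by
    exact_mod_cast Nat.card_pos.ne'
  have hsub : ∑ g : G, (if g ∈ K then φ g else 0) = ∑ k : K, φ k := by
    rw [← Finset.sum_filter]
    exact Finset.sum_subtype (p := fun x => x ∈ K) _ (by simp) φ
  simp only [classInner]
  calc (Nat.card K : ℂ)⁻¹ * ∑ k : K, φ k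
      = (Nat.card G : ℂ)⁻¹ * ∑ g : G, φ g * (if g ∈ K then (Nat.card (G ⧸ K) : ℂ) else 0) := by
        have : ∀ g : G, φ g * (if g ∈ K then (Nat.card (G ⧸ K) : ℂ) else 0) =
            (Nat.card (G ⧸ K) : ℂ) * (if g ∈ K then φ g else 0) := by
          intro g
          split_ifs <;> ring
        simp only [this]
        rw [← Finset.mul_sum, hsub, hcard]
        field_simp
    _ = (Nat.card G : ℂ)⁻¹ * ∑ g : G, φ g *
          ∑ α : IrrCharacter (G ⧸ K), (α : (G ⧸ K) → ℂ) 1 * conj ((α : (G ⧸ K) → ℂ) (g : G ⧸ K)) := by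
        simp only [hcol]
    _ = _ := by
        simp only [Finset.mul_sum]
        rw [Finset.sum_comm]
        refine Finset.sum_congr rfl fun α _ => Finset.sum_congr rfl fun g _ => ?_
        ring

end Cfsg.Agent.Lib.S4758
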