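import Cfsg.Agent.Lib.Char.Ortho

/-! Piece A8a of S4758: a character of degree 3 does not have norm 6. -/

set_option autoImplicit false

namespace Cfsg.Agent.Lib.S4758

open Cfsg Cfsg.Agent.Lib.Char.Ortho
open scoped ComplexConjugate

universe w

namespace NormSix

theorem sum_sq_le {ι : Type*} (s : Finset ι) (f : ι → ℕ) : ∑ i ∈ s, f i ^ 2 ≤ (∑ i ∈ s, f i) ^ 2 := by
  classical
  induction s using Finset.induction_on with
  | empty => simp
  | insert a s ha ih =>
    rw [Finset.sum_insert ha, Finset.sum_insert ha]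
    nlinarith [Nat.zero_le (f a * ∑ i ∈ s, f i)]

theorem sum_sq_ne_six {ι : Type*} (s : Finset ι) (f : ι → ℕ) (h : ∑ i ∈ s, f i ≤ 3) :
    ∑ i ∈ s, f i ^ 2 ≠ 6 := by
  classical
  intro h6
  by_cases hi : ∃ i ∈ s, 2 ≤ f i
  · obtain ⟨i, his, h2⟩ := hi
    have h1 := Finset.add_sum_erase s f his
    have h3 := Finset.add_sum_erase s (fun j => f j ^ 2) his
    have h4 := sum_sq_le (s.erase i) f
    generalize ∑ j ∈ s.erase i, f j = b at *
    generalize ∑ j ∈ s.erase i, f j ^ 2 = c at *
    generalize f i = a at *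
    have ha : a ≤ 3 := by omega
    have hb : b ≤ 1 := by omega
    interval_cases a <;> interval_cases b <;> omega
  · push Not at hi
    have : ∑ i ∈ s, f i ^ 2 = ∑ i ∈ s, f i := by
      refine Finset.sum_congr rfl fun i his => ?_
      have := hi i his
      interval_cases (f i) <;> rfl
    omega

end NormSix

/-- A character of degree `3` does not have norm `6`. -/
theorem norm_ne_six {G : Type w} [Group G] [Fintype G] {φ : G → ℂ} (hφ : IsCharacter G φ)
    (h3 : φ 1 = 3) : classInner φ φ ≠ 6 := by
  intro h6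
  choose m hm using fun i : IrrCharacter G => exists_nat_classInner hφ i
  choose d hd0 hd using fun i : IrrCharacter G => irr_degree_pos i.2
  have hsum : ∑ i : IrrCharacter G, m i * d i = 3 := by
    have h1 := congrFun (decomp_eq_sum_classInner hφ) 1
    rw [Finset.sum_apply] at h1
    have h2 : ((∑ i : IrrCharacter G, m i * d i : ℕ) : ℂ) = ((3 : ℕ) : ℂ) := by
      push_cast
      rw [← h3, h1]
      refine Finset.sum_congr rfl fun i _ => ?_
      simp [hm i, hd i]
    exact_mod_cast h2
  have hle : ∑ i : IrrCharacter G, m i ≤ 3 := by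
    rw [← hsum]
    refine Finset.sum_le_sum fun i _ => ?_
    exact Nat.le_mul_of_pos_right _ (hd0 i)
  have hsq : ∑ i : IrrCharacter G, m i ^ 2 = 6 := by
    have h1 := classInner_eq_sum_mul hφ hφ
    have h2 : ((∑ i : IrrCharacter G, m i ^ 2 : ℕ) : ℂ) = ((6 : ℕ) : ℂ) := by
      push_cast
      rw [← h6, h1]
      refine Finset.sum_congr rfl fun i _ => ?_
      have h4 : classInner (i : G → ℂ) φ = m i := by
        rw [← classInner_conj_symm, hm i]
        simp
      rw [hm i, h4, sq]
    exact_mod_cast h2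
  exact NormSix.sum_sq_ne_six _ m hle hsq

end Cfsg.Agent.Lib.S4758
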