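import Mathlib
import Cfsg.Agent.Lib.S4758.PowerCore
import Cfsg.Agent.Lib.Char.Basic

/-! S4758 piece A5b, second half: from the involution case to the general case, via the quotient by
the normal closure of `u²`. -/

set_option autoImplicit false
open scoped ComplexConjugate

namespace Cfsg.Agent.Lib.S4758

open Cfsg Subgroup

universe w

variable {G : Type w} [Group G] {u : G}

/-- The reduction of `exists_real` to `exists_real_of_involution`: `exists_real` is
`exists_real_of_quot (perfect hyp) (exists_X hyp hu)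
  (fun N _ _ h1 h2 => exists_real_of_involution (hyp.quot N) h1 h2)`. -/
theorem exists_real_of_quot [Fintype G] (hperf : commutator G = ⊤)
    (hX : ∃ χ : IrrCharacter G, IsX u χ)
    (hinv : ∀ (N : Subgroup G) [N.Normal] [Fintype (G ⧸ N)], (u : G ⧸ N) ≠ 1 → (u : G ⧸ N) ^ 2 = 1 →
      ∃ χ : IrrCharacter (G ⧸ N), IsX (u : G ⧸ N) χ ∧ IsReal (χ : G ⧸ N → ℂ)) :
    ∃ χ : IrrCharacter G, IsX u χ ∧ IsReal (χ : G → ℂ) := by
  classical
  obtain ⟨χ, hχ⟩ := hX
  have hsq := sq_of_isX hperf hχ
  let N : Subgroup G := normalClosure ({u ^ 2} : Set G)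
  have : N.Normal := normalClosure_normal
  let _ : Fintype (G ⧸ N) := Fintype.ofFinite _
  have hne : (u : G ⧸ N) ≠ 1 := by
    intro h1
    have huN : u ∈ N := (QuotientGroup.eq_one_iff u).1 h1
    obtain ⟨χ, n, ρ, hρ, rfl⟩ := χ
    have hfr : ρ.character 1 = (Module.finrank ℂ (Fin n → ℂ) : ℂ) := by simp
    have h3 : ρ.character (u ^ 2) = ρ.character 1 := by
      have h4 : ρ.character 1 = 3 := hχ.1
      rw [h4]; exact hsq
    have hid := (Cfsg.Agent.Lib.Char.Values.character_eq_finrank_iff ρ (u ^ 2)).1 (by rw [h3, hfr])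
    have hle : N ≤ MonoidHom.ker ρ := by
      apply normalClosure_le_normal
      intro x hx
      rw [Set.mem_singleton_iff.1 hx]
      show u ^ 2 ∈ MonoidHom.ker ρ
      rw [MonoidHom.mem_ker, hid]
      rfl
    have h5 : ρ u = 1 := (MonoidHom.mem_ker).1 (hle huN)
    have h6 : ρ.character u = ρ.character 1 := by
      have h9 : ρ u = ρ 1 := by rw [h5, map_one]
      show LinearMap.trace ℂ _ (ρ u) = LinearMap.trace ℂ _ (ρ 1)
      rw [h9]
    have h7 : ρ.character u = -1 := hχ.2
    have h8 : ρ.character 1 = 3 := hχ.1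
    rw [h7, h8] at h6
    norm_num at h6
  have h2 : (u : G ⧸ N) ^ 2 = 1 := by
    rw [← QuotientGroup.mk_pow]
    exact (QuotientGroup.eq_one_iff _).2 (subset_normalClosure (Set.mem_singleton _))
  obtain ⟨ψ, hψ, hr⟩ := hinv N hne h2
  have hirr := Cfsg.Agent.Lib.Char.Basic.isIrrCharacter_comp_surjective ψ.2 (QuotientGroup.mk' N)
    (QuotientGroup.mk'_surjective N)
  refine ⟨⟨_, hirr⟩, ⟨?_, ?_⟩, ?_⟩
  · have := hψ.1
    simpa using this
  · exact hψ.2
  · intro g
    exact hr _

end Cfsg.Agent.Lib.S4758
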