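import Cfsg.Agent.Lib.S4758.Defs
import Cfsg.Agent.Lib.S4758.KerNorm
import Cfsg.Agent.Lib.S4758.NormSix
import Cfsg.Agent.Lib.Char.Ortho
import Cfsg.Agent.Lib.Char.QuotRep
import Cfsg.Agent.Lib.Char.Codegree
import Cfsg.Agent.Lib.Char.Burnside2
import Cfsg.Agent.Lib.Char.Complete

/-! Core of piece A8c1 (X2) of S4758, the facts of the pieces Table, Power, Degrees and Sixty being hypotheses. -/

set_option autoImplicit false
open scoped ComplexConjugate

namespace Cfsg.Agent.Lib.S4758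

open Cfsg Subgroup Cfsg.Agent.Lib.Char.Ortho Cfsg.Agent.Lib.Char.Basic

universe w

namespace X2Aux

variable {G : Type w} [Group G]

/-- The trivial irreducible character. -/
noncomputable def one (G : Type w) [Group G] : IrrCharacter G :=
  ⟨triv G, Cfsg.Agent.Lib.Char.Burnside2.isIrrCharacter_one⟩

theorem inner_congr [Fintype G] {a b c d : G → ℂ} (h : ∀ g, a g * conj (b g) = c g * conj (d g)) :
    classInner a b = classInner c d := by
  unfold classInner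
  congr 1
  exact Finset.sum_congr rfl fun g _ => h g

/-- The conjugate character. -/
noncomputable def cj [Fintype G] (χ : IrrCharacter G) : IrrCharacter G :=
  ⟨fun g => conj (χ.1 g), (isIrrCharacter_iff (isCharacter_conj (isCharacter_of_isIrrCharacter χ.2))).2 (by
    rw [inner_congr (c := χ.1) (d := χ.1) (fun g => by simp [mul_comm])]
    exact classInner_irr_self χ.2)⟩

theorem ip_ne [Fintype G] {a b : IrrCharacter G} (h : a ≠ b) : classInner a.1 b.1 = 0 :=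
  classInner_irr_of_ne a.2 b.2 (fun e => h (Subtype.ext e))

theorem ip_deg [Fintype G] {a b : IrrCharacter G} (h : a.1 1 ≠ b.1 1) : classInner a.1 b.1 = 0 :=
  ip_ne (fun e => h (by rw [e]))

theorem ip_self [Fintype G] (a : IrrCharacter G) : classInner a.1 a.1 = 1 := classInner_irr_self a.2

/-- Inflation. -/
noncomputable def infl (K : Subgroup G) [K.Normal] (α : IrrCharacter (G ⧸ K)) : IrrCharacter G :=
  ⟨fun g => α.1 (g : G ⧸ K), isIrrCharacter_comp_surjective α.2 (QuotientGroup.mk' K) (QuotientGroup.mk'_surjective K)⟩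

theorem infl_inj (K : Subgroup G) [K.Normal] {α β : IrrCharacter (G ⧸ K)} (h : infl K α = infl K β) : α = β := by
  apply Subtype.ext
  funext x
  obtain ⟨g, rfl⟩ := QuotientGroup.mk_surjective x
  exact congrFun (congrArg Subtype.val h) g

theorem infl_ker (K : Subgroup G) [K.Normal] (α : IrrCharacter (G ⧸ K)) {k : G} (hk : k ∈ K) :
    (infl K α).1 k = (infl K α).1 1 := by
  show α.1 (k : G ⧸ K) = α.1 ((1 : G) : G ⧸ K)
  rw [(QuotientGroup.eq_one_iff k).2 hk]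
  rfl

theorem descend [Finite G] (K : Subgroup G) [K.Normal] (χ : IrrCharacter G) (h : ∀ k ∈ K, χ.1 k = χ.1 1) :
    ∃ α : IrrCharacter (G ⧸ K), infl K α = χ := by
  obtain ⟨χf, n, ρ, hρ, hχ⟩ := χ
  have hN : ∀ g ∈ K, ρ g = 1 := by
    intro g hg
    have h1 : ρ.character g = ρ.character 1 := by
      rw [hχ]
      exact h g hg
    exact (Cfsg.Agent.Lib.Char.Codegree.character_eq_one_iff ρ g).1 h1
  have := hρ
  refine ⟨⟨(Cfsg.Agent.Lib.Char.QuotRep.quotRep ρ K hN).character,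
    ⟨n, Cfsg.Agent.Lib.Char.QuotRep.quotRep ρ K hN,
      Cfsg.Agent.Lib.Char.QuotRep.quotRep_isIrreducible ρ K hN, rfl⟩⟩, Subtype.ext ?_⟩
  funext g
  exact (Cfsg.Agent.Lib.Char.QuotRep.quotRep_character ρ K hN g).trans (congrFun hχ g)

variable {u : G}

/-- The table, as a hypothesis. -/
def TableHyp (u : G) [Fintype G] : Prop :=
  ∀ χ₁ χ₂ : IrrCharacter G, IsX u χ₁ → IsX u χ₂ →
    (∃ ζ τ : IrrCharacter G, IsX u ζ ∧ IsR u τ ∧ (χ₁ : G → ℂ) * (χ₂ : G → ℂ) = (ζ : G → ℂ) + (τ : G → ℂ)) ∨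
    (∃ θ σ : IrrCharacter G, IsP u θ ∧ IsB u 4 σ ∧ (χ₁ : G → ℂ) * (χ₂ : G → ℂ) = (θ : G → ℂ) + (σ : G → ℂ)) ∨
    (∃ ζ θ : IrrCharacter G, IsX u ζ ∧ IsP u θ ∧ (χ₁ : G → ℂ) * (χ₂ : G → ℂ) = triv G + (ζ : G → ℂ) + (θ : G → ℂ)) ∨
    (∃ σ₁ σ₂ : IrrCharacter G, IsB u 4 σ₁ ∧ IsB u 4 σ₂ ∧ (χ₁ : G → ℂ) * (χ₂ : G → ℂ) = triv G + (σ₁ : G → ℂ) + (σ₂ : G → ℂ)) ∨
    (∃ σ : IrrCharacter G, IsB u 8 σ ∧ (χ₁ : G → ℂ) * (χ₂ : G → ℂ) = triv G + (σ : G → ℂ))

theorem triv_eq : triv G = (one G).1 := rfl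

theorem one_deg : (one G).1 1 = 1 := rfl

theorem deg_ne {a b : ℕ} (h : a ≠ b) : (a : ℂ) ≠ (b : ℂ) := by exact_mod_cast h

/-- `χ²` for real `χ`. -/
theorem square_form [Fintype G] (htable : TableHyp u)
    (hmul : ∀ {χ : G → ℂ}, IsCharacter G χ → χ 1 = 3 → ∃ S : G → ℂ, IsCharacter G S ∧
      χ * χ = (fun g => conj (χ g)) + S)
    (χ : IrrCharacter G) (hX : IsX u χ) (hreal : IsReal (χ : G → ℂ)) :
    ∃ θ : IrrCharacter G, IsP u θ ∧ (χ : G → ℂ) * (χ : G → ℂ) = triv G + (χ : G → ℂ) + (θ : G → ℂ) := by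
  have h1 : classInner ((χ : G → ℂ) * (χ : G → ℂ)) (one G).1 = 1 := by
    rw [inner_congr (c := χ.1) (d := χ.1) (fun g => ?_), ip_self]
    have hr := hreal g
    show χ.1 g * χ.1 g * conj (1 : ℂ) = χ.1 g * conj (χ.1 g)
    rw [hr, map_one, mul_one]
  have h2 : classInner ((χ : G → ℂ) * (χ : G → ℂ)) χ.1 ≠ 0 := by
    obtain ⟨S, hS, eS⟩ := hmul (isCharacter_of_isIrrCharacter χ.2) hX.1
    have e : (fun g => conj (χ.1 g)) = χ.1 := funext hreal
    rw [eS, e, classInner_add_left, ip_self]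
    obtain ⟨n, hn⟩ := exists_nat_classInner hS χ
    rw [hn]
    have hne : ((n + 1 : ℕ) : ℂ) ≠ 0 := Nat.cast_ne_zero.2 (Nat.succ_ne_zero n)
    rw [Nat.cast_add, Nat.cast_one, add_comm] at hne
    exact hne
  have hχ3 : χ.1 1 = 3 := hX.1
  rcases htable χ χ hX hX with ⟨ζ, τ, hz, ht, e⟩ | ⟨θ, σ, ht, hs, e⟩ | ⟨ζ, θ, hz, ht, e⟩ | ⟨σ₁, σ₂, h₁, h₂, e⟩ | ⟨σ, h₁, e⟩
  · exfalso
    rw [e, classInner_add_left, ip_deg (a := ζ) (b := one G) (by rw [hz.1, one_deg]; norm_num),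
      ip_deg (a := τ) (b := one G) (by rw [ht.1, one_deg]; norm_num)] at h1
    norm_num at h1
  · exfalso
    rw [e, classInner_add_left, ip_deg (a := θ) (b := one G) (by rw [ht.1, one_deg]; norm_num),
      ip_deg (a := σ) (b := one G) (by rw [hs.1, one_deg]; norm_num)] at h1
    norm_num at h1
  · have hzχ : ζ = χ := by
      by_contra hne
      apply h2
      rw [e, classInner_add_left, classInner_add_left, triv_eq,
        ip_deg (a := one G) (b := χ) (by rw [hχ3, one_deg]; norm_num), ip_ne hne,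
        ip_deg (a := θ) (b := χ) (by rw [ht.1, hχ3]; norm_num)]
      norm_num
    subst hzχ
    exact ⟨θ, ht, e⟩
  · exfalso
    apply h2
    rw [e, classInner_add_left, classInner_add_left, triv_eq,
      ip_deg (a := one G) (b := χ) (by rw [hχ3, one_deg]; norm_num),
      ip_deg (a := σ₁) (b := χ) (by rw [h₁.1, hχ3]; norm_num),
      ip_deg (a := σ₂) (b := χ) (by rw [h₂.1, hχ3]; norm_num)]
    norm_num
  · exfalso
    apply h2
    rw [e, classInner_add_left, triv_eq,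
      ip_deg (a := one G) (b := χ) (by rw [hχ3, one_deg]; norm_num),
      ip_deg (a := σ) (b := χ) (by rw [h₁.1, hχ3]; norm_num)]
    norm_num

/-- `⟨ξτ, ξτ⟩ = 2` for real `ξ`, `τ ≠ ξ`. -/
theorem norm_two [Fintype G] (htable : TableHyp u)
    (ξ τ : IrrCharacter G) (hξ : IsX u ξ) (hτ : IsX u τ) (hreal : IsReal (ξ : G → ℂ)) (hne : τ ≠ ξ) :
    classInner ((ξ : G → ℂ) * (τ : G → ℂ)) ((ξ : G → ℂ) * (τ : G → ℂ)) = 2 := by
  have h1 : classInner ((ξ : G → ℂ) * (τ : G → ℂ)) (one G).1 = 0 := by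
    rw [inner_congr (c := τ.1) (d := ξ.1) (fun g => ?_), ip_ne hne]
    have hr := hreal g
    show ξ.1 g * τ.1 g * conj (1 : ℂ) = τ.1 g * conj (ξ.1 g)
    rw [hr, map_one, mul_one, mul_comm]
  rcases htable ξ τ hξ hτ with ⟨ζ, τ', hz, ht, e⟩ | ⟨θ, σ, ht, hs, e⟩ | ⟨ζ, θ, hz, ht, e⟩ | ⟨σ₁, σ₂, h₁, h₂, e⟩ | ⟨σ, h₁, e⟩
  · rw [e, classInner_add_left, classInner_add_right, classInner_add_right, ip_self, ip_self,
      ip_deg (a := ζ) (b := τ') (by rw [hz.1, ht.1]; norm_num),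
      ip_deg (a := τ') (b := ζ) (by rw [hz.1, ht.1]; norm_num)]
    norm_num
  · rw [e, classInner_add_left, classInner_add_right, classInner_add_right, ip_self, ip_self,
      ip_deg (a := θ) (b := σ) (by rw [ht.1, hs.1]; norm_num),
      ip_deg (a := σ) (b := θ) (by rw [ht.1, hs.1]; norm_num)]
    norm_num
  · exfalso
    rw [e, classInner_add_left, classInner_add_left, triv_eq, ip_self,
      ip_deg (a := ζ) (b := one G) (by rw [hz.1, one_deg]; norm_num),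
      ip_deg (a := θ) (b := one G) (by rw [ht.1, one_deg]; norm_num)] at h1
    norm_num at h1
  · exfalso
    rw [e, classInner_add_left, classInner_add_left, triv_eq, ip_self,
      ip_deg (a := σ₁) (b := one G) (by rw [h₁.1, one_deg]; norm_num),
      ip_deg (a := σ₂) (b := one G) (by rw [h₂.1, one_deg]; norm_num)] at h1
    norm_num at h1
  · exfalso
    rw [e, classInner_add_left, triv_eq, ip_self,
      ip_deg (a := σ) (b := one G) (by rw [h₁.1, one_deg]; norm_num)] at h1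
    norm_num at h1

/-- The main contradiction: no third `X` besides two real ones with the same square constituent. -/
theorem no_third [Fintype G] (K : Subgroup G) [K.Normal] (htable : TableHyp u)
    (χ₀ ζ θ₀ τ : IrrCharacter G) (h0 : IsX u χ₀) (hz : IsX u ζ) (hτ : IsX u τ)
    (hr0 : IsReal (χ₀ : G → ℂ)) (hrz : IsReal (ζ : G → ℂ)) (hne : χ₀ ≠ ζ)
    (hθ₀ : IsP u θ₀)
    (e0 : (χ₀ : G → ℂ) * (χ₀ : G → ℂ) = triv G + (χ₀ : G → ℂ) + (θ₀ : G → ℂ))
    (ez : (ζ : G → ℂ) * (ζ : G → ℂ) = triv G + (ζ : G → ℂ) + (θ₀ : G → ℂ))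
    (β : IrrCharacter (G ⧸ K)) (hβ : infl K β = θ₀)
    (hkerX : ∀ ξ : IrrCharacter G, IsX u ξ → (∀ k ∈ K, ξ.1 k = ξ.1 1) → ξ = χ₀ ∨ ξ = ζ)
    (h1 : τ ≠ χ₀) (h2 : τ ≠ ζ) : False := by
  classical
  let _ : Fintype (IrrCharacter G) := Fintype.ofFinite _
  let _ : Fintype K := Fintype.ofFinite _
  let _ : Fintype (G ⧸ K) := Fintype.ofFinite _
  let _ : Fintype (IrrCharacter (G ⧸ K)) := Fintype.ofFinite _
  set τ' := cj τ with hτ'
  have hτ'X : IsX u τ' := by
    constructor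
    · show conj (τ.1 1) = 3
      rw [hτ.1]; exact map_ofNat (starRingEnd ℂ) 3
    · show conj (τ.1 u) = -1
      rw [hτ.2, map_neg, map_one]
  set φ : G → ℂ := (τ : G → ℂ) * (τ' : G → ℂ) with hφ
  have hφone : classInner φ (one G).1 = 1 := by
    rw [inner_congr (c := τ.1) (d := τ.1) (fun g => ?_), ip_self]
    show τ.1 g * conj (τ.1 g) * conj (1 : ℂ) = τ.1 g * conj (τ.1 g)
    rw [map_one, mul_one]
  -- the relation from a real `ξ`
  have key : ∀ ξ : IrrCharacter G, IsX u ξ → IsReal (ξ : G → ℂ) → τ ≠ ξ →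
      (ξ : G → ℂ) * (ξ : G → ℂ) = triv G + (ξ : G → ℂ) + (θ₀ : G → ℂ) →
      classInner (ξ : G → ℂ) φ + classInner (θ₀ : G → ℂ) φ = 1 := by
    intro ξ hξ hr hne' e
    have h3 := norm_two htable ξ τ hξ hτ hr hne'
    have h4 : classInner ((ξ : G → ℂ) * (τ : G → ℂ)) ((ξ : G → ℂ) * (τ : G → ℂ)) =
        classInner ((ξ : G → ℂ) * (ξ : G → ℂ)) φ := by
      apply inner_congr
      intro g
      show ξ.1 g * τ.1 g * conj (ξ.1 g * τ.1 g) = ξ.1 g * ξ.1 g * conj (τ.1 g * conj (τ.1 g))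
      rw [map_mul, map_mul, Complex.conj_conj, hr g]
      ring
    rw [h4, e, classInner_add_left, classInner_add_left] at h3
    have h5 : classInner (triv G) φ = 1 := by
      have h6 := classInner_conj_symm φ (one G).1
      rw [hφone, map_one] at h6
      exact h6.symm
    rw [h5] at h3
    linear_combination h3
  have k0 := key χ₀ h0 hr0 h1 e0
  have kz := key ζ hz hrz h2 ez
  -- the table of `τ τ̄`
  obtain ⟨ξ, hξ, eφ, hξ0, hξz⟩ : ∃ ξ : IrrCharacter G, IsX u ξ ∧ φ = triv G + (ξ : G → ℂ) + (θ₀ : G → ℂ) ∧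
      ξ ≠ χ₀ ∧ ξ ≠ ζ := by
    have hX3 : ∀ {a : IrrCharacter G}, IsX u a → classInner a.1 θ₀.1 = 0 := fun {a} ha =>
      ip_deg (by rw [ha.1, hθ₀.1]; norm_num)
    rcases htable τ τ' hτ hτ'X with ⟨ζ', τ'', hz', ht, e⟩ | ⟨θ, σ, ht, hs, e⟩ | ⟨ζ', θ, hz', ht, e⟩ | ⟨σ₁, σ₂, h₁, h₂, e⟩ | ⟨σ, h₁, e⟩
    · exfalso
      rw [hφ, e, classInner_add_left, ip_deg (a := ζ') (b := one G) (by rw [hz'.1, one_deg]; norm_num),
        ip_deg (a := τ'') (b := one G) (by rw [ht.1, one_deg]; norm_num)] at hφone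
      norm_num at hφone
    · exfalso
      rw [hφ, e, classInner_add_left, ip_deg (a := θ) (b := one G) (by rw [ht.1, one_deg]; norm_num),
        ip_deg (a := σ) (b := one G) (by rw [hs.1, one_deg]; norm_num)] at hφone
      norm_num at hφone
    · rw [hφ, e] at k0 kz
      rw [classInner_add_right, classInner_add_right, classInner_add_right, classInner_add_right,
        triv_eq, ip_deg (a := χ₀) (b := one G) (by rw [h0.1, one_deg]; norm_num),
        ip_deg (a := θ₀) (b := one G) (by rw [hθ₀.1, one_deg]; norm_num),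
        ip_deg (a := χ₀) (b := θ) (by rw [h0.1, ht.1]; norm_num),
        ip_deg (a := θ₀) (b := ζ') (by rw [hθ₀.1, hz'.1]; norm_num)] at k0
      rw [classInner_add_right, classInner_add_right, classInner_add_right, classInner_add_right,
        triv_eq, ip_deg (a := ζ) (b := one G) (by rw [hz.1, one_deg]; norm_num),
        ip_deg (a := θ₀) (b := one G) (by rw [hθ₀.1, one_deg]; norm_num),
        ip_deg (a := ζ) (b := θ) (by rw [hz.1, ht.1]; norm_num),
        ip_deg (a := θ₀) (b := ζ') (by rw [hθ₀.1, hz'.1]; norm_num)] at kz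
      by_cases hθ : θ₀ = θ
      · subst hθ
        rw [ip_self] at k0 kz
        refine ⟨ζ', hz', by rw [hφ, e], ?_, ?_⟩
        · intro hh
          subst hh
          rw [ip_self] at k0
          norm_num at k0
        · intro hh
          subst hh
          rw [ip_self] at kz
          norm_num at kz
      · exfalso
        rw [ip_ne hθ] at k0 kz
        have c0 : χ₀ = ζ' := by
          by_contra hh
          rw [ip_ne hh] at k0
          norm_num at k0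
        have cz : ζ = ζ' := by
          by_contra hh
          rw [ip_ne hh] at kz
          norm_num at kz
        exact hne (c0.trans cz.symm)
    · exfalso
      rw [hφ, e] at k0
      rw [classInner_add_right, classInner_add_right, classInner_add_right, classInner_add_right,
        triv_eq, ip_deg (a := χ₀) (b := one G) (by rw [h0.1, one_deg]; norm_num),
        ip_deg (a := θ₀) (b := one G) (by rw [hθ₀.1, one_deg]; norm_num),
        ip_deg (a := χ₀) (b := σ₁) (by rw [h0.1, h₁.1]; norm_num),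
        ip_deg (a := χ₀) (b := σ₂) (by rw [h0.1, h₂.1]; norm_num),
        ip_deg (a := θ₀) (b := σ₁) (by rw [hθ₀.1, h₁.1]; norm_num),
        ip_deg (a := θ₀) (b := σ₂) (by rw [hθ₀.1, h₂.1]; norm_num)] at k0
      norm_num at k0
    · exfalso
      rw [hφ, e] at k0
      rw [classInner_add_right, classInner_add_right,
        triv_eq, ip_deg (a := χ₀) (b := one G) (by rw [h0.1, one_deg]; norm_num),
        ip_deg (a := θ₀) (b := one G) (by rw [hθ₀.1, one_deg]; norm_num),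
        ip_deg (a := χ₀) (b := σ) (by rw [h0.1, h₁.1]; norm_num),
        ip_deg (a := θ₀) (b := σ) (by rw [hθ₀.1, h₁.1]; norm_num)] at k0
      norm_num at k0
  -- average over `K`
  have hφc : IsCharacter G φ := isCharacter_mul (isCharacter_of_isIrrCharacter τ.2)
    (isCharacter_of_isIrrCharacter τ'.2)
  have havg := avg_ker K φ (isClassFunction_of_isCharacter hφc)
  have hres : IsCharacter K (fun k : K => τ.1 k) :=
    isCharacter_restrict (isCharacter_of_isIrrCharacter τ.2) K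
  have hne6 := norm_ne_six hres (by
    show τ.1 ((1 : K) : G) = 3
    rw [Subgroup.coe_one]
    exact hτ.1)
  apply hne6
  have hL : classInner (fun k : K => τ.1 k) (fun k : K => τ.1 k) =
      (Nat.card K : ℂ)⁻¹ * ∑ k : K, φ k := rfl
  rw [hL, havg]
  let f : IrrCharacter (G ⧸ K) → ℂ := fun α => α.1 1 * classInner φ (fun g : G => α.1 (g : G ⧸ K))
  have hone_ne : one (G ⧸ K) ≠ β := by
    intro e
    have h5 : (infl K β).1 1 = 5 := by rw [hβ]; exact hθ₀.1
    have h6 : (infl K β).1 1 = 1 := by rw [← e]; rfl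
    rw [h5] at h6
    norm_num at h6
  have hf0 : ∀ α, α ≠ one (G ⧸ K) ∧ α ≠ β → f α = 0 := by
    rintro α ⟨ha1, ha2⟩
    have e1 : classInner φ (infl K α).1 = 0 := by
      rw [eφ, classInner_add_left, classInner_add_left, triv_eq]
      have i1 : one G ≠ infl K α := fun e => ha1 (infl_inj K (α := α) (β := one (G ⧸ K)) (by rw [← e]; rfl))
      have i2 : ξ ≠ infl K α := by
        intro e
        rcases hkerX ξ hξ (fun k hk => by rw [e]; exact infl_ker K α hk) with e' | e'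
        · exact hξ0 e'
        · exact hξz e'
      have i3 : θ₀ ≠ infl K α := fun e => ha2 (infl_inj K (by rw [hβ, e]))
      rw [ip_ne i1, ip_ne i2, ip_ne i3]
      norm_num
    show α.1 1 * classInner φ (infl K α).1 = 0
    rw [e1, mul_zero]
  have hf1 : f (one (G ⧸ K)) = 1 := by
    show (1 : ℂ) * classInner φ (one G).1 = 1
    rw [hφone, one_mul]
  have hfβ : f β = 5 := by
    show β.1 1 * classInner φ (infl K β).1 = 5
    have e5 : β.1 1 = 5 := by
      have : (infl K β).1 1 = 5 := by rw [hβ]; exact hθ₀.1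
      exact this
    rw [e5, hβ, eφ, classInner_add_left, classInner_add_left, triv_eq,
      ip_deg (a := one G) (b := θ₀) (by rw [hθ₀.1, one_deg]; norm_num),
      ip_deg (a := ξ) (b := θ₀) (by rw [hξ.1, hθ₀.1]; norm_num), ip_self]
    norm_num
  have hsum : ∑ α : IrrCharacter (G ⧸ K), f α = f (one (G ⧸ K)) + f β :=
    Finset.sum_eq_add _ _ hone_ne (fun c _ hc => hf0 c hc)
      (fun h => absurd (Finset.mem_univ _) h) (fun h => absurd (Finset.mem_univ _) h)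
  show ∑ α : IrrCharacter (G ⧸ K), f α = 6
  rw [hsum, hf1, hfβ]
  norm_num

end X2Aux

section Main

variable {G : Type w} [Group G] {u : G}

theorem nA_three_eq_two_core [Fintype G] (K : Subgroup G) [K.Normal]
    (χ₀ : IrrCharacter G) (h0 : IsX u χ₀) (hreal : IsReal (χ₀ : G → ℂ)) (hχ₀K : ∀ k ∈ K, (χ₀ : G → ℂ) k = 3)
    (hdeg : ∀ ψ : IrrCharacter G, (ψ : G → ℂ) ≠ triv G → (ψ : G → ℂ) u ≠ 0 → IsX u ψ ∨ IsP u ψ ∨ IsR u ψ)
    (htable : X2Aux.TableHyp u)
    (hmul : ∀ {χ : G → ℂ}, IsCharacter G χ → χ 1 = 3 → ∃ S : G → ℂ, IsCharacter G S ∧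
      χ * χ = (fun g => conj (χ g)) + S)
    (hconst : ∀ {f : G → ℂ}, IsCharacter G f → ∀ x : G, f x = f 1 → ∀ τ : IrrCharacter G,
      classInner f (τ : G → ℂ) ≠ 0 → (τ : G → ℂ) x = (τ : G → ℂ) 1)
    (h3 : nA (u : G ⧸ K) 3 = 2) (h5 : nA (u : G ⧸ K) 5 = 1) : nA u 3 = 2 := by
  classical
  have hdeg3 : ∀ ξ : IrrCharacter G, ξ.1 1 = 3 → ξ.1 u ≠ 0 → IsX u ξ := by
    intro ξ h1 h2
    rcases hdeg ξ (fun e => by
        have := congrFun e 1
        rw [h1] at this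
        norm_num [triv] at this) h2 with h | h | h
    · exact h
    · exfalso
      have := h.1
      rw [h1] at this
      norm_num at this
    · exfalso
      have := h.1
      rw [h1] at this
      norm_num at this
  have hχ0ker : ∀ k ∈ K, χ₀.1 k = χ₀.1 1 := fun k hk => by rw [hχ₀K k hk, h0.1]
  obtain ⟨α₀, hα₀⟩ := X2Aux.descend K χ₀ hχ0ker
  have hinfl1 : ∀ α : IrrCharacter (G ⧸ K), (X2Aux.infl K α).1 1 = α.1 1 := fun _ => rfl
  have hinflu : ∀ α : IrrCharacter (G ⧸ K), (X2Aux.infl K α).1 u = α.1 (u : G ⧸ K) := fun _ => rfl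
  have hα₀1 : α₀.1 1 = 3 := by rw [← hinfl1, hα₀]; exact h0.1
  have hα₀u : α₀.1 (u : G ⧸ K) ≠ 0 := by
    rw [← hinflu, hα₀, h0.2]
    norm_num
  let Y3 := {α : IrrCharacter (G ⧸ K) // α.1 1 = 3 ∧ α.1 (u : G ⧸ K) ≠ 0}
  have hY3 : Nat.card Y3 = 2 := h3
  let y₀ : Y3 := ⟨α₀, hα₀1, hα₀u⟩
  obtain ⟨y₁, hy₁, huq⟩ := (Nat.card_eq_two_iff' y₀).1 hY3
  have hY3all : ∀ y : Y3, y = y₀ ∨ y = y₁ := fun y => by
    by_cases h : y = y₀
    · exact Or.inl h
    · exact Or.inr (huq y h)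
  let ζ : IrrCharacter G := X2Aux.infl K y₁.1
  have hz3 : ζ.1 1 = 3 := y₁.2.1
  have hzu : ζ.1 u ≠ 0 := y₁.2.2
  have hzX : IsX u ζ := hdeg3 ζ hz3 hzu
  have hzker : ∀ k ∈ K, ζ.1 k = ζ.1 1 := fun k hk => X2Aux.infl_ker K y₁.1 hk
  have hne : χ₀ ≠ ζ := by
    intro e
    apply hy₁
    apply Subtype.ext
    apply X2Aux.infl_inj K
    exact (e.symm.trans hα₀.symm)
  have hkerX : ∀ ξ : IrrCharacter G, IsX u ξ → (∀ k ∈ K, ξ.1 k = ξ.1 1) → ξ = χ₀ ∨ ξ = ζ := by
    intro ξ hξ hk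
    obtain ⟨α, hα⟩ := X2Aux.descend K ξ hk
    have a1 : α.1 1 = 3 := by rw [← hinfl1, hα]; exact hξ.1
    have a2 : α.1 (u : G ⧸ K) ≠ 0 := by
      rw [← hinflu, hα, hξ.2]
      norm_num
    rcases hY3all ⟨α, a1, a2⟩ with e | e
    · left
      rw [← hα, ← hα₀]
      exact congrArg (X2Aux.infl K) (congrArg Subtype.val e)
    · right
      rw [← hα]
      exact congrArg (X2Aux.infl K) (congrArg Subtype.val e)
  have hzr : IsReal (ζ : G → ℂ) := by
    have hcX : IsX u (X2Aux.cj ζ) := by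
      constructor
      · show conj (ζ.1 1) = 3
        rw [hzX.1]; exact map_ofNat (starRingEnd ℂ) 3
      · show conj (ζ.1 u) = -1
        rw [hzX.2, map_neg, map_one]
    rcases hkerX (X2Aux.cj ζ) hcX (fun k hk => by
        show conj (ζ.1 k) = conj (ζ.1 1)
        rw [hzker k hk]) with e | e
    · exfalso
      apply hne
      apply Subtype.ext
      funext g
      have e1 : conj (ζ.1 g) = χ₀.1 g := congrFun (congrArg Subtype.val e) g
      have e2 := congrArg conj e1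
      rw [Complex.conj_conj, hreal g] at e2
      exact e2.symm
    · intro g
      exact congrFun (congrArg Subtype.val e) g
  obtain ⟨θ₀, hθ₀, e0⟩ := X2Aux.square_form htable hmul χ₀ h0 hreal
  obtain ⟨θ₁, hθ₁, ez⟩ := X2Aux.square_form htable hmul ζ hzX hzr
  -- the kernels of `θ₀`, `θ₁`
  have hθker : ∀ (χ θ : IrrCharacter G), IsX u χ → IsP u θ → (∀ k ∈ K, χ.1 k = χ.1 1) →
      (χ : G → ℂ) * (χ : G → ℂ) = triv G + (χ : G → ℂ) + (θ : G → ℂ) → ∀ k ∈ K, θ.1 k = θ.1 1 := by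
    intro χ θ hχ hθ hk e k hk'
    have hf : IsCharacter G ((χ : G → ℂ) * (χ : G → ℂ)) :=
      isCharacter_mul (isCharacter_of_isIrrCharacter χ.2) (isCharacter_of_isIrrCharacter χ.2)
    refine hconst hf k ?_ θ ?_
    · show χ.1 k * χ.1 k = χ.1 1 * χ.1 1
      rw [hk k hk']
    · rw [e, classInner_add_left, classInner_add_left, X2Aux.triv_eq,
        X2Aux.ip_deg (a := X2Aux.one G) (b := θ) (by rw [hθ.1, X2Aux.one_deg]; norm_num),
        X2Aux.ip_deg (a := χ) (b := θ) (by rw [hχ.1, hθ.1]; norm_num), X2Aux.ip_self]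
      norm_num
  have hk0 := hθker χ₀ θ₀ h0 hθ₀ hχ0ker e0
  have hk1 := hθker ζ θ₁ hzX hθ₁ hzker ez
  obtain ⟨β₀, hβ₀⟩ := X2Aux.descend K θ₀ hk0
  obtain ⟨β₁, hβ₁⟩ := X2Aux.descend K θ₁ hk1
  let Y5 := {α : IrrCharacter (G ⧸ K) // α.1 1 = 5 ∧ α.1 (u : G ⧸ K) ≠ 0}
  have hY5 : Nat.card Y5 = 1 := h5
  have hmemY5 : ∀ (β : IrrCharacter (G ⧸ K)) (θ : IrrCharacter G), X2Aux.infl K β = θ → IsP u θ →
      β.1 1 = 5 ∧ β.1 (u : G ⧸ K) ≠ 0 := by
    intro β θ e hθ
    constructor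
    · rw [← hinfl1, e]; exact hθ.1
    · rw [← hinflu, e, hθ.2]; norm_num
  have hθeq : θ₁ = θ₀ := by
    have hss := (Nat.card_eq_one_iff_unique.1 hY5).1
    have h' : (⟨β₀, hmemY5 β₀ θ₀ hβ₀ hθ₀⟩ : Y5) = ⟨β₁, hmemY5 β₁ θ₁ hβ₁ hθ₁⟩ := hss.elim _ _
    have h'' : β₀ = β₁ := congrArg Subtype.val h'
    rw [← hβ₀, ← hβ₁, h'']
  subst hθeq
  -- conclusion
  have hall : ∀ τ : IrrCharacter G, τ.1 1 = 3 → τ.1 u ≠ 0 → τ = χ₀ ∨ τ = ζ := by
    intro τ h1 h2
    by_contra hc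
    have hc1 : τ ≠ χ₀ := fun e => hc (Or.inl e)
    have hc2 : τ ≠ ζ := fun e => hc (Or.inr e)
    exact X2Aux.no_third K htable χ₀ ζ θ₁ τ h0 hzX (hdeg3 τ h1 h2) hreal hzr hne hθ₀ e0 ez β₀ hβ₀ hkerX hc1 hc2
  show Nat.card {χ : IrrCharacter G // (χ : G → ℂ) 1 = (3 : ℕ) ∧ (χ : G → ℂ) u ≠ 0} = 2
  have h0mem : χ₀.1 1 = ((3 : ℕ) : ℂ) ∧ χ₀.1 u ≠ 0 := ⟨by rw [h0.1]; norm_num, by rw [h0.2]; norm_num⟩
  have hzmem : ζ.1 1 = ((3 : ℕ) : ℂ) ∧ ζ.1 u ≠ 0 := ⟨by rw [hz3]; norm_num, hzu⟩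
  rw [Nat.card_eq_two_iff' (⟨χ₀, h0mem⟩ : {χ : IrrCharacter G // (χ : G → ℂ) 1 = (3 : ℕ) ∧ (χ : G → ℂ) u ≠ 0})]
  refine ⟨⟨ζ, hzmem⟩, fun e => hne (congrArg Subtype.val e).symm, ?_⟩
  rintro ⟨τ, h1, h2⟩ hτ
  rcases hall τ (by rw [h1]; norm_num) h2 with e | e
  · exact absurd (Subtype.ext e) hτ
  · exact Subtype.ext e

end Main

end Cfsg.Agent.Lib.S4758
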